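import Mathlib
import Cfsg.Prelude.Def_Characters
import Cfsg.Agent.Helper2.CharN4
import Cfsg.Agent.Helper2.DetChar

namespace Cfsg.Agent.Helper2.Dual

open Cfsg.Agent.Lead Cfsg.Agent.Helper2.CharN Cfsg.Agent.Helper2.DetChar
open scoped ComplexConjugate

universe u

/-- orthogonality for the dual of a finite abelian group -/
theorem sum_dual {A : Type u} [CommGroup A] [Finite A] [Fintype (A →* ℂˣ)] (a : A)
    [Decidable (a = 1)] :
    ∑ l : A →* ℂˣ, ((l a : ℂˣ) : ℂ) = if a = 1 then (Nat.card A : ℂ) else 0 := by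
  classical
  by_cases ha : a = 1
  · rw [if_pos ha, ha]
    simp only [map_one, Units.val_one, Finset.sum_const, Finset.card_univ, nsmul_eq_mul, mul_one]
    rw [← Nat.card_eq_fintype_card, CommGroup.card_monoidHom_of_hasEnoughRootsOfUnity A ℂ]
  · rw [if_neg ha]
    obtain ⟨l₀, hl₀⟩ := CommGroup.exists_apply_ne_one_of_hasEnoughRootsOfUnity A ℂ ha
    have h1 : ∑ l : A →* ℂˣ, ((l a : ℂˣ) : ℂ)
        = ((l₀ a : ℂˣ) : ℂ) * ∑ l : A →* ℂˣ, ((l a : ℂˣ) : ℂ) := by
      rw [Finset.mul_sum]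
      refine (Fintype.sum_equiv (Equiv.mulLeft l₀) _ _ (fun l => ?_)).symm
      show ((l₀ a : ℂˣ) : ℂ) * ((l a : ℂˣ) : ℂ) = (((l₀ * l) a : ℂˣ) : ℂ)
      rw [MonoidHom.mul_apply, Units.val_mul]
    have h2 : (1 - ((l₀ a : ℂˣ) : ℂ)) * ∑ l : A →* ℂˣ, ((l a : ℂˣ) : ℂ) = 0 := by
      rw [sub_mul, one_mul, ← h1, sub_self]
    rcases mul_eq_zero.mp h2 with h3 | h3
    · exfalso
      apply hl₀
      apply Units.ext
      rw [Units.val_one]
      exact (sub_eq_zero.mp h3).symm
    · exact h3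

/-- the function induced from the trivial character of a normal subgroup -/
theorem indFun_one_normal {T : Type u} [Group T] [Fintype T] (H : Subgroup T) [hH : H.Normal]
    (t : T) [Decidable (t ∈ H)] :
    Cfsg.indFun H (fun _ => (1 : ℂ)) t = if t ∈ H then (H.index : ℂ) else 0 := by
  classical
  rw [indFun_apply]
  have hH0 : (Nat.card H : ℂ) ≠ 0 := natCard_ne_zero_complex H
  by_cases ht : t ∈ H
  · rw [if_pos ht]
    have h1 : ∀ x : T, Cfsg.extendByZero H (fun _ => (1 : ℂ)) (x⁻¹ * t * x) = 1 := by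
      intro x
      have hx : x⁻¹ * t * x ∈ H := by
        have h2 := hH.conj_mem t ht x⁻¹
        rwa [inv_inv] at h2
      rw [extendByZero_mem H _ hx]
    rw [Finset.sum_congr rfl (fun x _ => h1 x), Finset.sum_const, Finset.card_univ,
      nsmul_eq_mul, mul_one, ← Nat.card_eq_fintype_card, ← Subgroup.card_mul_index H]
    push_cast
    field_simp
  · rw [if_neg ht]
    have h1 : ∀ x : T, Cfsg.extendByZero H (fun _ => (1 : ℂ)) (x⁻¹ * t * x) = 0 := by
      intro x
      have hx : x⁻¹ * t * x ∉ H := by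
        intro h2
        apply ht
        have h3 := hH.conj_mem _ h2 x
        have h4 : x * (x⁻¹ * t * x) * x⁻¹ = t := by group
        rwa [h4] at h3
      rw [extendByZero_not_mem H _ hx]
    rw [Finset.sum_congr rfl (fun x _ => h1 x), Finset.sum_const_zero, mul_zero]

/-- decomposition of the character induced from an invariant irreducible character of a normal
subgroup with abelian quotient -/
theorem abelian_quotient_decomp {T : Type u} [Group T] [Fintype T] (H : Subgroup T)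
    [hH : H.Normal] [Fintype H] {A : Type u} [CommGroup A] (π : T →* A)
    (hπ : Function.Surjective π) (hker : ∀ t, π t = 1 ↔ t ∈ H)
    (θ : H → ℂ) (hθ : Cfsg.IsIrrCharacter H θ)
    (hinv : ∀ (g : T) (n : H), θ ⟨g * n * g⁻¹, hH.conj_mem (n : T) n.2 g⟩ = θ n)
    (ψ : T → ℂ) (hψ : Cfsg.IsIrrCharacter T ψ)
    (hne : Cfsg.classInner (fun h : H => ψ h) θ ≠ 0) :
    ∃ (e : ℕ) (C : Finset (T → ℂ)), 0 < e ∧ (fun h : H => ψ h) = (e : ℂ) • θ ∧
      (∀ χ ∈ C, Cfsg.IsIrrCharacter T χ ∧ (fun h : H => χ h) = (e : ℂ) • θ) ∧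
      e ^ 2 * C.card = H.index ∧ Cfsg.indFun H θ = (e : ℂ) • ∑ χ ∈ C, χ := by
  classical
  haveI : Finite A := Finite.of_surjective π hπ
  have hcardL : Nat.card (A →* ℂˣ) = Nat.card A :=
    CommGroup.card_monoidHom_of_hasEnoughRootsOfUnity A ℂ
  haveI : Finite (A →* ℂˣ) :=
    Nat.finite_of_card_ne_zero (by rw [hcardL]; exact Nat.card_pos.ne')
  haveI : Fintype (A →* ℂˣ) := Fintype.ofFinite _
  have hcardA : Nat.card A = H.index := by
    have hk : π.ker = H := Subgroup.ext (fun t => by rw [MonoidHom.mem_ker]; exact hker t)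
    have e := QuotientGroup.quotientKerEquivOfSurjective π hπ
    rw [← Nat.card_congr e.toEquiv]
    show π.ker.index = H.index
    rw [hk]
  obtain ⟨e, he⟩ := res_inner_nat H (isCharacter_of_isIrrCharacter hψ)
    (isCharacter_of_isIrrCharacter hθ)
  have hres := res_eq_smul_of_invariant H hψ hθ hne hinv
  rw [he] at hres hne
  have he0 : e ≠ 0 := by
    rintro rfl
    exact hne (by simp)
  have he0' : (e : ℂ) ≠ 0 := by exact_mod_cast he0
  obtain ⟨n, ρ, hρ, rfl⟩ := hψ
  let F : (A →* ℂˣ) → (T → ℂ) :=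
    fun l => (fun t => (((l.comp π) t : ℂˣ) : ℂ)) * ρ.character
  have hFirr : ∀ l, Cfsg.IsIrrCharacter T (F l) := by
    intro l
    show Cfsg.IsIrrCharacter T ((fun t => (((l.comp π) t : ℂˣ) : ℂ)) * ρ.character)
    rw [← twist_character]
    exact ⟨n, twist ρ (l.comp π), twist_isIrreducible ρ (l.comp π) hρ, rfl⟩
  have hFres : ∀ l, (fun h : H => F l h) = (e : ℂ) • θ := by
    intro l
    rw [← hres]
    funext h
    show (((l (π h) : ℂˣ)) : ℂ) * ρ.character h = ρ.character h
    rw [(hker h).mpr h.2, map_one, Units.val_one, one_mul]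
  have hsum : (e : ℂ) • Cfsg.indFun H θ = ∑ l : A →* ℂˣ, F l := by
    have h1 : Cfsg.indFun H ((fun _ : H => (1 : ℂ)) * (fun h : H => ρ.character h))
        = Cfsg.indFun H (fun _ => 1) * ρ.character :=
      indFun_mul_res H (fun _ => 1) (fun h : H => ρ.character h)
        (isCharacter_isClassFunction ⟨n, ρ, rfl⟩) (fun _ => rfl)
    have h2 : (fun _ : H => (1 : ℂ)) * (fun h : H => ρ.character h) = (e : ℂ) • θ := by
      rw [← hres]
      funext h
      simp
    rw [h2] at h1
    have h3 : Cfsg.indFun H ((e : ℂ) • θ) = (e : ℂ) • Cfsg.indFun H θ := by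
      have h4 := indFun_sum_smul (H := H) ({()} : Finset Unit) (fun _ => (e : ℂ)) (fun _ => θ)
      simpa using h4
    rw [← h3, h1]
    funext t
    rw [Pi.mul_apply, indFun_one_normal, Finset.sum_apply]
    show _ = ∑ l : A →* ℂˣ, (((l (π t) : ℂˣ)) : ℂ) * ρ.character t
    rw [← Finset.sum_mul, sum_dual (π t)]
    by_cases ht : t ∈ H
    · rw [if_pos ht, if_pos ((hker t).mpr ht), hcardA]
    · rw [if_neg ht, if_neg (fun h => ht ((hker t).mp h))]
  let C : Finset (T → ℂ) := Finset.univ.image F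
  have hCirr : ∀ χ ∈ C, Cfsg.IsIrrCharacter T χ ∧ (fun h : H => χ h) = (e : ℂ) • θ := by
    intro χ hχ
    obtain ⟨l, -, rfl⟩ := Finset.mem_image.mp hχ
    exact ⟨hFirr l, hFres l⟩
  have hmult : ∀ χ ∈ C, (Finset.univ.filter (fun l => F l = χ)).card = e ^ 2 := by
    intro χ hχ
    obtain ⟨hχirr, hχres⟩ := hCirr χ hχ
    have h1 : Cfsg.classInner (∑ l : A →* ℂˣ, F l) χ
        = ((Finset.univ.filter (fun l => F l = χ)).card : ℂ) := by
      rw [classInner_sum_left]
      have h5 : ∀ l : A →* ℂˣ, Cfsg.classInner (F l) χ = if F l = χ then 1 else 0 := by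
        intro l
        have h6 := classInner_irr (⟨F l, hFirr l⟩ : Cfsg.IrrCharacter T) ⟨χ, hχirr⟩
        rw [h6]
        by_cases h : F l = χ
        · rw [if_pos h, if_pos (Subtype.ext h)]
        · rw [if_neg h, if_neg (fun h' => h (congrArg Subtype.val h'))]
      rw [Finset.sum_congr rfl (fun l _ => h5 l), Finset.sum_boole]
    have h2 : Cfsg.classInner (∑ l : A →* ℂˣ, F l) χ = ((e ^ 2 : ℕ) : ℂ) := by
      rw [← hsum, classInner_smul_left, Cfsg.Agent.S0146.result H θ χ
        (isCharacter_isClassFunction (isCharacter_of_isIrrCharacter hχirr)), hχres,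
        classInner_smul_right, classInner_self_of_isIrrCharacter hθ]
      simp [pow_two]
    rw [h1] at h2
    exact_mod_cast h2
  refine ⟨e, C, Nat.pos_of_ne_zero he0, hres, hCirr, ?_, ?_⟩
  · have h1 := Finset.card_eq_sum_card_image F (Finset.univ : Finset (A →* ℂˣ))
    rw [Finset.sum_congr rfl (fun χ hχ => hmult χ hχ), Finset.sum_const, smul_eq_mul,
      Finset.card_univ, ← Nat.card_eq_fintype_card, hcardL, hcardA] at h1
    rw [mul_comm]
    exact h1.symm
  · have h1 : ∑ l : A →* ℂˣ, F l = ∑ χ ∈ C, (e ^ 2 : ℕ) • χ := by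
      rw [Finset.sum_comp (fun χ => χ) F]
      exact Finset.sum_congr rfl (fun χ hχ => by rw [hmult χ hχ])
    rw [h1] at hsum
    have h2 : (e : ℂ) • Cfsg.indFun H θ = (e : ℂ) • ((e : ℂ) • ∑ χ ∈ C, χ) := by
      rw [hsum, Finset.smul_sum, Finset.smul_sum]
      refine Finset.sum_congr rfl (fun χ _ => ?_)
      rw [smul_smul, ← Nat.cast_smul_eq_nsmul ℂ]
      push_cast
      rw [pow_two]
    exact smul_right_injective _ he0' h2

end Cfsg.Agent.Helper2.Dual
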