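import Mathlib
import Cfsg.Agent.Helper2.Brauer6
import Cfsg.Agent.Helper2.Dual

/-! `p^a χ` on `p`-regular elements is a generalized character. -/

namespace Cfsg.Agent.Helper2.Brauer

open Cfsg.Agent.Lead

universe u

/-- membership in a normal `p`-complement -/
theorem mem_pcompl_iff {E : Type u} [Group E] [Finite E] {p : ℕ} (hp : p.Prime)
    (H : Subgroup E) [H.Normal] (hcop : Nat.Coprime (Nat.card H) p) {b : ℕ}
    (hb : H.index = p ^ b) (e : E) : e ∈ H ↔ ¬ p ∣ orderOf e := by
  constructor
  · intro he hdvd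
    have h1 : orderOf e ∣ Nat.card H := Subgroup.orderOf_dvd_natCard H he
    have h2 : p ∣ Nat.card H := dvd_trans hdvd h1
    exact hp.one_lt.ne' (Nat.Coprime.eq_one_of_dvd hcop.symm h2)
  · intro hnd
    rw [← QuotientGroup.eq_one_iff]
    have h1 : orderOf (e : E ⧸ H) ∣ orderOf e := orderOf_map_dvd (QuotientGroup.mk' H) e
    have h2 : orderOf (e : E ⧸ H) ∣ p ^ b := by
      rw [← hb]
      exact orderOf_dvd_natCard _
    obtain ⟨j, _, hj⟩ := (Nat.dvd_prime_pow hp).mp h2
    rw [hj] at h1
    rcases Nat.eq_zero_or_pos j with h0 | hpos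
    · rw [h0, pow_zero] at hj
      exact orderOf_eq_one_iff.mp hj
    · exact absurd (dvd_trans (dvd_pow_self p hpos.ne') h1) hnd

/-- elementary groups have normal `p`-complements for every prime `p` -/
theorem exists_pcompl {E : Type u} [Group E] [Finite E] {p q : ℕ} (hp : p.Prime) (hq : q.Prime)
    (h : Cfsg.IsElementary q E) :
    ∃ H : Subgroup E, H.Normal ∧ Nat.Coprime (Nat.card H) p ∧ ∃ b : ℕ, H.index = p ^ b := by
  obtain ⟨x, hx, hcop, k, hk⟩ := h
  obtain ⟨hzc, hzn⟩ := zpowers_normal_of_center hx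
  by_cases hpq : q = p
  · subst hpq
    exact ⟨Subgroup.zpowers x, hzn, by rw [Nat.card_zpowers]; exact hcop, k, hk⟩
  · haveI : Fact p.Prime := ⟨hp⟩
    haveI := hzn
    obtain ⟨P⟩ : Nonempty (Sylow p E) := inferInstance
    have hPc : (P : Subgroup E) ≤ Subgroup.center E := by
      intro g hg
      apply hzc
      rw [← QuotientGroup.eq_one_iff]
      have h1 : orderOf (g : E ⧸ Subgroup.zpowers x) ∣ orderOf g :=
        orderOf_map_dvd (QuotientGroup.mk' _) g
      have h2 : orderOf (g : E ⧸ Subgroup.zpowers x) ∣ q ^ k := by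
        rw [← hk]
        exact orderOf_dvd_natCard _
      obtain ⟨i, hi⟩ := (IsPGroup.iff_orderOf.mp P.isPGroup') ⟨g, hg⟩
      have hi' : orderOf g = p ^ i := by
        rw [← hi, Subgroup.orderOf_mk]
      rw [hi'] at h1
      have hcopqp : Nat.Coprime (p ^ i) (q ^ k) :=
        Nat.Coprime.pow _ _ ((Nat.coprime_primes hp hq).mpr (Ne.symm hpq))
      have h3 := Nat.dvd_gcd h1 h2
      rw [Nat.Coprime.gcd_eq_one hcopqp] at h3
      exact orderOf_eq_one_iff.mp (Nat.dvd_one.mp h3)
    haveI hPn : (P : Subgroup E).Normal := ⟨fun n hn g => by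
      have h1 : g * n * g⁻¹ = n := by
        have := Subgroup.mem_center_iff.mp (hPc hn) g
        rw [this]; group
      rw [h1]
      exact hn⟩
    obtain ⟨n, hn⟩ := IsPGroup.iff_card.mp P.isPGroup'
    have hndvd : ¬ p ∣ (P : Subgroup E).index := P.not_dvd_index
    have hcopP : Nat.Coprime (Nat.card (P : Subgroup E)) (P : Subgroup E).index := by
      rw [hn]
      exact Nat.Coprime.pow_left n ((Nat.Prime.coprime_iff_not_dvd hp).mpr hndvd)
    obtain ⟨H, hcompl⟩ := Subgroup.exists_right_complement'_of_coprime hcopP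
    refine ⟨H, ⟨fun m hm g => ?_⟩, ?_, ?_⟩
    · obtain ⟨⟨u, h⟩, huh⟩ := (Subgroup.isComplement'_def.mp hcompl).2 g
      have hu : (u : E) ∈ Subgroup.center E := hPc u.2
      have hcomm := Subgroup.mem_center_iff.mp hu
      have hX : (u : E) * ((h : E) * m * (h : E)⁻¹) = ((h : E) * m * (h : E)⁻¹) * (u : E) :=
        (hcomm _).symm
      have h1 : g * m * g⁻¹ = (h : E) * m * (h : E)⁻¹ := by
        rw [← huh]
        show (u : E) * (h : E) * m * ((u : E) * (h : E))⁻¹ = _
        calc (u : E) * (h : E) * m * ((u : E) * (h : E))⁻¹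
            = (u : E) * ((h : E) * m * (h : E)⁻¹) * (u : E)⁻¹ := by group
          _ = ((h : E) * m * (h : E)⁻¹) * (u : E) * (u : E)⁻¹ := by rw [hX]
          _ = (h : E) * m * (h : E)⁻¹ := by group
      rw [h1]
      exact H.mul_mem (H.mul_mem h.2 hm) (H.inv_mem h.2)
    · have h1 : Nat.card H = (P : Subgroup E).index := (hcompl.symm.index_eq_card).symm
      rw [h1]
      exact ((Nat.Prime.coprime_iff_not_dvd hp).mpr hndvd).symm
    · exact ⟨n, by rw [hcompl.index_eq_card, hn]⟩

theorem preg_char {G : Type u} [Group G] [Fintype G] (p : ℕ) (hp : p.Prime) (χ : G → ℂ)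
    (hχ : Cfsg.IsCharacter G χ) :
    Cfsg.IsGeneralizedCharacter G (fun x : G => if p ∣ orderOf x then 0
      else ((p ^ (Nat.card G).factorization p : ℕ) : ℂ) * χ x) := by
  classical
  refine brauer_char _ ?_ ?_
  · intro g h
    have ho : orderOf (h * g * h⁻¹) = orderOf g := by
      have := (MulAut.conj h).orderOf_eq g
      rwa [MulAut.conj_apply] at this
    have hc := isCharacter_isClassFunction hχ g h
    show (if p ∣ orderOf (h * g * h⁻¹) then (0:ℂ)
      else ((p ^ (Nat.card G).factorization p : ℕ) : ℂ) * χ (h * g * h⁻¹)) = _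
    rw [ho, hc]
  · intro E q hq hE
    obtain ⟨H, hHn, hcop, b, hb⟩ := exists_pcompl hp hq hE
    haveI := hHn
    haveI : Fintype E := Fintype.ofFinite E
    have hba : b ≤ (Nat.card G).factorization p := by
      have h1 : p ^ b ∣ Nat.card G := by
        rw [← hb]
        exact dvd_trans (Subgroup.index_dvd_card H) (Subgroup.card_subgroup_dvd_card E)
      exact (hp.pow_dvd_iff_le_factorization Nat.card_pos.ne').mp h1
    have hfun : (fun e : E => if p ∣ orderOf (e : G) then (0:ℂ)
          else ((p ^ (Nat.card G).factorization p : ℕ) : ℂ) * χ e)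
        = ((p ^ ((Nat.card G).factorization p - b) : ℕ) : ℂ)
            • (Cfsg.indFun H (fun _ => (1:ℂ)) * fun e : E => χ e) := by
      funext e
      rw [Pi.smul_apply, Pi.mul_apply, Cfsg.Agent.Helper2.Dual.indFun_one_normal H e, smul_eq_mul]
      have hiff := mem_pcompl_iff hp H hcop hb e
      rw [Subgroup.orderOf_coe]
      by_cases he : e ∈ H
      · rw [if_pos he, if_neg (hiff.mp he), hb]
        have hsplit : (Nat.card G).factorization p = ((Nat.card G).factorization p - b) + b := by
          omega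
        conv_lhs => rw [hsplit, pow_add]
        push_cast
        ring
      · rw [if_neg he, if_pos (not_not.mp (fun h => he (hiff.mpr h)))]
        simp
    show Cfsg.IsGeneralizedCharacter E (fun e : E => if p ∣ orderOf (e : G) then (0:ℂ)
          else ((p ^ (Nat.card G).factorization p : ℕ) : ℂ) * χ e)
    rw [hfun]
    exact gc_nsmul _ (gc_of_char (isCharacter_mul
      (Cfsg.Agent.S0148.result H _ isCharacter_one) (isCharacter_res E hχ)))

end Cfsg.Agent.Helper2.Brauer
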