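import Mathlib
import Cfsg.Agent.Helper2.Brauer7
import Cfsg.Agent.Helper2.GalAM2
import Cfsg.Agent.Lead.CharInt
import Cfsg.Agent.Lead.CharOdd

/-! Characters of `p`-defect zero vanish on `p`-singular elements. -/

namespace Cfsg.Agent.Helper2.Brauer

open Cfsg.Agent.Lead

universe u v

/-- elementary groups have normal `p`-complements whose elements have centralizers of order
divisible by the full power of `p` -/
theorem exists_pcompl' {E : Type u} [Group E] [Finite E] {p q : ℕ} (hp : p.Prime) (hq : q.Prime)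
    (h : Cfsg.IsElementary q E) :
    ∃ (H : Subgroup E) (b : ℕ), H.Normal ∧ Nat.Coprime (Nat.card H) p ∧ H.index = p ^ b ∧
      ∀ y ∈ H, p ^ b ∣ Nat.card (Subgroup.centralizer ({y} : Set E)) := by
  obtain ⟨x, hx, hcop, k, hk⟩ := h
  obtain ⟨hzc, hzn⟩ := zpowers_normal_of_center hx
  by_cases hpq : q = p
  · subst hpq
    refine ⟨Subgroup.zpowers x, k, hzn, by rw [Nat.card_zpowers]; exact hcop, hk, ?_⟩
    intro y hy
    have hyc : y ∈ Subgroup.center E := hzc hy
    have htop : Subgroup.centralizer ({y} : Set E) = ⊤ := by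
      rw [eq_top_iff]
      intro g _
      rw [Subgroup.mem_centralizer_iff]
      intro z hz
      rw [Set.mem_singleton_iff] at hz
      rw [hz]
      exact (Subgroup.mem_center_iff.mp hyc g).symm
    rw [htop, Subgroup.card_top, ← hk]
    exact Subgroup.index_dvd_card _
  · haveI : Fact p.Prime := ⟨hp⟩
    haveI := hzn
    obtain ⟨P⟩ : Nonempty (Sylow p E) := inferInstance
    have hPc : (P : Subgroup E) ≤ Subgroup.center E := by
      intro g hg
      apply hzc
      rw [← QuotientGroup.eq_one_iff]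
      have h1 : orderOf (g : E ⧸ Subgroup.zpowers x) ∣ orderOf g :=
        orderOf_map_dvd (QuotientGroup.mk' _) g
      have h2 : orderOf (g : E ⧸ Subgroup.zpowers x) ∣ q ^ k := by
        rw [← hk]
        exact orderOf_dvd_natCard _
      obtain ⟨i, hi⟩ := (IsPGroup.iff_orderOf.mp P.isPGroup') ⟨g, hg⟩
      have hi' : orderOf g = p ^ i := by
        rw [← hi, Subgroup.orderOf_mk]
      rw [hi'] at h1
      have hcopqp : Nat.Coprime (p ^ i) (q ^ k) :=
        Nat.Coprime.pow _ _ ((Nat.coprime_primes hp hq).mpr (Ne.symm hpq))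
      have h3 := Nat.dvd_gcd h1 h2
      rw [Nat.Coprime.gcd_eq_one hcopqp] at h3
      exact orderOf_eq_one_iff.mp (Nat.dvd_one.mp h3)
    haveI hPn : (P : Subgroup E).Normal := ⟨fun n hn g => by
      have h1 : g * n * g⁻¹ = n := by
        have := Subgroup.mem_center_iff.mp (hPc hn) g
        rw [this]; group
      rw [h1]
      exact hn⟩
    obtain ⟨n, hn⟩ := IsPGroup.iff_card.mp P.isPGroup'
    have hndvd : ¬ p ∣ (P : Subgroup E).index := P.not_dvd_index
    have hcopP : Nat.Coprime (Nat.card (P : Subgroup E)) (P : Subgroup E).index := by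
      rw [hn]
      exact Nat.Coprime.pow_left n ((Nat.Prime.coprime_iff_not_dvd hp).mpr hndvd)
    obtain ⟨H, hcompl⟩ := Subgroup.exists_right_complement'_of_coprime hcopP
    refine ⟨H, n, ⟨fun m hm g => ?_⟩, ?_, ?_, ?_⟩
    · obtain ⟨⟨u, h⟩, huh⟩ := (Subgroup.isComplement'_def.mp hcompl).2 g
      have hu : (u : E) ∈ Subgroup.center E := hPc u.2
      have hcomm := Subgroup.mem_center_iff.mp hu
      have hX : (u : E) * ((h : E) * m * (h : E)⁻¹) = ((h : E) * m * (h : E)⁻¹) * (u : E) :=
        (hcomm _).symm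
      have h1 : g * m * g⁻¹ = (h : E) * m * (h : E)⁻¹ := by
        rw [← huh]
        show (u : E) * (h : E) * m * ((u : E) * (h : E))⁻¹ = _
        calc (u : E) * (h : E) * m * ((u : E) * (h : E))⁻¹
            = (u : E) * ((h : E) * m * (h : E)⁻¹) * (u : E)⁻¹ := by group
          _ = ((h : E) * m * (h : E)⁻¹) * (u : E) * (u : E)⁻¹ := by rw [hX]
          _ = (h : E) * m * (h : E)⁻¹ := by group
      rw [h1]
      exact H.mul_mem (H.mul_mem h.2 hm) (H.inv_mem h.2)
    · have h1 : Nat.card H = (P : Subgroup E).index := (hcompl.symm.index_eq_card).symm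
      rw [h1]
      exact ((Nat.Prime.coprime_iff_not_dvd hp).mpr hndvd).symm
    · rw [hcompl.index_eq_card, hn]
    · intro y _
      rw [← hn]
      apply Subgroup.card_dvd_of_le
      intro g hg
      rw [Subgroup.mem_centralizer_iff]
      intro z hz
      rw [Set.mem_singleton_iff] at hz
      rw [hz]
      exact Subgroup.mem_center_iff.mp (hPc hg) y

theorem integral_of_defect_zero {G : Type u} [Group G] [Finite G] {V : Type v}
    [AddCommGroup V] [Module ℂ V] [FiniteDimensional ℂ V] (ρ : Representation ℂ G V)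
    (hi : ρ.IsIrreducible) {p n m d' b : ℕ} (hp : p.Prime) (hG : Nat.card G = p ^ n * m)
    (hd : Module.finrank ℂ V = p ^ n * d') (y : G)
    (hy : p ^ b ∣ Nat.card (Subgroup.centralizer ({y} : Set G))) :
    IsIntegral ℤ ((m : ℂ) * ρ.character y / ((p ^ b : ℕ) : ℂ)) := by
  obtain ⟨c', hc'⟩ := hy
  have hω := isIntegral_classSize_mul_char_div_degree ρ hi y
  have hidx := Subgroup.index_mul_card (Subgroup.centralizer ({y} : Set G))
  have hnt : Nontrivial V := ((isIrreducible_iff ρ).mp hi).1
  have hdpos : 0 < Module.finrank ℂ V := Module.finrank_pos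
  have hpn : ((p ^ n : ℕ) : ℂ) ≠ 0 := by exact_mod_cast (pow_pos hp.pos n).ne'
  have hpb : ((p ^ b : ℕ) : ℂ) ≠ 0 := by exact_mod_cast (pow_pos hp.pos b).ne'
  have hd'0 : (d' : ℂ) ≠ 0 := by
    have : d' ≠ 0 := by
      rintro rfl
      rw [mul_zero] at hd
      omega
    exact_mod_cast this
  have h1 : ((Subgroup.centralizer ({y} : Set G)).index : ℂ) * (((p ^ b : ℕ) : ℂ) * (c' : ℂ))
      = ((p ^ n : ℕ) : ℂ) * (m : ℂ) := by
    rw [hc', hG] at hidx
    exact_mod_cast hidx
  have key : (m : ℂ) * ρ.character y / ((p ^ b : ℕ) : ℂ)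
      = ((Subgroup.centralizer ({y} : Set G)).index : ℂ) * ρ.character y
          / (Module.finrank ℂ V : ℂ) * ((d' * c' : ℕ) : ℂ) := by
    rw [hd]
    push_cast
    push_cast at h1 hpn hpb
    field_simp
    linear_combination (-(ρ.character y)) * h1
  rw [key]
  exact IsIntegral.mul hω (isIntegral_natCast _)

theorem dvd_mult_of_integral {H : Type u} [Group H] [Fintype H] {f : H → ℂ}
    (β : Cfsg.IrrCharacter H) {p b m k : ℕ} (hp : p.Prime) (hcopm : Nat.Coprime m p)
    (hcopH : Nat.Coprime (Nat.card H) p)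
    (hint : ∀ y : H, IsIntegral ℤ ((m : ℂ) * f y / ((p ^ b : ℕ) : ℂ)))
    (hk : Cfsg.classInner f (β : H → ℂ) = (k : ℂ)) : p ^ b ∣ k := by
  have hβch := isCharacter_of_isIrrCharacter β.2
  have hH : (Nat.card H : ℂ) ≠ 0 := natCard_ne_zero_complex H
  have hsum : ∑ y : H, f y * (starRingEnd ℂ) ((β : H → ℂ) y) = (k : ℂ) * (Nat.card H : ℂ) := by
    unfold Cfsg.classInner at hk
    rw [← hk]
    field_simp
  have hI : IsIntegral ℤ (∑ y : H, ((m : ℂ) * f y / ((p ^ b : ℕ) : ℂ)) * (β : H → ℂ) y⁻¹) :=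
    IsIntegral.sum _ (fun y _ => IsIntegral.mul (hint y) (irrCharacter_isIntegral β y⁻¹))
  have heq : ∑ y : H, ((m : ℂ) * f y / ((p ^ b : ℕ) : ℂ)) * (β : H → ℂ) y⁻¹
      = ((m * k * Nat.card H : ℕ) : ℂ) / ((p ^ b : ℕ) : ℂ) := by
    have h1 : ∀ y : H, ((m : ℂ) * f y / ((p ^ b : ℕ) : ℂ)) * (β : H → ℂ) y⁻¹
        = ((m : ℂ) / ((p ^ b : ℕ) : ℂ)) * (f y * (starRingEnd ℂ) ((β : H → ℂ) y)) := by
      intro y
      rw [isCharacter_inv hβch y]
      ring
    rw [Finset.sum_congr rfl (fun y _ => h1 y), ← Finset.mul_sum, hsum]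
    push_cast
    ring
  rw [heq] at hI
  have hdvd := nat_dvd_of_isIntegral_div (pow_pos hp.pos b).ne' hI
  have hc1 : Nat.Coprime (p ^ b) m := (Nat.Coprime.pow_right b hcopm).symm
  have hc2 : Nat.Coprime (p ^ b) (Nat.card H) := (Nat.Coprime.pow_right b hcopH).symm
  have h2 : p ^ b ∣ m * k := hc2.dvd_of_dvd_mul_right hdvd
  exact hc1.dvd_of_dvd_mul_left h2

theorem exists_div_char {H : Type u} [Group H] [Fintype H] {f : H → ℂ}
    (hf : Cfsg.IsCharacter H f) {N : ℕ}
    (hdiv : ∀ (β : Cfsg.IrrCharacter H) (k : ℕ),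
      Cfsg.classInner f (β : H → ℂ) = (k : ℂ) → N ∣ k) :
    ∃ ξ : H → ℂ, Cfsg.IsCharacter H ξ ∧ f = (N : ℂ) • ξ := by
  classical
  haveI : Finite (Cfsg.IrrCharacter H) := finite_irrCharacter H
  haveI : Fintype (Cfsg.IrrCharacter H) := Fintype.ofFinite _
  have hexp := classFunction_eq_finsum f (isCharacter_isClassFunction hf)
  rw [finsum_eq_sum_of_fintype] at hexp
  choose k hk using fun β : Cfsg.IrrCharacter H =>
    classInner_isCharacter_nat hf (isCharacter_of_isIrrCharacter β.2)
  have hdvd : ∀ β, N ∣ k β := fun β => hdiv β (k β) (hk β)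
  choose c hc using hdvd
  refine ⟨∑ β : Cfsg.IrrCharacter H, (c β : ℂ) • (β : H → ℂ), ?_, ?_⟩
  · exact isCharacter_sum _ _
      (fun β _ => isCharacter_nsmul (c β) (isCharacter_of_isIrrCharacter β.2))
  · conv_lhs => rw [hexp]
    rw [Finset.smul_sum]
    refine Finset.sum_congr rfl (fun β _ => ?_)
    rw [hk β, hc β, smul_smul, Nat.cast_mul]

theorem defect_zero_vanish {G : Type u} [Group G] [Fintype G] {V : Type v} [AddCommGroup V]
    [Module ℂ V] [FiniteDimensional ℂ V] (ρ : Representation ℂ G V) (hi : ρ.IsIrreducible)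
    (p n : ℕ) (hp : p.Prime) (hn : p ^ n ∣ Nat.card G) (hn' : ¬ p ^ (n + 1) ∣ Nat.card G)
    (hdeg : p ^ n ∣ Module.finrank ℂ V) (x : G) (hx : p ∣ orderOf x) :
    ρ.character x = 0 := by
  classical
  obtain ⟨m, hm⟩ := hn
  obtain ⟨d', hd'⟩ := hdeg
  have hpm : ¬ p ∣ m := by
    rintro ⟨m', hm'⟩
    apply hn'
    rw [hm, hm', pow_succ]
    exact ⟨m', by ring⟩
  have hcopm : Nat.Coprime m p := ((Nat.Prime.coprime_iff_not_dvd hp).mpr hpm).symm
  have hχirr : Cfsg.IsIrrCharacter G ρ.character := isIrrCharacter_of_rep ρ hi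
  have hχ : Cfsg.IsCharacter G ρ.character := isCharacter_of_rep ρ
  have hθ : Cfsg.IsGeneralizedCharacter G
      (fun g : G => if p ∣ orderOf g then (0:ℂ) else ρ.character g) := by
    refine brauer_char _ ?_ ?_
    · intro g h
      have ho : orderOf (h * g * h⁻¹) = orderOf g := by
        have := (MulAut.conj h).orderOf_eq g
        rwa [MulAut.conj_apply] at this
      have hc := isCharacter_isClassFunction hχ g h
      show (if p ∣ orderOf (h * g * h⁻¹) then (0:ℂ) else ρ.character (h * g * h⁻¹)) = _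
      rw [ho, hc]
    · intro E q hq hE
      obtain ⟨H, b, hHn, hcop, hb, hcent⟩ := exists_pcompl' hp hq hE
      haveI := hHn
      haveI : Fintype E := Fintype.ofFinite E
      haveI : Fintype H := Fintype.ofFinite H
      have hχE : Cfsg.IsCharacter E (fun e : E => ρ.character (e : G)) := isCharacter_res E hχ
      have hfH : Cfsg.IsCharacter H (fun y : H => ρ.character ((y : E) : G)) :=
        isCharacter_res H hχE
      have hint : ∀ y : H,
          IsIntegral ℤ ((m : ℂ) * ρ.character ((y : E) : G) / ((p ^ b : ℕ) : ℂ)) := by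
        intro y
        apply integral_of_defect_zero ρ hi hp hm hd'
        have h1 := hcent (y : E) y.2
        refine dvd_trans h1 ?_
        let φ : Subgroup.centralizer ({(y : E)} : Set E) →*
            Subgroup.centralizer ({((y : E) : G)} : Set G) :=
          { toFun := fun z => ⟨((z : E) : G), by
              rw [Subgroup.mem_centralizer_iff]
              intro w hw
              rw [Set.mem_singleton_iff] at hw
              rw [hw]
              have := Subgroup.mem_centralizer_iff.mp z.2 (y : E) (Set.mem_singleton _)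
              exact congrArg Subtype.val this⟩
            map_one' := rfl
            map_mul' := fun _ _ => rfl }
        have hφ : Function.Injective φ := by
          intro z w hzw
          have : ((z : E) : G) = ((w : E) : G) :=
            congrArg (fun t : Subgroup.centralizer ({((y : E) : G)} : Set G) => (t : G)) hzw
          exact Subtype.ext (Subtype.ext this)
        exact Subgroup.card_dvd_of_injective φ hφ
      obtain ⟨ξ, hξ, hfξ⟩ := exists_div_char hfH
        (fun β k hk => dvd_mult_of_integral β hp hcopm hcop hint hk)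
      have hfun : (fun e : E => if p ∣ orderOf (e : G) then (0:ℂ) else ρ.character (e : G))
          = Cfsg.indFun H ξ := by
        have h3 := Cfsg.Agent.Helper2.CharN.indFun_mul_res H (fun _ => (1:ℂ))
          (fun y : H => ρ.character ((y : E) : G)) (χ := fun e : E => ρ.character (e : G))
          (isCharacter_isClassFunction hχE) (fun n => rfl)
        have h4 : ((fun _ : H => (1:ℂ)) * fun y : H => ρ.character ((y : E) : G))
            = ((p ^ b : ℕ) : ℂ) • ξ := by
          rw [← hfξ]
          funext y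
          simp
        rw [h4, indFun_smul'] at h3
        funext e
        have h5 := congrFun h3 e
        rw [Pi.smul_apply, Pi.mul_apply, Cfsg.Agent.Helper2.Dual.indFun_one_normal H e,
          smul_eq_mul] at h5
        have hiff := mem_pcompl_iff hp H hcop hb e
        have hpb : ((p ^ b : ℕ) : ℂ) ≠ 0 := by exact_mod_cast (pow_pos hp.pos b).ne'
        rw [Subgroup.orderOf_coe]
        by_cases he : e ∈ H
        · rw [if_pos he, hb] at h5
          rw [if_neg (hiff.mp he)]
          exact (mul_left_cancel₀ hpb h5).symm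
        · rw [if_neg he, zero_mul] at h5
          rw [if_pos (not_not.mp (fun h => he (hiff.mpr h)))]
          rcases mul_eq_zero.mp h5 with h | h
          · exact absurd h hpb
          · exact h.symm
      show Cfsg.IsGeneralizedCharacter E
        (fun e : E => if p ∣ orderOf (e : G) then (0:ℂ) else ρ.character (e : G))
      rw [hfun]
      exact gc_of_char (Cfsg.Agent.S0148.result H ξ hξ)
  obtain ⟨α, γ, hα, hγ, hθeq⟩ := hθ
  obtain ⟨a, ha⟩ := classInner_isCharacter_nat hα hχ
  obtain ⟨c, hc⟩ := classInner_isCharacter_nat hγ hχ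
  have hinner : Cfsg.classInner (fun g : G => if p ∣ orderOf g then (0:ℂ) else ρ.character g)
      ρ.character = (a : ℂ) - (c : ℂ) := by
    have hneg : (-γ) = (-1 : ℂ) • γ := by simp
    rw [hθeq, sub_eq_add_neg, classInner_add_left, hneg, classInner_smul_left, ha, hc]
    ring
  have hnorm := Cfsg.Agent.Helper2.GalAM.sum_norm_sq_irr hχirr
  obtain ⟨Sreg, hSreg⟩ : ∃ S : ℝ, S = ∑ g : G,
      (if p ∣ orderOf g then 0 else ‖ρ.character g‖ ^ 2) := ⟨_, rfl⟩
  obtain ⟨Ssing, hSsing⟩ : ∃ S : ℝ, S = ∑ g : G,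
      (if p ∣ orderOf g then ‖ρ.character g‖ ^ 2 else 0) := ⟨_, rfl⟩
  have hsplit : Sreg + Ssing = (Fintype.card G : ℝ) := by
    rw [← hnorm, hSreg, hSsing, ← Finset.sum_add_distrib]
    refine Finset.sum_congr rfl (fun g _ => ?_)
    by_cases h : p ∣ orderOf g <;> simp [h]
  have hinner2 : Cfsg.classInner
      (fun g : G => if p ∣ orderOf g then (0:ℂ) else ρ.character g) ρ.character
      = (Nat.card G : ℂ)⁻¹ * ((Sreg : ℝ) : ℂ) := by
    unfold Cfsg.classInner
    congr 1
    rw [hSreg, Complex.ofReal_sum]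
    refine Finset.sum_congr rfl (fun g _ => ?_)
    by_cases h : p ∣ orderOf g
    · simp [h]
    · simp only [h, if_false]
      rw [Complex.mul_conj, Complex.normSq_eq_norm_sq]
  have hG0 : (Nat.card G : ℂ) ≠ 0 := natCard_ne_zero_complex G
  have hSreg_eq : Sreg = (Fintype.card G : ℝ) * ((a : ℝ) - (c : ℝ)) := by
    have h1 : ((Sreg : ℝ) : ℂ) = (Nat.card G : ℂ) * ((a : ℂ) - (c : ℂ)) := by
      rw [← hinner, hinner2]
      field_simp
    rw [Nat.card_eq_fintype_card] at h1
    exact_mod_cast h1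
  have hcard : (0:ℝ) < (Fintype.card G : ℝ) := by exact_mod_cast Fintype.card_pos
  have hSreg_pos : 0 < Sreg := by
    rw [hSreg]
    have hterm : ∀ g ∈ (Finset.univ : Finset G),
        (0:ℝ) ≤ (if p ∣ orderOf g then 0 else ‖ρ.character g‖ ^ 2) := by
      intro g _
      split_ifs <;> positivity
    refine lt_of_lt_of_le ?_ (Finset.single_le_sum hterm (Finset.mem_univ (1 : G)))
    rw [orderOf_one, if_neg (Nat.Prime.not_dvd_one hp)]
    have hnt : Nontrivial V := ((isIrreducible_iff ρ).mp hi).1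
    rw [Representation.char_one, Complex.norm_natCast]
    have : (0:ℝ) < (Module.finrank ℂ V : ℝ) := by exact_mod_cast Module.finrank_pos
    positivity
  have hac : (c : ℤ) < (a : ℤ) := by
    have h1 : (0:ℝ) < (a : ℝ) - (c : ℝ) := by
      by_contra hle
      push_neg at hle
      have : Sreg ≤ 0 := by
        rw [hSreg_eq]
        exact mul_nonpos_of_nonneg_of_nonpos hcard.le hle
      linarith
    have h2 : (c : ℝ) < (a : ℝ) := by linarith
    exact_mod_cast h2
  have hac1 : (1 : ℝ) ≤ (a : ℝ) - (c : ℝ) := by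
    have h1 : (c : ℤ) + 1 ≤ (a : ℤ) := hac
    have h2 : ((c : ℤ) : ℝ) + 1 ≤ ((a : ℤ) : ℝ) := by exact_mod_cast h1
    push_cast at h2
    linarith
  have hSsing0 : Ssing ≤ 0 := by
    have h1 : (Fintype.card G : ℝ) ≤ Sreg := by
      rw [hSreg_eq]
      nlinarith
    linarith
  have hterm : ∀ g ∈ (Finset.univ : Finset G),
      (0:ℝ) ≤ (if p ∣ orderOf g then ‖ρ.character g‖ ^ 2 else 0) := by
    intro g _
    split_ifs <;> positivity
  rw [hSsing] at hSsing0
  have hz := (Finset.sum_eq_zero_iff_of_nonneg hterm).mp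
    (le_antisymm hSsing0 (Finset.sum_nonneg hterm)) x (Finset.mem_univ x)
  rw [if_pos hx] at hz
  exact norm_eq_zero.mp ((pow_eq_zero_iff two_ne_zero).mp hz)

end Cfsg.Agent.Helper2.Brauer
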