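import Mathlib
import Cfsg.Agent.Helper2.Brauer8
import Cfsg.Agent.Helper2.CharKer
import Cfsg.Agent.S0135

/-! Primes dividing the group order and codegrees. -/

namespace Cfsg.Agent.Helper2.Brauer

open Cfsg.Agent.Lead

universe u

theorem vanish_or_ker {G : Type u} [Group G] [Finite G] (χ : Cfsg.IrrCharacter G) (p : ℕ)
    (hp : p.Prime)
    (hcod : ¬ p ∣ Nat.card G / (Nat.card {g : G // (χ : G → ℂ) g = (χ : G → ℂ) 1}
      * Cfsg.charDegree (χ : G → ℂ)))
    (g : G) (hg : orderOf g = p) : (χ : G → ℂ) g = (χ : G → ℂ) 1 ∨ (χ : G → ℂ) g = 0 := by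
  classical
  obtain ⟨χ, n, ρ, hi, rfl⟩ := χ
  have hmem : ∀ g, g ∈ MonoidHom.ker ρ ↔ ρ.character g = ρ.character 1 := by
    intro g
    rw [Cfsg.Agent.Helper2.CharKer.character_eq_one_iff, MonoidHom.mem_ker]
  have hdeg : Cfsg.charDegree ρ.character = n := by
    simp [Cfsg.charDegree, Representation.char_one]
  have hcardK : Nat.card {g : G // ρ.character g = ρ.character 1}
      = Nat.card (MonoidHom.ker ρ) :=
    Nat.card_congr (Equiv.subtypeEquivRight (fun g => (hmem g))).symm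
  show ρ.character g = ρ.character 1 ∨ ρ.character g = 0
  change ¬ p ∣ Nat.card G / (Nat.card {g : G // ρ.character g = ρ.character 1}
      * Cfsg.charDegree ρ.character) at hcod
  rw [hcardK, hdeg] at hcod
  by_cases hgK : g ∈ MonoidHom.ker ρ
  · exact Or.inl ((hmem g).mp hgK)
  · right
    obtain ⟨K, hKdef⟩ : ∃ K : Subgroup G, K = MonoidHom.ker ρ := ⟨_, rfl⟩
    rw [← hKdef] at hcod hgK
    haveI hKn : K.Normal := by
      rw [hKdef]
      exact MonoidHom.normal_ker ρ
    let ρ' : Representation ℂ (G ⧸ K) (Fin n → ℂ) :=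
      QuotientGroup.lift K ρ (by rw [hKdef])
    have hρ' : ∀ x : G, ρ' (QuotientGroup.mk x) = ρ x := fun x => rfl
    have hi' : ρ'.IsIrreducible := by
      rw [isIrreducible_iff] at hi ⊢
      refine ⟨hi.1, fun W hW => hi.2 W (fun g v hv => ?_)⟩
      have h0 := hW (QuotientGroup.mk g) v hv
      rwa [hρ'] at h0
    haveI := hi'
    have hdQ : Module.finrank ℂ (Fin n → ℂ) ∣ Nat.card (G ⧸ K) := Cfsg.Agent.S0135.result ρ'
    rw [Module.finrank_fin_fun] at hdQ
    obtain ⟨c, hc⟩ := hdQ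
    have hGK : Nat.card G = Nat.card (G ⧸ K) * Nat.card K :=
      Subgroup.card_eq_card_quotient_mul_card_subgroup K
    have hnpos : 0 < n := by
      have hnt : Nontrivial (Fin n → ℂ) := ((isIrreducible_iff ρ).mp hi).1
      have := Module.finrank_pos (R := ℂ) (M := Fin n → ℂ)
      rwa [Module.finrank_fin_fun] at this
    have hcodc : Nat.card G / (Nat.card K * n) = c := by
      rw [hGK, hc]
      have h1 : n * c * Nat.card K = c * (Nat.card K * n) := by ring
      rw [h1]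
      exact Nat.mul_div_cancel _ (Nat.mul_pos Nat.card_pos hnpos)
    rw [hcodc] at hcod
    have hQ0 : Nat.card (G ⧸ K) ≠ 0 := Nat.card_pos.ne'
    have h1 : p ^ (Nat.card (G ⧸ K)).factorization p ∣ Nat.card (G ⧸ K) := Nat.ordProj_dvd _ p
    have h2 : ¬ p ^ ((Nat.card (G ⧸ K)).factorization p + 1) ∣ Nat.card (G ⧸ K) :=
      Nat.pow_succ_factorization_not_dvd hQ0 hp
    have h3 : p ^ (Nat.card (G ⧸ K)).factorization p ∣ Module.finrank ℂ (Fin n → ℂ) := by
      rw [Module.finrank_fin_fun]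
      have h4 : p ^ (Nat.card (G ⧸ K)).factorization p ∣ n * c := by
        rw [← hc]
        exact h1
      exact (Nat.Coprime.pow_left _
        ((Nat.Prime.coprime_iff_not_dvd hp).mpr hcod)).dvd_of_dvd_mul_right h4
    have hord : p ∣ orderOf (QuotientGroup.mk g : G ⧸ K) := by
      have hd : orderOf (QuotientGroup.mk g : G ⧸ K) ∣ p := by
        rw [← hg]
        exact orderOf_map_dvd (QuotientGroup.mk' K) g
      rcases (Nat.dvd_prime hp).mp hd with h | h
      · exfalso
        apply hgK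
        rw [← QuotientGroup.eq_one_iff]
        exact orderOf_eq_one_iff.mp h
      · rw [h]
    haveI : Fintype (G ⧸ K) := Fintype.ofFinite _
    have hfin := defect_zero_vanish ρ' hi' p _ hp h1 h2 h3 (QuotientGroup.mk g) hord
    exact hfin

theorem codeg_forward {G : Type u} [Group G] [Finite G] (p : ℕ) (hp : p.Prime)
    (hpG : p ∣ Nat.card G) :
    ∃ χ : Cfsg.IrrCharacter G, p ∣ Nat.card G /
      (Nat.card {g : G // (χ : G → ℂ) g = (χ : G → ℂ) 1} * Cfsg.charDegree (χ : G → ℂ)) := by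
  classical
  by_contra hno
  push_neg at hno
  haveI : Fact p.Prime := ⟨hp⟩
  obtain ⟨g, hg⟩ := exists_prime_orderOf_dvd_card' p hpG
  have hg1 : g ≠ 1 := by
    rintro rfl
    rw [orderOf_one] at hg
    exact hp.one_lt.ne hg
  have hcol := column_orth_of_not_isConj (g := g) (h := 1) (by
    rw [isConj_one_left]
    exact hg1)
  haveI : Finite (Cfsg.IrrCharacter G) := finite_irrCharacter G
  haveI : Fintype (Cfsg.IrrCharacter G) := Fintype.ofFinite _
  rw [finsum_eq_sum_of_fintype] at hcol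
  have hterm : ∀ χ : Cfsg.IrrCharacter G, ∃ r : ℝ, 0 ≤ r ∧
      (χ : G → ℂ) g * (starRingEnd ℂ) ((χ : G → ℂ) 1) = (r : ℂ) := by
    intro χ
    obtain ⟨K, -, -, -, -, hd, -⟩ := Cfsg.Agent.Helper2.CharKer.exists_ker χ
    rcases vanish_or_ker χ p hp (hno χ) g hg with h | h
    · refine ⟨(Cfsg.charDegree (χ : G → ℂ) : ℝ) ^ 2, by positivity, ?_⟩
      rw [h, hd, Complex.conj_natCast]
      push_cast
      ring
    · exact ⟨0, le_rfl, by rw [h]; simp⟩
  choose r hr0 hr using hterm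
  obtain ⟨one, hone⟩ : ∃ o : Cfsg.IrrCharacter G, (o : G → ℂ) = fun _ => (1:ℂ) :=
    ⟨⟨_, isIrrCharacter_one⟩, rfl⟩
  have hr1 : r one = 1 := by
    have h1 := hr one
    rw [hone] at h1
    simp only [map_one, mul_one] at h1
    exact_mod_cast h1.symm
  have hsum : (∑ χ : Cfsg.IrrCharacter G, r χ : ℝ) = 0 := by
    have h1 : ((∑ χ : Cfsg.IrrCharacter G, r χ : ℝ) : ℂ) = 0 := by
      rw [Complex.ofReal_sum, ← hcol]
      exact Finset.sum_congr rfl (fun χ _ => (hr χ).symm)
    exact_mod_cast h1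
  have hle : r one ≤ ∑ χ : Cfsg.IrrCharacter G, r χ :=
    Finset.single_le_sum (fun χ _ => hr0 χ) (Finset.mem_univ one)
  rw [hsum, hr1] at hle
  linarith

theorem codeg_backward {G : Type u} [Group G] [Finite G] (p : ℕ) (χ : Cfsg.IrrCharacter G)
    (h : p ∣ Nat.card G /
      (Nat.card {g : G // (χ : G → ℂ) g = (χ : G → ℂ) 1} * Cfsg.charDegree (χ : G → ℂ))) :
    p ∣ Nat.card G := by
  obtain ⟨K, -, -, hcard, -, -, hdvd⟩ := Cfsg.Agent.Helper2.CharKer.exists_ker χ
  rw [hcard] at h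
  have h1 : Nat.card K * Cfsg.charDegree (χ : G → ℂ) ∣ Nat.card G := by
    rw [mul_comm]
    exact hdvd
  have h2 := Nat.div_mul_cancel h1
  rw [← h2]
  exact Dvd.dvd.mul_right h _

end Cfsg.Agent.Helper2.Brauer
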