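import Mathlib
import Cfsg.Prelude.Def_Characters
import Cfsg.Prelude.Def_Blocks
import Cfsg.Agent.Helper2.CharKer
import Cfsg.Agent.Helper2.LinExt
import Cfsg.Agent.Lead.CharLin2

namespace Cfsg.Agent.Helper2.CharKer

open Cfsg.Agent.Lead

universe u v

/-- a perfect group has only trivial homs with commuting image -/
theorem hom_trivial_of_perfect {G : Type u} [Group G] {M : Type v} [Monoid M]
    (hperf : commutator G = ⊤) (f : G →* M) (hcomm : ∀ a b : G, f a * f b = f b * f a)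
    (g : G) : f g = 1 := by
  have h1 : commutator G ≤ MonoidHom.ker f := by
    rw [commutator_eq_closure, Subgroup.closure_le]
    rintro x ⟨a, b, rfl⟩
    rw [SetLike.mem_coe, MonoidHom.mem_ker, commutatorElement_def]
    have e1 : f a * f a⁻¹ = 1 := by rw [← map_mul, mul_inv_cancel, map_one]
    have e2 : f b * f b⁻¹ = 1 := by rw [← map_mul, mul_inv_cancel, map_one]
    rw [map_mul, map_mul, map_mul, hcomm a b, mul_assoc (f b), e1, mul_one, e2]
  have h2 : g ∈ commutator G := by rw [hperf]; exact Subgroup.mem_top g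
  exact MonoidHom.mem_ker.mp (h1 h2)

theorem perfect_not_prime_cod {G : Type u} [Group G] [Finite G] (hperf : commutator G = ⊤)
    {n : ℕ} (ρ : Representation ℂ G (Fin n → ℂ)) (hi : ρ.IsIrreducible) (p : ℕ) (hp : p.Prime)
    (hcard : Nat.card G = p * (n * Nat.card (MonoidHom.ker ρ))) : False := by
  classical
  haveI : Fact p.Prime := ⟨hp⟩
  set K : Subgroup G := MonoidHom.ker ρ with hK
  haveI hKn : K.Normal := MonoidHom.normal_ker ρ
  have hnt : Nontrivial (Fin n → ℂ) := ((isIrreducible_iff ρ).mp hi).1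
  have hnpos : 0 < n := by
    have := Module.finrank_pos (R := ℂ) (M := Fin n → ℂ)
    rwa [Module.finrank_fin_fun] at this
  have hQcard : Nat.card (G ⧸ K) = p * n := by
    have h3 := Subgroup.card_mul_index K
    rw [hcard, Subgroup.index_eq_card] at h3
    have hKpos : 0 < Nat.card K := Nat.card_pos
    apply Nat.eq_of_mul_eq_mul_left hKpos
    rw [h3]; ring
  let ρ' : Representation ℂ (G ⧸ K) (Fin n → ℂ) := QuotientGroup.lift K ρ (le_refl _)
  have hρ' : ∀ x : G, ρ' (QuotientGroup.mk x) = ρ x := fun x => rfl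
  have hi' : ρ'.IsIrreducible := by
    rw [isIrreducible_iff] at hi ⊢
    refine ⟨hi.1, fun W hW => hi.2 W (fun g v hv => ?_)⟩
    have h0 := hW (QuotientGroup.mk g) v hv
    rwa [hρ'] at h0
  haveI : Finite (Cfsg.IrrCharacter (G ⧸ K)) := finite_irrCharacter _
  haveI : Fintype (Cfsg.IrrCharacter (G ⧸ K)) := Fintype.ofFinite _
  have hle : n ≤ p := by
    have hsum := sum_degree_sq (G := G ⧸ K)
    let χ' : Cfsg.IrrCharacter (G ⧸ K) := ⟨ρ'.character, n, ρ', hi', rfl⟩
    have hdeg : Cfsg.charDegree (χ' : G ⧸ K → ℂ) = n := by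
      simp [χ', Cfsg.charDegree, Representation.char_one]
    have h1 : Cfsg.charDegree (χ' : G ⧸ K → ℂ) ^ 2
        ≤ ∑ χ : Cfsg.IrrCharacter (G ⧸ K), Cfsg.charDegree (χ : G ⧸ K → ℂ) ^ 2 :=
      Finset.single_le_sum
        (f := fun χ : Cfsg.IrrCharacter (G ⧸ K) => Cfsg.charDegree (χ : G ⧸ K → ℂ) ^ 2)
        (fun _ _ => Nat.zero_le _) (Finset.mem_univ χ')
    rw [hsum, hdeg, hQcard, sq] at h1
    exact Nat.le_of_mul_le_mul_right h1 hnpos
  have hperf' : commutator (G ⧸ K) = ⊤ := by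
    have h1 : Subgroup.map (QuotientGroup.mk' K) (commutator G) = commutator (G ⧸ K) := by
      rw [commutator_def, commutator_def, Subgroup.map_commutator,
        Subgroup.map_top_of_surjective _ (QuotientGroup.mk'_surjective K)]
    rw [← h1, hperf, Subgroup.map_top_of_surjective _ (QuotientGroup.mk'_surjective K)]
  haveI hQnt : Nontrivial (G ⧸ K) := by
    rw [← Finite.one_lt_card_iff_nontrivial, hQcard]
    exact lt_of_lt_of_le hp.one_lt (Nat.le_mul_of_pos_right p hnpos)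
  rcases Nat.lt_or_ge n p with hlt | hge
  swap
  · have hnp : n = p := le_antisymm hle hge
    have hpg : IsPGroup p (G ⧸ K) := IsPGroup.of_card (n := 2) (by rw [hQcard, hnp, sq])
    haveI := hpg.isNilpotent
    have := IsSolvable.commutator_lt_top_of_nontrivial (G ⧸ K)
    exact this.ne hperf'
  have hpn : ¬ p ∣ n := Nat.not_dvd_of_pos_of_lt hnpos hlt
  obtain ⟨P⟩ : Nonempty (Sylow p (G ⧸ K)) := inferInstance
  have hPcard : Nat.card (P : Subgroup (G ⧸ K)) = p := by
    rw [Sylow.card_eq_multiplicity, hQcard, Nat.factorization_mul hp.ne_zero hnpos.ne',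
      Finsupp.add_apply, hp.factorization_self, Nat.factorization_eq_zero_of_not_dvd hpn]
    simp
  have hone : Nat.card (Sylow p (G ⧸ K)) = 1 := by
    have hmod := card_sylow_modEq_one p (G ⧸ K)
    have hdvd := Sylow.card_dvd_index P
    have hidx : (P : Subgroup (G ⧸ K)).index = n := by
      have h3 := Subgroup.card_mul_index (P : Subgroup (G ⧸ K))
      rw [hQcard, hPcard] at h3
      exact Nat.eq_of_mul_eq_mul_left hp.pos h3
    rw [hidx] at hdvd
    have hlt' : Nat.card (Sylow p (G ⧸ K)) < p :=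
      lt_of_le_of_lt (Nat.le_of_dvd hnpos hdvd) hlt
    have h1 : Nat.card (Sylow p (G ⧸ K)) % p = 1 % p := hmod
    rw [Nat.mod_eq_of_lt hlt', Nat.mod_eq_of_lt hp.one_lt] at h1
    exact h1
  haveI : Subsingleton (Sylow p (G ⧸ K)) := (Nat.card_eq_one_iff_unique.mp hone).1
  haveI hPn : (P : Subgroup (G ⧸ K)).Normal := Sylow.normal_of_subsingleton P
  haveI hPcyc : IsCyclic (P : Subgroup (G ⧸ K)) := isCyclic_of_prime_card hPcard
  have hact : ∀ (g : G ⧸ K), MulAut.conjNormal (H := (P : Subgroup (G ⧸ K))) g = 1 := by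
    intro g
    apply hom_trivial_of_perfect hperf' (MulAut.conjNormal (H := (P : Subgroup (G ⧸ K))))
    intro a b
    apply (IsCyclic.mulAutMulEquiv (P : Subgroup (G ⧸ K))).injective
    rw [map_mul, map_mul, mul_comm]
  obtain ⟨z, hzP, hz1⟩ : ∃ z : G ⧸ K, z ∈ (P : Subgroup (G ⧸ K)) ∧ z ≠ 1 := by
    have : Nontrivial (P : Subgroup (G ⧸ K)) := by
      rw [← Finite.one_lt_card_iff_nontrivial, hPcard]; exact hp.one_lt
    obtain ⟨⟨z, hz⟩, hne⟩ := exists_ne (1 : (P : Subgroup (G ⧸ K)))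
    exact ⟨z, hz, fun h => hne (Subtype.ext h)⟩
  have hzcent : ∀ g : G ⧸ K, g * z * g⁻¹ = z := by
    intro g
    have h1 := hact g
    have h2 := congrArg (fun φ : MulAut (P : Subgroup (G ⧸ K)) =>
      ((φ ⟨z, hzP⟩ : (P : Subgroup (G ⧸ K))) : G ⧸ K)) h1
    simpa [MulAut.conjNormal_apply] using h2
  have hzp : z ^ p = 1 := by
    have h1 : (⟨z, hzP⟩ : (P : Subgroup (G ⧸ K))) ^ Nat.card (P : Subgroup (G ⧸ K)) = 1 :=
      pow_card_eq_one'
    rw [hPcard] at h1
    exact congrArg Subtype.val h1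
  obtain ⟨z₀, rfl⟩ := QuotientGroup.mk_surjective z
  have hcomm : ∀ g, ρ z₀ ∘ₗ ρ g = ρ g ∘ₗ ρ z₀ := by
    intro g
    have h1 := hzcent (QuotientGroup.mk g)
    have h2 : ρ' (QuotientGroup.mk g * QuotientGroup.mk z₀ * (QuotientGroup.mk g)⁻¹)
        = ρ' (QuotientGroup.mk z₀) := by rw [h1]
    rw [← QuotientGroup.mk_inv, ← QuotientGroup.mk_mul, ← QuotientGroup.mk_mul, hρ', hρ'] at h2
    show ρ z₀ * ρ g = ρ g * ρ z₀
    calc ρ z₀ * ρ g = ρ (g * z₀ * g⁻¹) * ρ g := by rw [h2]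
      _ = ρ (g * z₀ * g⁻¹ * g) := (map_mul ρ _ _).symm
      _ = ρ (g * z₀) := by congr 1; group
      _ = ρ g * ρ z₀ := map_mul ρ _ _
  obtain ⟨c, hc⟩ := schur_scalar ρ hi (ρ z₀) hcomm
  obtain ⟨v, hv⟩ := exists_ne (0 : Fin n → ℂ)
  have hcp : c ^ p = 1 := by
    have h1 : (ρ z₀) ^ p = 1 := by
      rw [← map_pow]
      have h3 : ρ' ((QuotientGroup.mk z₀ : G ⧸ K) ^ p) = 1 := by rw [hzp, map_one]
      rw [← QuotientGroup.mk_pow, hρ'] at h3
      exact h3
    have h2 : ((ρ z₀) ^ p) v = c ^ p • v := by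
      rw [hc, smul_pow]
      simp
    rw [h1] at h2
    have h4 : (c ^ p - 1) • v = 0 := by rw [sub_smul, ← h2]; simp
    rcases smul_eq_zero.mp h4 with h | h
    · exact sub_eq_zero.mp h
    · exact absurd h hv
  have hcn : c ^ n = 1 := by
    have hdet : ∀ g : G, LinearMap.det (ρ g) = 1 := by
      intro g
      exact hom_trivial_of_perfect hperf (LinearMap.det.comp ρ) (fun a b => mul_comm _ _) g
    have h1 := hdet z₀
    rw [hc, LinearMap.det_smul, LinearMap.det_id, mul_one, Module.finrank_fin_fun] at h1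
    exact h1
  have hc1 : c = 1 := by
    have hcop : Nat.gcd n p = 1 :=
      (Nat.Coprime.symm ((Nat.Prime.coprime_iff_not_dvd hp).mpr hpn))
    have h1 : orderOf c ∣ n := orderOf_dvd_of_pow_eq_one hcn
    have h2 : orderOf c ∣ p := orderOf_dvd_of_pow_eq_one hcp
    have h3 : orderOf c ∣ 1 := by
      have := Nat.dvd_gcd h1 h2
      rwa [hcop] at this
    exact orderOf_eq_one_iff.mp (Nat.dvd_one.mp h3)
  apply hz1
  rw [QuotientGroup.eq_one_iff]
  show z₀ ∈ MonoidHom.ker ρ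
  rw [MonoidHom.mem_ker, hc, hc1, one_smul]; rfl

theorem exists_prime_cod_of_not_perfect {G : Type u} [Group G] [Finite G]
    (h : commutator G ≠ ⊤) :
    ∃ χ : Cfsg.IrrCharacter G, (Nat.card G /
      (Nat.card {g : G // (χ : G → ℂ) g = (χ : G → ℂ) 1} * Cfsg.charDegree (χ : G → ℂ))).Prime := by
  classical
  obtain ⟨a, ha⟩ : ∃ a : G, a ∉ commutator G := by
    by_contra hcon
    push_neg at hcon
    exact h (eq_top_iff.mpr (fun g _ => hcon g))
  let Q := Abelianization G
  haveI : Finite Q := Finite.of_surjective (Abelianization.of (G := G))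
    (fun q => by
      obtain ⟨g, rfl⟩ := QuotientGroup.mk_surjective q
      exact ⟨g, rfl⟩)
  have hane : (Abelianization.of a : Q) ≠ 1 := by
    intro h1
    apply ha
    rw [← Abelianization.ker_of, MonoidHom.mem_ker]
    exact h1
  obtain ⟨φ, hφ⟩ := CommGroup.exists_apply_ne_one_of_hasEnoughRootsOfUnity Q ℂ hane
  have hcardL : Nat.card (Q →* ℂˣ) = Nat.card Q :=
    CommGroup.card_monoidHom_of_hasEnoughRootsOfUnity Q ℂ
  haveI : Finite (Q →* ℂˣ) :=
    Nat.finite_of_card_ne_zero (by rw [hcardL]; exact Nat.card_pos.ne')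
  have hnt : Nontrivial (Q →* ℂˣ) := ⟨⟨φ, 1, fun h1 => hφ (by rw [h1]; rfl)⟩⟩
  have hcard1 : Nat.card (Q →* ℂˣ) ≠ 1 := by
    intro h1
    have := Finite.one_lt_card_iff_nontrivial.mpr hnt
    omega
  set p := (Nat.card (Q →* ℂˣ)).minFac with hp
  have hpp : p.Prime := Nat.minFac_prime hcard1
  haveI : Fact p.Prime := ⟨hpp⟩
  obtain ⟨ψ, hψ⟩ := exists_prime_orderOf_dvd_card' (G := Q →* ℂˣ) p (Nat.minFac_dvd _)
  have hψ1 : ψ ≠ 1 := by
    intro h1
    rw [h1, orderOf_one] at hψ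
    exact hpp.one_lt.ne hψ
  have hψp : ψ ^ p = 1 := by rw [← hψ]; exact pow_orderOf_eq_one ψ
  let f : G →* ℂˣ := ψ.comp (Abelianization.of (G := G))
  have hfp : ∀ g : G, f g ^ p = 1 := by
    intro g
    show ψ (Abelianization.of g) ^ p = 1
    rw [← MonoidHom.pow_apply, hψp]; rfl
  have hf1 : ∃ g : G, f g ≠ 1 := by
    by_contra hcon
    push_neg at hcon
    apply hψ1
    apply Abelianization.hom_ext
    ext g
    have := hcon g
    simpa [f] using congrArg Units.val this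
  have hidx : (MonoidHom.ker f).index = p := by
    rw [Subgroup.index_ker]
    have hle : f.range ≤ rootsOfUnity p ℂ := by
      rintro x ⟨g, rfl⟩
      rw [mem_rootsOfUnity]
      exact hfp g
    haveI : NeZero p := ⟨hpp.ne_zero⟩
    have hcr : Nat.card (rootsOfUnity p ℂ) = p := Complex.card_rootsOfUnity p
    haveI : Finite (rootsOfUnity p ℂ) :=
      Nat.finite_of_card_ne_zero (by rw [hcr]; exact hpp.ne_zero)
    have hdvd : Nat.card f.range ∣ p := by
      rw [← hcr]
      exact Subgroup.card_dvd_of_le hle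
    rcases (Nat.dvd_prime hpp).mp hdvd with h1 | h1
    · exfalso
      obtain ⟨g, hg⟩ := hf1
      have hb : f.range = ⊥ := Subgroup.card_eq_one.mp h1
      have : f g ∈ f.range := ⟨g, rfl⟩
      rw [hb, Subgroup.mem_bot] at this
      exact hg this
    · exact h1
  obtain ⟨hchar, hone⟩ := Cfsg.Agent.Helper2.LinExt.isCharacter_of_hom f
  have hirr : Cfsg.IsIrrCharacter G (fun g => ((f g : ℂˣ) : ℂ)) :=
    isIrrCharacter_of_one hchar hone
  refine ⟨⟨_, hirr⟩, ?_⟩
  have hdeg : Cfsg.charDegree (fun g => ((f g : ℂˣ) : ℂ)) = 1 := by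
    simp [Cfsg.charDegree]
  have hker : Nat.card {g : G // ((f g : ℂˣ) : ℂ) = ((f 1 : ℂˣ) : ℂ)}
      = Nat.card (MonoidHom.ker f) := by
    apply Nat.card_congr
    refine Equiv.subtypeEquivRight (fun g => ?_)
    rw [MonoidHom.mem_ker, map_one, Units.val_one, Units.val_eq_one]
  show (Nat.card G / (Nat.card {g : G // ((f g : ℂˣ) : ℂ) = ((f 1 : ℂˣ) : ℂ)}
    * Cfsg.charDegree (fun g => ((f g : ℂˣ) : ℂ)))).Prime
  rw [hdeg, hker, mul_one, ← Subgroup.card_mul_index (MonoidHom.ker f),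
    Nat.mul_div_cancel_left _ Nat.card_pos, hidx]
  exact hpp

end Cfsg.Agent.Helper2.CharKer
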