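import Mathlib
import Cfsg.Agent.Helper2.Twist2
import Cfsg.Agent.Helper2.Mono2
import Cfsg.Agent.Lead.CharClifford
import Cfsg.Agent.Lead.CharConj2
import Cfsg.Agent.Lead.CharCore4
import Cfsg.Agent.Lead.CharCore6
import Cfsg.Agent.Lead.CharLin2
import Cfsg.Agent.Lead.CharOdd

/-! Restriction of an invariant irreducible character to an abelian chief factor (Isaacs 6.18). -/

set_option autoImplicit false

namespace Cfsg.Agent.Helper2.Chief

open Cfsg Cfsg.Agent.Lead

universe u

theorem exists_const {N : Type u} [Group N] [Fintype N] {f : N → ℂ}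
    (hf : Cfsg.IsClassFunction N f) (h0 : f ≠ 0) :
    ∃ ψ : Cfsg.IrrCharacter N, Cfsg.classInner f (ψ : N → ℂ) ≠ 0 := by
  by_contra hno
  push_neg at hno
  apply h0
  rw [classFunction_eq_finsum f hf]
  simp [hno]

/-- the norm of a restriction as a sum over the whole group -/
theorem res_inner {K : Type u} [Group K] [Fintype K] (N : Subgroup K) [Fintype N] (f : K → ℂ)
    [DecidablePred (· ∈ N)] :
    Cfsg.classInner (fun n : N => f n) (fun n : N => f n)
      = (Nat.card N : ℂ)⁻¹ * ∑ x : K, if x ∈ N then f x * (starRingEnd ℂ) (f x) else 0 := by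
  unfold Cfsg.classInner
  congr 1
  rw [← Finset.sum_filter]
  exact (Finset.sum_subtype (Finset.univ.filter (· ∈ N)) (by simp)
    (fun x => f x * (starRingEnd ℂ) (f x))).symm

theorem inner_of_vanish {K : Type u} [Group K] [Fintype K] (N : Subgroup K) [Fintype N]
    {ϑ : K → ℂ} (hϑ : Cfsg.IsIrrCharacter K ϑ) (hv : ∀ x, x ∉ N → ϑ x = 0) :
    Cfsg.classInner (fun n : N => ϑ n) (fun n : N => ϑ n) = (N.index : ℂ) := by
  classical
  rw [res_inner]
  have h1 := classInner_self_of_isIrrCharacter hϑ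
  unfold Cfsg.classInner at h1
  have hK : (Nat.card K : ℂ) ≠ 0 := natCard_ne_zero_complex K
  have hN : (Nat.card N : ℂ) ≠ 0 := natCard_ne_zero_complex N
  have h2 : ∑ x : K, (if x ∈ N then ϑ x * (starRingEnd ℂ) (ϑ x) else 0)
      = ∑ x : K, ϑ x * (starRingEnd ℂ) (ϑ x) := by
    refine Finset.sum_congr rfl (fun x _ => ?_)
    by_cases hx : x ∈ N
    · rw [if_pos hx]
    · rw [if_neg hx, hv x hx, zero_mul]
  rw [h2]
  have h3 : ∑ x : K, ϑ x * (starRingEnd ℂ) (ϑ x) = (Nat.card K : ℂ) :=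
    ((inv_mul_eq_one₀ hK).mp h1).symm
  rw [h3, ← Subgroup.card_mul_index N]
  push_cast
  field_simp

theorem inner_of_gen {K : Type u} [Group K] [Fintype K] (N : Subgroup K) [hN : N.Normal]
    [Fintype N] (hab : ∀ a b : K, a * b * a⁻¹ * b⁻¹ ∈ N) {ϑ : K → ℂ}
    (hϑ : Cfsg.IsIrrCharacter K ϑ)
    (hgen : ∀ M : Subgroup K, N ≤ M → (∀ x, ϑ x ≠ 0 → x ∈ M) → M = ⊤) :
    Cfsg.classInner (fun n : N => ϑ n) (fun n : N => ϑ n) = 1 := by
  classical
  have hϑc := isCharacter_of_isIrrCharacter hϑ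
  have hK : (Nat.card K : ℂ) ≠ 0 := natCard_ne_zero_complex K
  have hNc : (Nat.card N : ℂ) ≠ 0 := natCard_ne_zero_complex N
  haveI : Fintype (K ⧸ N) := Fintype.ofFinite _
  have hQ : ∀ a b : K ⧸ N, a * b = b * a := by
    intro a b
    induction a using QuotientGroup.induction_on with | H a =>
    induction b using QuotientGroup.induction_on with | H b =>
    rw [← QuotientGroup.mk_mul, ← QuotientGroup.mk_mul, QuotientGroup.eq]
    have h := hab b⁻¹ a⁻¹
    simpa [mul_assoc] using h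
  haveI : Finite (Cfsg.IrrCharacter (K ⧸ N)) := finite_irrCharacter _
  haveI : Fintype (Cfsg.IrrCharacter (K ⧸ N)) := Fintype.ofFinite _
  have hlin1 : ∀ χ : Cfsg.IrrCharacter (K ⧸ N), (χ : K ⧸ N → ℂ) 1 = 1 :=
    fun χ => irrCharacter_one_of_comm hQ χ
  have hχc : ∀ χ : Cfsg.IrrCharacter (K ⧸ N), Cfsg.IsCharacter (K ⧸ N) (χ : K ⧸ N → ℂ) :=
    fun χ => isCharacter_of_isIrrCharacter χ.2
  set lam : Cfsg.IrrCharacter (K ⧸ N) → K → ℂ :=
    fun χ x => (χ : K ⧸ N → ℂ) (QuotientGroup.mk x) with hlam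
  have hlamc : ∀ χ, Cfsg.IsCharacter K (lam χ) :=
    fun χ => isCharacter_comp (QuotientGroup.mk' N) (hχc χ)
  have hlam1 : ∀ χ, lam χ 1 = 1 := fun χ => hlin1 χ
  have hlammul : ∀ χ x y, lam χ (x * y) = lam χ x * lam χ y :=
    fun χ => isCharacter_linear_mul (hlamc χ) (hlam1 χ)
  have hlamnorm : ∀ χ x, lam χ x * (starRingEnd ℂ) (lam χ x) = 1 := by
    intro χ x
    rw [← isCharacter_inv (hlamc χ) x, ← hlammul, mul_inv_cancel, hlam1]
  have hcol : ∀ x : K, ∑ χ : Cfsg.IrrCharacter (K ⧸ N), lam χ x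
      = if x ∈ N then (N.index : ℂ) else 0 := by
    intro x
    have h := column_orth_aux (1 : K ⧸ N) (QuotientGroup.mk x : K ⧸ N)
    rw [finsum_eq_sum_of_fintype] at h
    have h2 : ∀ χ : Cfsg.IrrCharacter (K ⧸ N),
        (χ : K ⧸ N → ℂ) (QuotientGroup.mk x) * (starRingEnd ℂ) ((χ : K ⧸ N → ℂ) 1)
          = lam χ x := by
      intro χ
      rw [hlin1 χ, map_one, mul_one]
    rw [Finset.sum_congr rfl (fun χ _ => h2 χ)] at h
    rw [h]
    by_cases hx : x ∈ N
    · rw [if_pos hx, if_pos]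
      · have hc : Subgroup.centralizer ({1} : Set (K ⧸ N)) = ⊤ := by
          rw [Subgroup.centralizer_eq_top_iff_subset]
          simp
        rw [hc, Subgroup.card_top]
        rfl
      · rw [isConj_one_right]
        exact (QuotientGroup.eq_one_iff x).mpr hx
    · rw [if_neg hx, if_neg]
      rw [isConj_one_right]
      intro h'
      exact hx ((QuotientGroup.eq_one_iff x).mp h')
  have hirr : ∀ χ, Cfsg.IsIrrCharacter K (lam χ * ϑ) := by
    intro χ
    apply isIrrCharacter_of_classInner_eq_one (isCharacter_mul (hlamc χ) hϑc)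
    have h1 := classInner_self_of_isIrrCharacter hϑ
    unfold Cfsg.classInner at h1 ⊢
    rw [← h1]
    congr 1
    refine Finset.sum_congr rfl (fun x _ => ?_)
    simp only [Pi.mul_apply, map_mul]
    calc lam χ x * ϑ x * ((starRingEnd ℂ) (lam χ x) * (starRingEnd ℂ) (ϑ x))
        = (lam χ x * (starRingEnd ℂ) (lam χ x)) * (ϑ x * (starRingEnd ℂ) (ϑ x)) := by ring
      _ = _ := by rw [hlamnorm, one_mul]
  set χ₀ : Cfsg.IrrCharacter (K ⧸ N) := ⟨fun _ => 1, isIrrCharacter_one⟩ with hχ₀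
  have hsum : ∑ χ : Cfsg.IrrCharacter (K ⧸ N), Cfsg.classInner (lam χ * ϑ) ϑ = 1 := by
    rw [Finset.sum_eq_single χ₀]
    · have h0 : lam χ₀ * ϑ = ϑ := by
        funext x
        simp [hlam, hχ₀]
      rw [h0]
      exact classInner_self_of_isIrrCharacter hϑ
    · intro χ _ hne
      have h := classInner_irr (⟨lam χ * ϑ, hirr χ⟩ : Cfsg.IrrCharacter K) ⟨ϑ, hϑ⟩
      simp only at h
      rw [h, if_neg]
      intro heq
      apply hne
      have heq' : lam χ * ϑ = ϑ := congrArg Subtype.val heq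
      let M : Subgroup K :=
        { carrier := {x | lam χ x = 1}
          one_mem' := hlam1 χ
          mul_mem' := by
            intro a b ha hb
            simp only [Set.mem_setOf_eq] at *
            rw [hlammul, ha, hb, mul_one]
          inv_mem' := by
            intro a ha
            simp only [Set.mem_setOf_eq] at *
            have h5 := hlammul χ a⁻¹ a
            rw [inv_mul_cancel, hlam1, ha, mul_one] at h5
            exact h5.symm }
      have hM : M = ⊤ := by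
        apply hgen M
        · intro x hx
          show (χ : K ⧸ N → ℂ) (QuotientGroup.mk x) = 1
          rw [(QuotientGroup.eq_one_iff x).mpr hx]
          exact hlin1 χ
        · intro x hx
          show lam χ x = 1
          have h6 := congrFun heq' x
          simp only [Pi.mul_apply] at h6
          exact mul_right_cancel₀ hx (by rw [h6, one_mul])
      apply Subtype.ext
      funext q
      obtain ⟨x, rfl⟩ := QuotientGroup.mk_surjective q
      have hxM : x ∈ M := by rw [hM]; exact Subgroup.mem_top x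
      exact hxM
    · intro h; exact absurd (Finset.mem_univ _) h
  rw [res_inner]
  have hmain : (N.index : ℂ) * ∑ x : K, (if x ∈ N then ϑ x * (starRingEnd ℂ) (ϑ x) else 0)
      = (Nat.card K : ℂ) := by
    calc (N.index : ℂ) * ∑ x : K, (if x ∈ N then ϑ x * (starRingEnd ℂ) (ϑ x) else 0)
        = ∑ x : K, (∑ χ : Cfsg.IrrCharacter (K ⧸ N), lam χ x)
            * (ϑ x * (starRingEnd ℂ) (ϑ x)) := by
          rw [Finset.mul_sum]
          refine Finset.sum_congr rfl (fun x _ => ?_)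
          rw [hcol x]
          by_cases hx : x ∈ N
          · rw [if_pos hx, if_pos hx]
          · rw [if_neg hx, if_neg hx, mul_zero, zero_mul]
      _ = ∑ χ : Cfsg.IrrCharacter (K ⧸ N), ∑ x : K,
            (lam χ * ϑ) x * (starRingEnd ℂ) (ϑ x) := by
          rw [Finset.sum_comm]
          refine Finset.sum_congr rfl (fun x _ => ?_)
          rw [Finset.sum_mul]
          refine Finset.sum_congr rfl (fun χ _ => ?_)
          simp only [Pi.mul_apply]
          ring
      _ = ∑ χ : Cfsg.IrrCharacter (K ⧸ N),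
            (Nat.card K : ℂ) * Cfsg.classInner (lam χ * ϑ) ϑ := by
          refine Finset.sum_congr rfl (fun χ _ => ?_)
          unfold Cfsg.classInner
          rw [← mul_assoc, mul_inv_cancel₀ hK, one_mul]
      _ = (Nat.card K : ℂ) := by rw [← Finset.mul_sum, hsum, mul_one]
  have hidx : (Nat.card N : ℂ) * (N.index : ℂ) = (Nat.card K : ℂ) := by
    rw [← Subgroup.card_mul_index N]
    push_cast
    rfl
  have hidx0 : (N.index : ℂ) ≠ 0 := by
    intro h0
    rw [h0, mul_zero] at hidx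
    exact hK hidx.symm
  have hfin : ∑ x : K, (if x ∈ N then ϑ x * (starRingEnd ℂ) (ϑ x) else 0)
      = (Nat.card N : ℂ) := by
    apply mul_left_cancel₀ hidx0
    rw [hmain, ← hidx, mul_comm]
  rw [hfin, inv_mul_cancel₀ hNc]

theorem clifford_dec {K : Type u} [Group K] [Fintype K] (N : Subgroup K) [hN : N.Normal]
    [Fintype N] {ϑ : K → ℂ} (hϑ : Cfsg.IsIrrCharacter K ϑ) {φ : N → ℂ}
    (hφ : Cfsg.IsIrrCharacter N φ) (hcon : Cfsg.classInner (fun n : N => ϑ n) φ ≠ 0) :
    ∃ (e : ℕ) (F : Finset (N → ℂ)), φ ∈ F ∧ (∀ ψ ∈ F, Cfsg.IsIrrCharacter N ψ) ∧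
      F.card = (Cfsg.Agent.Helper2.Mono.stab N φ).index ∧
      (fun n : N => ϑ n) = (e : ℂ) • ∑ ψ ∈ F, ψ ∧
      Cfsg.classInner (fun n : N => ϑ n) (fun n : N => ϑ n) = ((e ^ 2 * F.card : ℕ) : ℂ) := by
  classical
  obtain ⟨e, he⟩ := classInner_isCharacter_nat
    (isCharacter_res N (isCharacter_of_isIrrCharacter hϑ)) (isCharacter_of_isIrrCharacter hφ)
  have hfin : (Set.range (conjFun N φ)).Finite := Set.finite_range _
  have h := clifford N hϑ hφ hcon
  rw [he, finsum_mem_eq_finite_toFinset_sum _ hfin] at h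
  refine ⟨e, hfin.toFinset, ?_, ?_, ?_, h, ?_⟩
  · rw [Set.Finite.mem_toFinset]
    exact ⟨1, conjFun_one N φ⟩
  · intro ψ hψ
    rw [Set.Finite.mem_toFinset] at hψ
    obtain ⟨g, rfl⟩ := hψ
    exact isIrrCharacter_conjFun N hφ g
  · rw [← Cfsg.Agent.Helper2.Twist.card_range_conjFun N φ, Nat.card_coe_set_eq,
      Set.ncard_eq_toFinset_card _ hfin]
  · have h2 : Cfsg.classInner (fun n : N => ϑ n) ((e : ℂ) • ∑ ψ ∈ hfin.toFinset, ψ)
        = ((e ^ 2 * hfin.toFinset.card : ℕ) : ℂ) := by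
      rw [classInner_smul_right, classInner_sum_right, Complex.conj_natCast]
      have h3 : ∀ ψ ∈ hfin.toFinset, Cfsg.classInner (fun n : N => ϑ n) ψ = (e : ℂ) := by
        intro ψ hψ
        rw [Set.Finite.mem_toFinset] at hψ
        have hψirr : Cfsg.IsIrrCharacter N ψ := by
          obtain ⟨g, rfl⟩ := hψ
          exact isIrrCharacter_conjFun N hφ g
        have h4 := clifford_orbit N hϑ hφ hcon ⟨ψ, hψirr⟩
        simp only at h4
        rw [h4, if_pos, he]
        obtain ⟨g, rfl⟩ := hψ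
        exact ⟨g, rfl⟩
      rw [Finset.sum_congr rfl h3, Finset.sum_const, nsmul_eq_mul]
      push_cast
      ring
    rw [← h] at h2
    exact h2

theorem stab_aut {K : Type u} [Group K] [Fintype K] (N : Subgroup K) [hN : N.Normal]
    [Fintype N] (hab : ∀ a b : K, a * b * a⁻¹ * b⁻¹ ∈ N) {ϑ : K → ℂ}
    (hϑ : Cfsg.IsIrrCharacter K ϑ) {φ : N → ℂ} (hφ : Cfsg.IsIrrCharacter N φ)
    (hcon : Cfsg.classInner (fun n : N => ϑ n) φ ≠ 0) (α : K ≃* K)
    (hαN : ∀ n : K, n ∈ N ↔ α n ∈ N) (hαϑ : ∀ x, ϑ (α x) = ϑ x) (k : K)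
    (hk : k ∈ Cfsg.Agent.Helper2.Mono.stab N φ) :
    α k ∈ Cfsg.Agent.Helper2.Mono.stab N φ := by
  classical
  let αN : N ≃* N :=
    { toFun := fun n => ⟨α n, (hαN n).mp n.2⟩
      invFun := fun n => ⟨α.symm n, (hαN _).mpr (by rw [MulEquiv.apply_symm_apply]; exact n.2)⟩
      left_inv := fun n => Subtype.ext (by simp)
      right_inv := fun n => Subtype.ext (by simp)
      map_mul' := fun a b => Subtype.ext (by simp) }
  have hαN_coe : ∀ n : N, ((αN n : N) : K) = α n := fun n => rfl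
  set ψ : N → ℂ := φ ∘ αN with hψdef
  have hψ : Cfsg.IsIrrCharacter N ψ := isIrrCharacter_comp_mulEquiv αN hφ
  have hres : (fun n : N => ϑ n) = (fun n : N => ϑ n) ∘ αN := by
    funext n
    simp only [Function.comp_apply]
    rw [hαN_coe, hαϑ]
  have hcon' : Cfsg.classInner (fun n : N => ϑ n) ψ ≠ 0 := by
    have h1 : Cfsg.classInner (fun n : N => ϑ n) ψ
        = Cfsg.classInner ((fun n : N => ϑ n) ∘ αN) (φ ∘ αN) := by
      rw [← hres]
    rw [h1, classInner_comp_mulEquiv αN]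
    exact hcon
  have horb : ∃ k' : K, ψ = conjFun N φ k' := by
    by_contra hno
    have h4 := clifford_orbit N hϑ hφ hcon ⟨ψ, hψ⟩
    simp only at h4
    rw [if_neg hno] at h4
    exact hcon' h4
  obtain ⟨k', hk'⟩ := horb
  have hkφ : conjFun N φ k = φ := by
    funext n
    exact (Cfsg.Agent.Helper2.Mono.mem_stab N φ k).mp hk n
  have hψcf : Cfsg.IsClassFunction N ψ :=
    isCharacter_isClassFunction (isCharacter_of_isIrrCharacter hψ)
  have hkψ : conjFun N ψ k = ψ := by
    have hc : k'⁻¹ * k⁻¹ * k' * k ∈ N := by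
      have h7 := hab k'⁻¹ k⁻¹
      simpa using h7
    have hc2 : conjFun N ψ (k'⁻¹ * k⁻¹ * k' * k) = ψ := by
      funext n
      exact (Cfsg.Agent.Helper2.Mono.mem_stab N ψ _).mp
        (Cfsg.Agent.Helper2.Mono.le_stab N ψ hψcf hc) n
    have e1 : k' * k = k * k' * (k'⁻¹ * k⁻¹ * k' * k) := by group
    calc conjFun N ψ k = conjFun N (conjFun N φ k') k := by rw [hk']
      _ = conjFun N φ (k' * k) := conjFun_conjFun N φ k' k
      _ = conjFun N φ (k * k' * (k'⁻¹ * k⁻¹ * k' * k)) := by rw [← e1]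
      _ = conjFun N (conjFun N (conjFun N φ k) k') (k'⁻¹ * k⁻¹ * k' * k) := by
          rw [conjFun_conjFun, conjFun_conjFun, mul_assoc k k' (k'⁻¹ * k⁻¹ * k' * k)]
      _ = conjFun N ψ (k'⁻¹ * k⁻¹ * k' * k) := by rw [hkφ, ← hk']
      _ = ψ := hc2
  rw [Cfsg.Agent.Helper2.Mono.mem_stab]
  intro m
  have h5 := congrFun hkψ (αN.symm m)
  have h6 : ψ (αN.symm m) = φ m := by
    rw [hψdef]
    simp
  rw [h6] at h5
  rw [← h5]
  unfold conjFun
  rw [hψdef]
  simp only [Function.comp_apply]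
  congr 1
  apply Subtype.ext
  show α k * (m : K) * (α k)⁻¹ = α (k * ((αN.symm m : N) : K) * k⁻¹)
  rw [map_mul, map_mul, map_inv]
  congr 2
  show (m : K) = α (α.symm m)
  rw [MulEquiv.apply_symm_apply]

theorem core {K : Type u} [Group K] [Fintype K] (N : Subgroup K) [hN : N.Normal] [Fintype N]
    {ϑ : K → ℂ} (hϑ : Cfsg.IsIrrCharacter K ϑ)
    (hS : (∀ x, x ∉ N → ϑ x = 0)
      ∨ Cfsg.classInner (fun n : N => ϑ n) (fun n : N => ϑ n) = 1)
    (hT : ∀ φ : N → ℂ, Cfsg.IsIrrCharacter N φ →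
      Cfsg.classInner (fun n : N => ϑ n) φ ≠ 0 →
      Cfsg.Agent.Helper2.Mono.stab N φ = N ∨ Cfsg.Agent.Helper2.Mono.stab N φ = ⊤) :
    Cfsg.IsIrrCharacter N (fun n : N => ϑ n)
      ∨ (∃ (φ : N → ℂ) (e : ℕ), Cfsg.IsIrrCharacter N φ ∧
          (fun n : N => ϑ n) = (e : ℂ) • φ ∧ e ^ 2 = N.index)
      ∨ (∃ F : Finset (N → ℂ), (∀ φ ∈ F, Cfsg.IsIrrCharacter N φ) ∧ F.card = N.index ∧
          (fun n : N => ϑ n) = ∑ φ ∈ F, φ) := by
  classical
  have hresc : Cfsg.IsCharacter N (fun n : N => ϑ n) :=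
    isCharacter_res N (isCharacter_of_isIrrCharacter hϑ)
  have hidx : N.index ≠ 0 := Subgroup.index_ne_zero_of_finite
  rcases hS with hv | h1
  swap
  · left
    exact isIrrCharacter_of_classInner_eq_one hresc h1
  have hin := inner_of_vanish N hϑ hv
  have hne : (fun n : N => ϑ n) ≠ 0 := by
    intro h0
    rw [h0, classInner_zero_left] at hin
    exact hidx (by exact_mod_cast hin.symm)
  obtain ⟨φ, hφcon⟩ := exists_const (isCharacter_isClassFunction hresc) hne
  obtain ⟨e, F, hφF, hFirr, hcard, hres, hinner⟩ := clifford_dec N hϑ φ.2 hφcon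
  rw [hin] at hinner
  have hinner' : N.index = e ^ 2 * F.card := by exact_mod_cast hinner
  rcases hT φ φ.2 hφcon with hT | hT
  · right; right
    rw [hT] at hcard
    have he : e = 1 := by
      rw [hcard] at hinner'
      have h2 : e ^ 2 = 1 := by
        have h3 : 1 * N.index = e ^ 2 * N.index := by rw [one_mul]; exact hinner'
        exact (Nat.eq_of_mul_eq_mul_right (Nat.pos_of_ne_zero hidx) h3).symm
      exact (Nat.pow_eq_one.mp h2).resolve_right (by norm_num)
    refine ⟨F, hFirr, hcard, ?_⟩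
    rw [hres, he]
    simp
  · right; left
    rw [hT, Subgroup.index_top] at hcard
    obtain ⟨a, ha⟩ := Finset.card_eq_one.mp hcard
    have hφa : (φ : N → ℂ) = a := by
      rw [ha] at hφF
      exact Finset.mem_singleton.mp hφF
    refine ⟨φ, e, φ.2, ?_, ?_⟩
    · rw [hres, ha, Finset.sum_singleton, hφa]
    · rw [hinner', hcard, mul_one]

theorem main {G : Type u} [Group G] [Fintype G] (K L : Subgroup G) [hK : K.Normal]
    [hL : L.Normal] (hLK : L < K)
    (hchief : ∀ M : Subgroup G, M.Normal → L ≤ M → M ≤ K → M = L ∨ M = K)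
    (hab : ⁅K, K⁆ ≤ L) (ϑ : K → ℂ) (hϑ : Cfsg.IsIrrCharacter K ϑ)
    (hinv : ∀ (g : G) (n : K), ϑ ⟨g * n * g⁻¹, hK.conj_mem (n : G) n.2 g⟩ = ϑ n) :
    Cfsg.IsIrrCharacter L (fun x : L => ϑ ⟨(x : G), hLK.le x.2⟩)
      ∨ (∃ (φ : L → ℂ) (e : ℕ), Cfsg.IsIrrCharacter L φ ∧
          (fun x : L => ϑ ⟨(x : G), hLK.le x.2⟩) = (e : ℂ) • φ ∧ e ^ 2 = L.relIndex K)
      ∨ (∃ F : Finset (L → ℂ), (∀ φ ∈ F, Cfsg.IsIrrCharacter L φ) ∧ F.card = L.relIndex K ∧
          (fun x : L => ϑ ⟨(x : G), hLK.le x.2⟩) = ∑ φ ∈ F, φ) := by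
  classical
  haveI : Fintype K := Fintype.ofFinite K
  set N : Subgroup K := L.subgroupOf K with hNdef
  haveI hNn : N.Normal := Subgroup.normal_subgroupOf
  haveI : Fintype N := Fintype.ofFinite N
  have hmemN : ∀ k : K, k ∈ N ↔ (k : G) ∈ L := fun k => Subgroup.mem_subgroupOf
  have habK : ∀ a b : K, a * b * a⁻¹ * b⁻¹ ∈ N := by
    intro a b
    rw [hmemN]
    apply hab
    have h1 := Subgroup.commutator_mem_commutator a.2 b.2
    rw [commutatorElement_def] at h1
    simpa using h1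
  set s : Set G := {x | ∃ h : x ∈ K, ϑ ⟨x, h⟩ ≠ 0} with hs
  have hsK : s ⊆ K := fun x hx => hx.1
  have hsconj : ∀ x ∈ s, ∀ g : G, g * x * g⁻¹ ∈ s := by
    rintro x ⟨hxK, hx⟩ g
    refine ⟨hK.conj_mem x hxK g, ?_⟩
    have h1 := hinv g ⟨x, hxK⟩
    intro h0
    exact hx (h1.symm.trans h0)
  have hS : (∀ x : K, x ∉ N → ϑ x = 0)
      ∨ Cfsg.classInner (fun n : N => ϑ n) (fun n : N => ϑ n) = 1 := by
    rcases hchief (L ⊔ Subgroup.normalClosure s) inferInstance le_sup_left
      (sup_le hLK.le (Subgroup.normalClosure_le_normal hsK)) with h | h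
    · left
      intro x hx
      by_contra h0
      apply hx
      rw [hmemN, ← h]
      exact Subgroup.mem_sup_right (Subgroup.subset_normalClosure ⟨x.2, h0⟩)
    · right
      apply inner_of_gen N habK hϑ
      intro M hNM hM
      rw [eq_top_iff]
      intro k _
      have hle : L ⊔ Subgroup.normalClosure s ≤ M.map K.subtype := by
        apply sup_le
        · intro l hl
          exact ⟨⟨l, hLK.le hl⟩, hNM ((hmemN _).mpr hl), rfl⟩
        · unfold Subgroup.normalClosure
          rw [Subgroup.closure_le]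
          intro y hy
          rw [Group.mem_conjugatesOfSet_iff] at hy
          obtain ⟨b, hb, hby⟩ := hy
          rw [isConj_iff] at hby
          obtain ⟨c, rfl⟩ := hby
          obtain ⟨hyK, hy0⟩ := hsconj b hb c
          exact ⟨⟨_, hyK⟩, hM _ hy0, rfl⟩
      have hk : (k : G) ∈ M.map K.subtype := hle (by rw [h]; exact k.2)
      obtain ⟨m, hm, hmk⟩ := hk
      have hmk' : m = k := Subtype.ext hmk
      rw [← hmk']
      exact hm
  have hT : ∀ φ : N → ℂ, Cfsg.IsIrrCharacter N φ →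
      Cfsg.classInner (fun n : N => ϑ n) φ ≠ 0 →
      Cfsg.Agent.Helper2.Mono.stab N φ = N ∨ Cfsg.Agent.Helper2.Mono.stab N φ = ⊤ := by
    intro φ hφ hcon
    have hNT : N ≤ Cfsg.Agent.Helper2.Mono.stab N φ :=
      Cfsg.Agent.Helper2.Mono.le_stab N φ
        (isCharacter_isClassFunction (isCharacter_of_isIrrCharacter hφ))
    have hnorm : ((Cfsg.Agent.Helper2.Mono.stab N φ).map K.subtype).Normal := by
      refine ⟨fun x hx g => ?_⟩
      obtain ⟨k, hk, rfl⟩ := hx
      have h1 := stab_aut N habK hϑ hφ hcon (MulAut.conjNormal g : K ≃* K) ?_ ?_ k hk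
      · exact ⟨_, h1, by simp⟩
      · intro n
        rw [hmemN, hmemN, MulAut.conjNormal_apply]
        constructor
        · intro hn
          exact hL.conj_mem _ hn g
        · intro hn
          have h2 := hL.conj_mem _ hn g⁻¹
          simpa [mul_assoc] using h2
      · intro x
        have h2 := hinv g x
        rw [← h2]
        congr 1
    have hle1 : L ≤ (Cfsg.Agent.Helper2.Mono.stab N φ).map K.subtype := by
      intro l hl
      exact ⟨⟨l, hLK.le hl⟩, hNT ((hmemN _).mpr hl), rfl⟩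
    have hle2 : (Cfsg.Agent.Helper2.Mono.stab N φ).map K.subtype ≤ K := by
      intro x hx
      obtain ⟨k, _, rfl⟩ := hx
      exact k.2
    rcases hchief _ hnorm hle1 hle2 with h | h
    · left
      apply le_antisymm _ hNT
      intro k hk
      rw [hmemN, ← h]
      exact ⟨k, hk, rfl⟩
    · right
      rw [eq_top_iff]
      intro k _
      have hk : (k : G) ∈ (Cfsg.Agent.Helper2.Mono.stab N φ).map K.subtype := by
        rw [h]
        exact k.2
      obtain ⟨m, hm, hmk⟩ := hk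
      have hmk' : m = k := Subtype.ext hmk
      rw [← hmk']
      exact hm
  have hcore := core N hϑ hS hT
  let iso : N ≃* L := Subgroup.subgroupOfEquivOfLe hLK.le
  have hiso : ∀ x : L, ((iso.symm x : N) : K) = ⟨(x : G), hLK.le x.2⟩ := fun x => rfl
  have hθ : (fun x : L => ϑ ⟨(x : G), hLK.le x.2⟩) = (fun n : N => ϑ n) ∘ iso.symm := by
    funext x
    simp only [Function.comp_apply]
    rw [hiso]
  rw [hθ]
  rcases hcore with h | ⟨φ, e, hφ, hres, he⟩ | ⟨F, hF, hcard, hres⟩
  · left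
    exact isIrrCharacter_comp_mulEquiv iso.symm h
  · right; left
    refine ⟨φ ∘ iso.symm, e, isIrrCharacter_comp_mulEquiv iso.symm hφ, ?_, he⟩
    rw [hres]
    rfl
  · right; right
    have hinj : Function.Injective (fun ψ : N → ℂ => ψ ∘ iso.symm) := by
      intro a b hab'
      funext n
      have h1 := congrFun hab' (iso n)
      simpa using h1
    refine ⟨F.image (fun ψ : N → ℂ => ψ ∘ iso.symm), ?_, ?_, ?_⟩
    · intro ψ hψ
      rw [Finset.mem_image] at hψ
      obtain ⟨ψ', hψ', rfl⟩ := hψ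
      exact isIrrCharacter_comp_mulEquiv iso.symm (hF ψ' hψ')
    · rw [Finset.card_image_of_injective _ hinj, hcard]
      rfl
    · rw [Finset.sum_image (fun a _ b _ h => hinj h), hres]
      funext x
      simp [Finset.sum_apply]

end Cfsg.Agent.Helper2.Chief
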