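import Mathlib
import Cfsg.Agent.Helper2.Chief
import Cfsg.Agent.Helper2.GalAM
import Cfsg.Agent.Helper2.GalAM2

/-! A character restricts reducibly to a normal subgroup iff it vanishes on a coset. -/

set_option autoImplicit false

namespace Cfsg.Agent.Helper2.Coset

open Cfsg Cfsg.Agent.Lead Polynomial

universe u

/-- AM-GM over Galois conjugates for nonnegative real values -/
theorem sum_re_ge (F : ℤ[X]) (n : ℕ) (hn : 0 < n) {ζ : ℂ} (hζ : IsPrimitiveRoot ζ n)
    (hreal : ∀ ω ∈ primitiveRoots n ℂ, ∃ r : ℝ, 0 ≤ r ∧ aeval ω F = (r : ℂ))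
    (h : aeval ζ F ≠ 0) :
    (Nat.totient n : ℝ) ≤ ∑ ω ∈ primitiveRoots n ℂ, (aeval ω F).re := by
  obtain ⟨z, hz⟩ := Cfsg.Agent.Helper2.GalAM.prod_primitive_int F n hn
  have hne : ∀ ω ∈ primitiveRoots n ℂ, aeval ω F ≠ 0 := by
    intro ω hω h0
    exact h (Cfsg.Agent.Helper2.GalAM.aeval_primitive_eq_zero F n hn
      ((mem_primitiveRoots hn).mp hω) hζ h0)
  have hz0 : z ≠ 0 := by
    intro h0
    rw [h0, Int.cast_zero, Finset.prod_eq_zero_iff] at hz
    obtain ⟨ω, hω, h1⟩ := hz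
    exact hne ω hω h1
  have hre : ∀ ω ∈ primitiveRoots n ℂ,
      0 ≤ (aeval ω F).re ∧ aeval ω F = (((aeval ω F).re : ℝ) : ℂ) := by
    intro ω hω
    obtain ⟨r, hr0, hr⟩ := hreal ω hω
    rw [hr, Complex.ofReal_re]
    exact ⟨hr0, rfl⟩
  have hprodz : (∏ ω ∈ primitiveRoots n ℂ, (aeval ω F).re : ℝ) = (z : ℝ) := by
    have h1 : ((∏ ω ∈ primitiveRoots n ℂ, (aeval ω F).re : ℝ) : ℂ) = (z : ℂ) := by
      rw [← hz, Complex.ofReal_prod]
      exact Finset.prod_congr rfl (fun ω hω => (hre ω hω).2.symm)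
    exact_mod_cast h1
  have hprod : (1 : ℝ) ≤ ∏ ω ∈ primitiveRoots n ℂ, (aeval ω F).re := by
    have h3 : 0 ≤ ∏ ω ∈ primitiveRoots n ℂ, (aeval ω F).re :=
      Finset.prod_nonneg (fun ω hω => (hre ω hω).1)
    rw [hprodz] at h3 ⊢
    have h4 : (0 : ℤ) ≤ z := by exact_mod_cast h3
    have h5 : (1 : ℤ) ≤ z := by omega
    exact_mod_cast h5
  have hcard : (primitiveRoots n ℂ).card = Nat.totient n := hζ.card_primitiveRoots
  have hpos : 0 < Nat.totient n := Nat.totient_pos.mpr hn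
  have hposR : (0 : ℝ) < (Nat.totient n : ℝ) := by exact_mod_cast hpos
  have am := Real.geom_mean_le_arith_mean (primitiveRoots n ℂ) (fun _ => (1 : ℝ))
    (fun ω => (aeval ω F).re) (fun _ _ => zero_le_one)
    (by rw [Finset.sum_const, hcard, nsmul_eq_mul, mul_one]; exact hposR)
    (fun ω hω => (hre ω hω).1)
  simp only [Real.rpow_one, Finset.sum_const, one_mul, nsmul_eq_mul, mul_one, hcard] at am
  have h1 : (1 : ℝ) ≤ (∏ ω ∈ primitiveRoots n ℂ, (aeval ω F).re) ^ ((Nat.totient n : ℝ))⁻¹ :=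
    Real.one_le_rpow hprod (by positivity)
  have h2 := le_trans h1 am
  rwa [le_div_iff₀ hposR, one_mul] at h2

/-- sum of `|χ|²` over the coset `xN` -/
noncomputable def fR {G : Type u} [Group G] [Fintype G] (N : Subgroup G) (χ : G → ℂ) (x : G) :
    ℝ :=
  open Classical in ∑ g : G, if x⁻¹ * g ∈ N then ‖χ g‖ ^ 2 else 0

theorem fR_nonneg {G : Type u} [Group G] [Fintype G] (N : Subgroup G) (χ : G → ℂ) (x : G) :
    0 ≤ fR N χ x := by
  unfold fR
  exact Finset.sum_nonneg (fun g _ => by split_ifs <;> positivity)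

theorem fR_cast {G : Type u} [Group G] [Fintype G] (N : Subgroup G) (χ : G → ℂ) (x : G)
    [DecidablePred (· ∈ N)] :
    ((fR N χ x : ℝ) : ℂ) = ∑ g : G, if x⁻¹ * g ∈ N then χ g * (starRingEnd ℂ) (χ g) else 0 := by
  unfold fR
  rw [Complex.ofReal_sum]
  refine Finset.sum_congr rfl (fun g _ => ?_)
  by_cases hg : x⁻¹ * g ∈ N
  · rw [if_pos hg, if_pos hg, Complex.mul_conj, Complex.normSq_eq_norm_sq]
  · rw [if_neg hg, if_neg hg, Complex.ofReal_zero]

theorem fR_eq_zero_iff {G : Type u} [Group G] [Fintype G] (N : Subgroup G) [hN : N.Normal]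
    (χ : G → ℂ) (x : G) : fR N χ x = 0 ↔ ∀ n : N, χ ((n : G) * x) = 0 := by
  classical
  unfold fR
  rw [Finset.sum_eq_zero_iff_of_nonneg (fun g _ => by split_ifs <;> positivity)]
  constructor
  · intro h n
    have h1 := h ((n : G) * x) (Finset.mem_univ _)
    have h2 : x⁻¹ * ((n : G) * x) ∈ N := by
      have h3 := hN.conj_mem n n.2 x⁻¹
      simpa [mul_assoc] using h3
    rw [if_pos h2] at h1
    simpa using h1
  · intro h g _
    by_cases hg : x⁻¹ * g ∈ N
    · rw [if_pos hg]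
      have h2 : g * x⁻¹ ∈ N := by
        have h3 := hN.conj_mem _ hg x
        simpa [mul_assoc] using h3
      have h3 := h ⟨g * x⁻¹, h2⟩
      simp only [inv_mul_cancel_right] at h3
      rw [h3]
      simp
    · rw [if_neg hg]

theorem fR_one {G : Type u} [Group G] [Fintype G] (N : Subgroup G) [Fintype N] (χ : G → ℂ) :
    Cfsg.classInner (fun n : N => χ n) (fun n : N => χ n)
      = ((fR N χ 1 / (Nat.card N : ℝ) : ℝ) : ℂ) := by
  classical
  rw [Cfsg.Agent.Helper2.Chief.res_inner, Complex.ofReal_div, fR_cast, div_eq_inv_mul]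
  congr 1
  refine Finset.sum_congr rfl (fun g _ => ?_)
  rw [inv_one, one_mul]

theorem sum_fR {G : Type u} [Group G] [Fintype G] (N : Subgroup G) {χ : G → ℂ}
    (hχ : Cfsg.IsIrrCharacter G χ) :
    ∑ x : G, fR N χ x = (Nat.card N : ℝ) * (Fintype.card G : ℝ) := by
  classical
  unfold fR
  rw [Finset.sum_comm]
  have h1 : ∀ g : G, ∑ x : G, (if x⁻¹ * g ∈ N then ‖χ g‖ ^ 2 else 0)
      = (Nat.card N : ℝ) * ‖χ g‖ ^ 2 := by
    intro g
    rw [← Finset.sum_filter, Finset.sum_const, nsmul_eq_mul]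
    congr 2
    rw [← Fintype.card_subtype, ← Nat.card_eq_fintype_card]
    exact Nat.card_congr
      { toFun := fun x => ⟨x.1⁻¹ * g, x.2⟩
        invFun := fun n => ⟨g * (n : G)⁻¹, by simp⟩
        left_inv := fun x => Subtype.ext (by simp)
        right_inv := fun n => Subtype.ext (by simp) }
  rw [Finset.sum_congr rfl (fun g _ => h1 g), ← Finset.mul_sum,
    Cfsg.Agent.Helper2.GalAM.sum_norm_sq_irr hχ]

theorem sum_subgroup {G : Type u} [Group G] [Fintype G] (H : Subgroup G) [Fintype H]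
    (F : G → ℂ) (hF : ∀ g, F g ≠ 0 → g ∈ H) : ∑ g : G, F g = ∑ h : H, F h := by
  classical
  rw [← Finset.sum_filter_of_ne (s := Finset.univ) (p := fun g => g ∈ H)
    (fun g _ hg => hF g hg)]
  exact Finset.sum_subtype (Finset.univ.filter (fun g => g ∈ H)) (by simp) F

/-- expansion of the coset sums along powers of `x` as a nonnegative combination of powers of
roots of unity -/
theorem expansion {G : Type u} [Group G] [Fintype G] (N : Subgroup G) [hN : N.Normal]
    {χ : G → ℂ} (hχ : Cfsg.IsCharacter G χ) (x : G) (n : ℕ) (hx : x ^ n = 1) :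
    ∃ (J : Type u) (_ : Fintype J) (m : J → ℕ) (u : J → ℂ), (∀ j, u j ^ n = 1) ∧
      ∀ k : ℕ, ((fR N χ (x ^ k) : ℝ) : ℂ)
        = (Nat.card N : ℂ) * ∑ j, (m j : ℂ) * u j ^ k := by
  classical
  set H : Subgroup G :=
    (Subgroup.zpowers (QuotientGroup.mk x : G ⧸ N)).comap (QuotientGroup.mk' N) with hH
  haveI : Fintype H := Fintype.ofFinite H
  have hNH : N ≤ H := by
    intro a ha
    rw [hH, Subgroup.mem_comap]
    have h1 : (QuotientGroup.mk' N) a = 1 := (QuotientGroup.eq_one_iff a).mpr ha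
    rw [h1]
    exact Subgroup.one_mem _
  have hxH : x ∈ H := by
    rw [hH, Subgroup.mem_comap]
    exact Subgroup.mem_zpowers _
  set M : Subgroup H := N.subgroupOf H with hM
  haveI hMn : M.Normal := Subgroup.normal_subgroupOf
  haveI : Fintype M := Fintype.ofFinite M
  have hmemM : ∀ h : H, h ∈ M ↔ (h : G) ∈ N := fun h => Subgroup.mem_subgroupOf
  have hab : ∀ a b : H, a * b * a⁻¹ * b⁻¹ ∈ M := by
    intro a b
    obtain ⟨i, hi⟩ := Subgroup.mem_zpowers_iff.mp (Subgroup.mem_comap.mp a.2)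
    obtain ⟨j, hj⟩ := Subgroup.mem_zpowers_iff.mp (Subgroup.mem_comap.mp b.2)
    rw [hmemM, ← QuotientGroup.eq_one_iff]
    have e1 : ((((a * b * a⁻¹ * b⁻¹ : H) : G)) : G ⧸ N)
        = (QuotientGroup.mk' N a) * (QuotientGroup.mk' N b) * (QuotientGroup.mk' N a)⁻¹
          * (QuotientGroup.mk' N b)⁻¹ := by
      simp
    rw [e1, ← hi, ← hj]
    group
  have hHc : (Nat.card H : ℂ) ≠ 0 := natCard_ne_zero_complex H
  haveI : Fintype (H ⧸ M) := Fintype.ofFinite _
  have hQ : ∀ a b : H ⧸ M, a * b = b * a := by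
    intro a b
    induction a using QuotientGroup.induction_on with | H a =>
    induction b using QuotientGroup.induction_on with | H b =>
    rw [← QuotientGroup.mk_mul, ← QuotientGroup.mk_mul, QuotientGroup.eq]
    have h := hab b⁻¹ a⁻¹
    simpa [mul_assoc] using h
  haveI : Finite (Cfsg.IrrCharacter (H ⧸ M)) := finite_irrCharacter _
  haveI : Fintype (Cfsg.IrrCharacter (H ⧸ M)) := Fintype.ofFinite _
  have hlin1 : ∀ ψ : Cfsg.IrrCharacter (H ⧸ M), (ψ : H ⧸ M → ℂ) 1 = 1 :=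
    fun ψ => irrCharacter_one_of_comm hQ ψ
  have hψc : ∀ ψ : Cfsg.IrrCharacter (H ⧸ M), Cfsg.IsCharacter (H ⧸ M) (ψ : H ⧸ M → ℂ) :=
    fun ψ => isCharacter_of_isIrrCharacter ψ.2
  set lam : Cfsg.IrrCharacter (H ⧸ M) → H → ℂ :=
    fun ψ h => (ψ : H ⧸ M → ℂ) (QuotientGroup.mk h) with hlam
  have hlamc : ∀ ψ, Cfsg.IsCharacter H (lam ψ) :=
    fun ψ => isCharacter_comp (QuotientGroup.mk' M) (hψc ψ)
  have hlam1 : ∀ ψ, lam ψ 1 = 1 := fun ψ => hlin1 ψ
  have hlammul : ∀ ψ a b, lam ψ (a * b) = lam ψ a * lam ψ b :=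
    fun ψ => isCharacter_linear_mul (hlamc ψ) (hlam1 ψ)
  have hlampow : ∀ ψ (a : H) (k : ℕ), lam ψ (a ^ k) = lam ψ a ^ k := by
    intro ψ a k
    induction k with
    | zero => rw [pow_zero, pow_zero, hlam1]
    | succ k ih => rw [pow_succ, pow_succ, hlammul, ih]
  have hcol : ∀ y h : H, ∑ ψ : Cfsg.IrrCharacter (H ⧸ M),
      lam ψ h * (starRingEnd ℂ) (lam ψ y) = if y⁻¹ * h ∈ M then (M.index : ℂ) else 0 := by
    intro y h
    have hc := column_orth_aux (QuotientGroup.mk y : H ⧸ M) (QuotientGroup.mk h : H ⧸ M)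
    rw [finsum_eq_sum_of_fintype] at hc
    have hconj : IsConj (QuotientGroup.mk y : H ⧸ M) (QuotientGroup.mk h) ↔ y⁻¹ * h ∈ M := by
      rw [isConj_iff, ← QuotientGroup.eq]
      constructor
      · rintro ⟨c, hc'⟩
        rw [← hc', hQ c, mul_inv_cancel_right]
      · intro heq
        exact ⟨1, by rw [heq]; simp⟩
    have hcent : Subgroup.centralizer ({(QuotientGroup.mk y : H ⧸ M)} : Set (H ⧸ M)) = ⊤ := by
      rw [Subgroup.centralizer_eq_top_iff_subset, Set.singleton_subset_iff]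
      exact Subgroup.mem_center_iff.mpr (fun g => hQ g _)
    show ∑ ψ : Cfsg.IrrCharacter (H ⧸ M), (ψ : H ⧸ M → ℂ) (QuotientGroup.mk h)
      * (starRingEnd ℂ) ((ψ : H ⧸ M → ℂ) (QuotientGroup.mk y)) = _
    rw [hc]
    by_cases hyh : y⁻¹ * h ∈ M
    · rw [if_pos hyh, if_pos (hconj.mpr hyh), hcent, Subgroup.card_top]
      rfl
    · rw [if_neg hyh, if_neg (fun hcj => hyh (hconj.mp hcj))]
  have hχH : Cfsg.IsCharacter H (fun h : H => χ h) := isCharacter_res H hχ
  have hm : ∀ ψ : Cfsg.IrrCharacter (H ⧸ M), ∃ k : ℕ,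
      Cfsg.classInner (lam ψ * (fun h : H => χ h)) (fun h : H => χ h) = (k : ℂ) :=
    fun ψ => classInner_isCharacter_nat (isCharacter_mul (hlamc ψ) hχH) hχH
  choose m hm using hm
  have hy0n : (⟨x, hxH⟩ : H) ^ n = 1 := Subtype.ext (by simpa using hx)
  refine ⟨Cfsg.IrrCharacter (H ⧸ M), inferInstance, m,
    fun ψ => (starRingEnd ℂ) (lam ψ ⟨x, hxH⟩), ?_, ?_⟩
  · intro ψ
    rw [← map_pow, ← hlampow, hy0n, hlam1, map_one]
  intro k
  have hy : (((⟨x, hxH⟩ : H) ^ k : H) : G) = x ^ k := by simp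
  have hfR : ((fR N χ (x ^ k) : ℝ) : ℂ)
      = ∑ h : H, if ((⟨x, hxH⟩ : H) ^ k)⁻¹ * h ∈ M then χ h * (starRingEnd ℂ) (χ h) else 0 := by
    rw [fR_cast, sum_subgroup H]
    · refine Finset.sum_congr rfl (fun h _ => ?_)
      have hiff : ((⟨x, hxH⟩ : H) ^ k)⁻¹ * h ∈ M ↔ (x ^ k)⁻¹ * (h : G) ∈ N := by
        rw [hmemM, Subgroup.coe_mul, Subgroup.coe_inv, hy]
      by_cases hh : (x ^ k)⁻¹ * (h : G) ∈ N
      · rw [if_pos hh, if_pos (hiff.mpr hh)]
      · rw [if_neg hh, if_neg (fun h' => hh (hiff.mp h'))]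
    · intro g hg
      by_cases hh : (x ^ k)⁻¹ * g ∈ N
      · have h1 : g = x ^ k * ((x ^ k)⁻¹ * g) := by group
        rw [h1]
        exact H.mul_mem (H.pow_mem hxH k) (hNH hh)
      · rw [if_neg hh] at hg
        exact absurd rfl hg
  have hmain : (M.index : ℂ) * ∑ h : H,
      (if ((⟨x, hxH⟩ : H) ^ k)⁻¹ * h ∈ M then χ h * (starRingEnd ℂ) (χ h) else 0)
      = ∑ ψ : Cfsg.IrrCharacter (H ⧸ M),
          (starRingEnd ℂ) (lam ψ ((⟨x, hxH⟩ : H) ^ k)) * ((Nat.card H : ℂ) * (m ψ : ℂ)) := by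
    calc (M.index : ℂ) * ∑ h : H,
          (if ((⟨x, hxH⟩ : H) ^ k)⁻¹ * h ∈ M then χ h * (starRingEnd ℂ) (χ h) else 0)
        = ∑ h : H, (∑ ψ : Cfsg.IrrCharacter (H ⧸ M),
            lam ψ h * (starRingEnd ℂ) (lam ψ ((⟨x, hxH⟩ : H) ^ k)))
              * (χ h * (starRingEnd ℂ) (χ h)) := by
          rw [Finset.mul_sum]
          refine Finset.sum_congr rfl (fun h _ => ?_)
          rw [hcol]
          by_cases hyh : ((⟨x, hxH⟩ : H) ^ k)⁻¹ * h ∈ M
          · rw [if_pos hyh, if_pos hyh]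
          · rw [if_neg hyh, if_neg hyh, mul_zero, zero_mul]
      _ = ∑ ψ : Cfsg.IrrCharacter (H ⧸ M),
            (starRingEnd ℂ) (lam ψ ((⟨x, hxH⟩ : H) ^ k))
              * ∑ h : H, (lam ψ * (fun h : H => χ h)) h * (starRingEnd ℂ) (χ h) := by
          simp only [Finset.sum_mul]
          rw [Finset.sum_comm]
          refine Finset.sum_congr rfl (fun ψ _ => ?_)
          rw [Finset.mul_sum]
          refine Finset.sum_congr rfl (fun h _ => ?_)
          simp only [Pi.mul_apply]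
          ring
      _ = ∑ ψ : Cfsg.IrrCharacter (H ⧸ M),
            (starRingEnd ℂ) (lam ψ ((⟨x, hxH⟩ : H) ^ k)) * ((Nat.card H : ℂ) * (m ψ : ℂ)) := by
          refine Finset.sum_congr rfl (fun ψ _ => ?_)
          rw [← hm ψ]
          unfold Cfsg.classInner
          rw [← mul_assoc (Nat.card H : ℂ), mul_inv_cancel₀ hHc, one_mul]
  have hidx : (Nat.card M : ℂ) * (M.index : ℂ) = (Nat.card H : ℂ) := by
    rw [← Subgroup.card_mul_index M]
    push_cast
    rfl
  have hidx0 : (M.index : ℂ) ≠ 0 := by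
    intro h0
    rw [h0, mul_zero] at hidx
    exact hHc hidx.symm
  have hMN : Nat.card M = Nat.card N :=
    Nat.card_congr (Subgroup.subgroupOfEquivOfLe hNH).toEquiv
  rw [hfR]
  apply mul_left_cancel₀ hidx0
  rw [hmain, Finset.mul_sum, Finset.mul_sum]
  refine Finset.sum_congr rfl (fun ψ _ => ?_)
  rw [hlampow, map_pow, ← hidx, hMN]
  ring

/-- on a nonvanishing coset, the coset sums over the coprime powers average at least `|N|` -/
theorem sum_coprime_ge {G : Type u} [Group G] [Fintype G] (N : Subgroup G) [hN : N.Normal]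
    {χ : G → ℂ} (hχ : Cfsg.IsCharacter G χ) (x : G) (h0 : fR N χ x ≠ 0) :
    (Nat.totient (Fintype.card G) : ℝ) * (Nat.card N : ℝ)
      ≤ ∑ i ∈ (Finset.range (Fintype.card G)).filter (fun i => i.Coprime (Fintype.card G)),
          fR N χ (x ^ i) := by
  have hnpos : 0 < Fintype.card G := Fintype.card_pos
  haveI : NeZero (Fintype.card G) := ⟨hnpos.ne'⟩
  have hζ : IsPrimitiveRoot (Complex.exp (2 * Real.pi * Complex.I / (Fintype.card G : ℕ)))
      (Fintype.card G) := Complex.isPrimitiveRoot_exp _ hnpos.ne'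
  obtain ⟨J, instJ, m, u, hu, hexp⟩ := expansion N hχ x (Fintype.card G) pow_card_eq_one
  letI := instJ
  have ha : ∀ j, ∃ i < Fintype.card G,
      Complex.exp (2 * Real.pi * Complex.I / (Fintype.card G : ℕ)) ^ i = u j :=
    fun j => hζ.eq_pow_of_pow_eq_one (hu j)
  choose a ha1 ha2 using ha
  have hFeval : ∀ k : ℕ,
      aeval (Complex.exp (2 * Real.pi * Complex.I / (Fintype.card G : ℕ)) ^ k)
        (∑ j, Polynomial.monomial (a j) (m j : ℤ)) = ∑ j, (m j : ℂ) * u j ^ k := by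
    intro k
    rw [map_sum]
    refine Finset.sum_congr rfl (fun j _ => ?_)
    rw [Polynomial.aeval_monomial, ← ha2 j, ← pow_mul, ← pow_mul, mul_comm k (a j)]
    simp
  have hNc : (Nat.card N : ℂ) ≠ 0 := natCard_ne_zero_complex N
  have hNpos : (0 : ℝ) < (Nat.card N : ℝ) := by exact_mod_cast Nat.card_pos
  have hval : ∀ k : ℕ,
      aeval (Complex.exp (2 * Real.pi * Complex.I / (Fintype.card G : ℕ)) ^ k)
        (∑ j, Polynomial.monomial (a j) (m j : ℤ))
        = ((fR N χ (x ^ k) / (Nat.card N : ℝ) : ℝ) : ℂ) := by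
    intro k
    rw [hFeval k, Complex.ofReal_div, hexp k, Complex.ofReal_natCast, mul_div_cancel_left₀ _ hNc]
  have hreal : ∀ ω ∈ primitiveRoots (Fintype.card G) ℂ, ∃ r : ℝ, 0 ≤ r ∧
      aeval ω (∑ j, Polynomial.monomial (a j) (m j : ℤ)) = (r : ℂ) := by
    intro ω hω
    obtain ⟨i, -, rfl⟩ := hζ.eq_pow_of_pow_eq_one ((mem_primitiveRoots hnpos).mp hω).pow_eq_one
    exact ⟨fR N χ (x ^ i) / (Nat.card N : ℝ), div_nonneg (fR_nonneg _ _ _) hNpos.le, hval i⟩
  have hne : aeval (Complex.exp (2 * Real.pi * Complex.I / (Fintype.card G : ℕ)))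
      (∑ j, Polynomial.monomial (a j) (m j : ℤ)) ≠ 0 := by
    have h1 := hval 1
    rw [pow_one, pow_one] at h1
    rw [h1]
    have h2 : fR N χ x / (Nat.card N : ℝ) ≠ 0 := div_ne_zero h0 hNpos.ne'
    exact_mod_cast h2
  have hs := sum_re_ge _ (Fintype.card G) hnpos hζ hreal hne
  rw [Cfsg.Agent.Helper2.GalAM.sum_primitive_eq (Fintype.card G) hnpos hζ
    (fun ω => (aeval ω (∑ j, Polynomial.monomial (a j) (m j : ℤ))).re)] at hs
  have hterm : ∀ i : ℕ,
      (aeval (Complex.exp (2 * Real.pi * Complex.I / (Fintype.card G : ℕ)) ^ i)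
        (∑ j, Polynomial.monomial (a j) (m j : ℤ))).re
        = fR N χ (x ^ i) / (Nat.card N : ℝ) := by
    intro i
    rw [hval i, Complex.ofReal_re]
  rw [Finset.sum_congr rfl (fun i _ => hterm i), ← Finset.sum_div, le_div_iff₀ hNpos] at hs
  exact hs

theorem main {G : Type u} [Group G] [Finite G] (N : Subgroup G) [N.Normal]
    (χ : Cfsg.IrrCharacter G) :
    ¬ Cfsg.IsIrrCharacter ↥N (fun n : ↥N => (χ : G → ℂ) n)
      ↔ ∃ x : G, ∀ n : ↥N, (χ : G → ℂ) ((n : G) * x) = 0 := by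
  classical
  haveI : Fintype G := Fintype.ofFinite G
  haveI : Fintype N := Fintype.ofFinite N
  have hχc := isCharacter_of_isIrrCharacter χ.2
  have hresc : Cfsg.IsCharacter N (fun n : N => (χ : G → ℂ) n) := isCharacter_res N hχc
  have hNpos : (0 : ℝ) < (Nat.card N : ℝ) := by exact_mod_cast Nat.card_pos
  have hNc : (Nat.card N : ℂ) ≠ 0 := natCard_ne_zero_complex N
  constructor
  · intro hnot
    by_contra hno
    push_neg at hno
    apply hnot
    have hall : ∀ x : G, fR N (χ : G → ℂ) x ≠ 0 := by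
      intro x h0
      obtain ⟨n, hn⟩ := hno x
      exact hn ((fR_eq_zero_iff N (χ : G → ℂ) x).mp h0 n)
    have hIcard : ((Finset.range (Fintype.card G)).filter
        (fun i => i.Coprime (Fintype.card G))).card = Nat.totient (Fintype.card G) := by
      rw [Nat.totient_eq_card_coprime]
      congr 1
      ext i
      simp only [Finset.mem_filter, Nat.coprime_comm]
    have hperm : ∀ i ∈ (Finset.range (Fintype.card G)).filter
        (fun i => i.Coprime (Fintype.card G)),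
        ∑ x : G, fR N (χ : G → ℂ) (x ^ i) = ∑ x : G, fR N (χ : G → ℂ) x := by
      intro i hi
      rw [Finset.mem_filter] at hi
      have hc : (Nat.card G).Coprime i := by
        rw [Nat.card_eq_fintype_card]
        exact hi.2.symm
      exact Fintype.sum_bijective (fun x : G => x ^ i) (powCoprime hc).bijective _ _
        (fun x => rfl)
    have htotal : ∑ x : G, ∑ i ∈ (Finset.range (Fintype.card G)).filter
        (fun i => i.Coprime (Fintype.card G)), fR N (χ : G → ℂ) (x ^ i)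
        = ∑ _x : G, (Nat.totient (Fintype.card G) : ℝ) * (Nat.card N : ℝ) := by
      rw [Finset.sum_comm, Finset.sum_congr rfl hperm, Finset.sum_const, hIcard, nsmul_eq_mul,
        sum_fR N χ.2, Finset.sum_const, Finset.card_univ, nsmul_eq_mul]
      ring
    have hle : ∀ x ∈ (Finset.univ : Finset G),
        (Nat.totient (Fintype.card G) : ℝ) * (Nat.card N : ℝ)
          ≤ ∑ i ∈ (Finset.range (Fintype.card G)).filter
            (fun i => i.Coprime (Fintype.card G)), fR N (χ : G → ℂ) (x ^ i) :=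
      fun x _ => sum_coprime_ge N hχc x (hall x)
    have heq := (Finset.sum_eq_sum_iff_of_le hle).mp htotal.symm 1 (Finset.mem_univ _)
    simp only [one_pow, Finset.sum_const, hIcard, nsmul_eq_mul] at heq
    have hpos : (0 : ℝ) < (Nat.totient (Fintype.card G) : ℝ) := by
      exact_mod_cast Nat.totient_pos.mpr Fintype.card_pos
    have hf1 : fR N (χ : G → ℂ) 1 = (Nat.card N : ℝ) := (mul_left_cancel₀ hpos.ne' heq).symm
    apply isIrrCharacter_of_classInner_eq_one hresc
    rw [fR_one, hf1, div_self hNpos.ne']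
    simp
  · rintro ⟨x, hx⟩ hirr
    have h0 : fR N (χ : G → ℂ) x = 0 := (fR_eq_zero_iff N (χ : G → ℂ) x).mpr hx
    obtain ⟨J, instJ, m, u, hu, hexp⟩ := expansion N hχc x (Fintype.card G) pow_card_eq_one
    letI := instJ
    have h1 := hexp 0
    have h2 := hexp 1
    simp only [pow_zero, pow_one, mul_one] at h1 h2
    have hf1 : fR N (χ : G → ℂ) 1 = (Nat.card N : ℝ) := by
      have h3 := fR_one N (χ : G → ℂ)
      rw [classInner_self_of_isIrrCharacter hirr] at h3
      have h4 : (1 : ℝ) = fR N (χ : G → ℂ) 1 / (Nat.card N : ℝ) := by exact_mod_cast h3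
      rw [eq_div_iff hNpos.ne', one_mul] at h4
      exact h4.symm
    have hsum : ∑ j, m j = 1 := by
      rw [hf1] at h1
      have h5 : (∑ j, (m j : ℂ)) = 1 := by
        have h6 : (Nat.card N : ℂ) * 1 = (Nat.card N : ℂ) * ∑ j, (m j : ℂ) := by
          rw [mul_one]
          exact_mod_cast h1
        exact (mul_left_cancel₀ hNc h6).symm
      exact_mod_cast h5
    obtain ⟨j₀, -, hj₀⟩ := Finset.exists_ne_zero_of_sum_ne_zero
      (by rw [hsum]; exact one_ne_zero : ∑ j, m j ≠ 0)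
    have hsplit := Finset.add_sum_erase Finset.univ m (Finset.mem_univ j₀)
    rw [hsum] at hsplit
    have hj₀1 : m j₀ = 1 := by omega
    have hrest : ∑ j ∈ Finset.univ.erase j₀, m j = 0 := by omega
    have hothers : ∀ j, j ≠ j₀ → m j = 0 := by
      intro j hj
      exact Finset.sum_eq_zero_iff.mp hrest j (Finset.mem_erase.mpr ⟨hj, Finset.mem_univ _⟩)
    rw [h0] at h2
    have h6 : ∑ j, (m j : ℂ) * u j = u j₀ := by
      rw [Finset.sum_eq_single j₀]
      · rw [hj₀1]
        simp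
      · intro j _ hj
        rw [hothers j hj]
        simp
      · intro h
        exact absurd (Finset.mem_univ _) h
    rw [h6] at h2
    have hu0 : u j₀ ≠ 0 := by
      intro h7
      have h8 := hu j₀
      rw [h7, zero_pow Fintype.card_ne_zero] at h8
      exact zero_ne_one h8
    have h9 : (Nat.card N : ℂ) * u j₀ ≠ 0 := mul_ne_zero hNc hu0
    exact h9 (by exact_mod_cast h2.symm)

end Cfsg.Agent.Helper2.Coset
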