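import Mathlib
import Cfsg.Prelude.Def_Characters
import Cfsg.Prelude.Def_Blocks
import Cfsg.Agent.Lead.CharCore5
import Cfsg.Agent.Lead.CharOdd
import Cfsg.Agent.Helper2.CharKer
import Cfsg.Agent.Helper2.ClsSep
import Cfsg.Agent.Helper4.Thompson

namespace Cfsg.Agent.Helper2.Gagola

open Cfsg.Agent.Lead

universe u

theorem sum_eq_of_support {G : Type u} [Group G] [Fintype G] (c : G) (hc1 : c ≠ 1) (F : G → ℂ)
    (hF : ∀ g, g ≠ 1 → ¬ IsConj c g → F g = 0) (hFc : ∀ g, IsConj c g → F g = F c) :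
    ∑ g, F g = F 1 + (Nat.card {g : G // IsConj c g} : ℂ) * F c := by
  classical
  have h1 : ∀ g, F g = (if g = 1 then F 1 else 0) + (if IsConj c g then F c else 0) := by
    intro g
    by_cases hg1 : g = 1
    · subst hg1
      have : ¬ IsConj c 1 := by
        intro h
        exact hc1 (isConj_one_left.mp h)
      rw [if_pos rfl, if_neg this, add_zero]
    · by_cases hgc : IsConj c g
      · rw [if_neg hg1, if_pos hgc, zero_add, hFc g hgc]
      · rw [if_neg hg1, if_neg hgc, zero_add, hF g hg1 hgc]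
  rw [Finset.sum_congr rfl (fun g _ => h1 g), Finset.sum_add_distrib,
    Finset.sum_ite_eq' Finset.univ (1 : G) (fun _ => F 1), if_pos (Finset.mem_univ _),
    ← Finset.sum_filter, Finset.sum_const, nsmul_eq_mul, Nat.card_eq_fintype_card,
    Fintype.card_subtype]

theorem two_classes_data {G : Type u} [Group G] [Finite G] (hG : 2 < Nat.card G)
    (χ : Cfsg.IrrCharacter G)
    (hχ : Nat.card {C : ConjClasses G // ∃ g ∈ C.carrier, (χ : G → ℂ) g ≠ 0} = 2) :
    ∃ (c : G) (k : ℕ), c ≠ 1 ∧ (χ : G → ℂ) c ≠ 0 ∧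
      (∀ g, (χ : G → ℂ) g ≠ 0 → g = 1 ∨ IsConj c g) ∧ 0 < k ∧
      (χ : G → ℂ) 1 + (k : ℂ) * (χ : G → ℂ) c = 0 ∧
      (∀ ψ : Cfsg.IrrCharacter G, ψ ≠ χ → ∀ g, IsConj c g →
        (ψ : G → ℂ) g = (ψ : G → ℂ) 1) := by
  classical
  haveI : Fintype G := Fintype.ofFinite G
  have hGne : (Nat.card G : ℂ) ≠ 0 := by exact_mod_cast Nat.card_pos.ne'
  have hd0 : (χ : G → ℂ) 1 ≠ 0 := Cfsg.Agent.Helper2.ClsSep.irr_one_ne_zero χ.2
  have hcf := isClassFunction_irr χ
  let x₀ : {C : ConjClasses G // ∃ g ∈ C.carrier, (χ : G → ℂ) g ≠ 0} :=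
    ⟨ConjClasses.mk 1, 1, ConjClasses.mem_carrier_mk, hd0⟩
  obtain ⟨⟨D, g₀, hg₀D, hg₀⟩, hDne, hDuniq⟩ := (Nat.card_eq_two_iff' x₀).mp hχ
  have hc1 : g₀ ≠ 1 := by
    intro h
    apply hDne
    apply Subtype.ext
    show D = ConjClasses.mk 1
    rw [← ConjClasses.mem_carrier_iff_mk_eq.mp hg₀D, h]
  have hsupp : ∀ g, (χ : G → ℂ) g ≠ 0 → g = 1 ∨ IsConj g₀ g := by
    intro g hg
    by_cases hg1 : g = 1
    · exact Or.inl hg1
    · right
      have hne : (⟨ConjClasses.mk g, g, ConjClasses.mem_carrier_mk, hg⟩ :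
          {C : ConjClasses G // ∃ g ∈ C.carrier, (χ : G → ℂ) g ≠ 0}) ≠ x₀ := by
        intro h
        have h2 : ConjClasses.mk g = ConjClasses.mk 1 := congrArg Subtype.val h
        rw [ConjClasses.mk_eq_mk_iff_isConj] at h2
        exact hg1 (isConj_one_left.mp h2)
      have h3 := hDuniq _ hne
      have h4 : ConjClasses.mk g = D := congrArg Subtype.val h3
      rw [← ConjClasses.mem_carrier_iff_mk_eq.mp hg₀D, ConjClasses.mk_eq_mk_iff_isConj] at h4
      exact h4.symm
  let χ₀ : Cfsg.IrrCharacter G := ⟨fun _ => 1, isIrrCharacter_one⟩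
  have hχne : χ ≠ χ₀ := by
    intro h
    have hall : ∀ g, g ≠ 1 → IsConj g₀ g := by
      intro g hg1
      have : (χ : G → ℂ) g ≠ 0 := by rw [h]; simp [χ₀]
      rcases hsupp g this with h1 | h1
      · exact absurd h1 hg1
      · exact h1
    have hk := Cfsg.Agent.Helper4.card_conjClass_mul_card_centralizer g₀
    have hfilter : (Finset.univ.filter (fun x : G => IsConj g₀ x)) = Finset.univ.erase 1 := by
      ext g
      simp only [Finset.mem_filter, Finset.mem_univ, true_and, Finset.mem_erase, and_true]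
      constructor
      · intro hc h1
        rw [h1] at hc
        exact hc1 (isConj_one_left.mp hc)
      · exact hall g
    rw [hfilter, Finset.card_erase_of_mem (Finset.mem_univ _), Finset.card_univ] at hk
    rw [Nat.card_eq_fintype_card] at hG
    have key : ∀ n m : ℕ, 2 < n → (n - 1) * m = n → False := by
      intro n m hn h
      rcases Nat.lt_or_ge m 2 with hm | hm
      · interval_cases m
        · omega
        · omega
      · have := Nat.mul_le_mul_left (n - 1) hm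
        rw [h] at this
        omega
    exact key _ _ hG hk
  set k : ℕ := Nat.card {g : G // IsConj g₀ g} with hk
  have hkpos : 0 < k := by
    haveI : Nonempty {g : G // IsConj g₀ g} := ⟨⟨g₀, IsConj.refl g₀⟩⟩
    exact Nat.card_pos
  have hsum0 : (χ : G → ℂ) 1 + (k : ℂ) * (χ : G → ℂ) g₀ = 0 := by
    have horth := classInner_irr χ χ₀
    rw [if_neg hχne] at horth
    unfold Cfsg.classInner at horth
    have h0 : ∑ g, (χ : G → ℂ) g = 0 := by
      rcases mul_eq_zero.mp horth with h | h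
      · exact absurd (inv_eq_zero.mp h) hGne
      · simpa [χ₀] using h
    rw [sum_eq_of_support g₀ hc1 (χ : G → ℂ)
      (fun g hg1 hgc => by
        by_contra h
        rcases hsupp g h with h1 | h1
        · exact hg1 h1
        · exact hgc h1)
      (fun g hgc => (isClassFunction_apply_of_isConj hcf hgc).symm)] at h0
    exact h0
  refine ⟨g₀, k, hc1, hg₀, hsupp, hkpos, hsum0, ?_⟩
  intro ψ hψ g hg
  have hψcf := isClassFunction_irr ψ
  have horth := classInner_irr ψ χ
  rw [if_neg hψ] at horth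
  unfold Cfsg.classInner at horth
  have h0 : ∑ g, (ψ : G → ℂ) g * (starRingEnd ℂ) ((χ : G → ℂ) g) = 0 := by
    rcases mul_eq_zero.mp horth with h | h
    · exact absurd (inv_eq_zero.mp h) hGne
    · exact h
  rw [sum_eq_of_support g₀ hc1 (fun g => (ψ : G → ℂ) g * (starRingEnd ℂ) ((χ : G → ℂ) g))
    (fun g hg1 hgc => by
      have : (χ : G → ℂ) g = 0 := by
        by_contra h
        rcases hsupp g h with h1 | h1
        · exact hg1 h1
        · exact hgc h1
      simp [this])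
    (fun g hgc => by
      show (ψ : G → ℂ) g * (starRingEnd ℂ) ((χ : G → ℂ) g)
        = (ψ : G → ℂ) g₀ * (starRingEnd ℂ) ((χ : G → ℂ) g₀)
      rw [← isClassFunction_apply_of_isConj hcf hgc,
        ← isClassFunction_apply_of_isConj hψcf hgc])] at h0
  have hB : (starRingEnd ℂ) ((χ : G → ℂ) 1) + (k : ℂ) * (starRingEnd ℂ) ((χ : G → ℂ) g₀) = 0 := by
    have := congrArg (starRingEnd ℂ) hsum0
    simpa using this
  have h3 : ((ψ : G → ℂ) 1 - (ψ : G → ℂ) g₀) * (starRingEnd ℂ) ((χ : G → ℂ) 1) = 0 := by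
    linear_combination h0 - (ψ : G → ℂ) g₀ * hB
  have hconj0 : (starRingEnd ℂ) ((χ : G → ℂ) 1) ≠ 0 := by
    intro h
    exact hd0 ((map_eq_zero (starRingEnd ℂ)).mp h)
  rcases mul_eq_zero.mp h3 with h4 | h4
  · rw [← isClassFunction_apply_of_isConj hψcf hg]
    exact (sub_eq_zero.mp h4).symm
  · exact absurd h4 hconj0

theorem faithful {G : Type u} [Group G] [Finite G] (hG : 2 < Nat.card G)
    (χ : Cfsg.IrrCharacter G)
    (hχ : Nat.card {C : ConjClasses G // ∃ g ∈ C.carrier, (χ : G → ℂ) g ≠ 0} = 2) :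
    ∀ g : G, (χ : G → ℂ) g = (χ : G → ℂ) 1 → g = 1 := by
  obtain ⟨c, k, hc1, hc0, hsupp, hkpos, hrel, horth⟩ := two_classes_data hG χ hχ
  have hd0 := Cfsg.Agent.Helper2.ClsSep.irr_one_ne_zero χ.2
  have hcf := isClassFunction_irr χ
  intro g hg
  by_contra hg1
  have hgn : (χ : G → ℂ) g ≠ 0 := by rw [hg]; exact hd0
  rcases hsupp g hgn with h | h
  · exact hg1 h
  · have h2 : (χ : G → ℂ) c = (χ : G → ℂ) 1 := by
      rw [isClassFunction_apply_of_isConj hcf h, hg]
    rw [h2] at hrel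
    have h3 : ((k : ℂ) + 1) * (χ : G → ℂ) 1 = 0 := by linear_combination hrel
    rcases mul_eq_zero.mp h3 with h4 | h4
    · have : ((k + 1 : ℕ) : ℂ) = 0 := by push_cast; exact h4
      exact absurd (Nat.cast_eq_zero.mp this) (Nat.succ_ne_zero k)
    · exact hd0 h4

theorem unique_faithful {G : Type u} [Group G] [Finite G] (hG : 2 < Nat.card G)
    (χ : Cfsg.IrrCharacter G)
    (hχ : Nat.card {C : ConjClasses G // ∃ g ∈ C.carrier, (χ : G → ℂ) g ≠ 0} = 2)
    (ψ : Cfsg.IrrCharacter G) (hψ : ∀ g : G, (ψ : G → ℂ) g = (ψ : G → ℂ) 1 → g = 1) :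
    ψ = χ := by
  obtain ⟨c, k, hc1, hc0, hsupp, hkpos, hrel, horth⟩ := two_classes_data hG χ hχ
  by_contra hne
  exact hc1 (hψ c (horth ψ hne c (IsConj.refl c)))

end Cfsg.Agent.Helper2.Gagola
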