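import Mathlib
import Cfsg.Prelude.Def_Characters
import Cfsg.Prelude.Def_Blocks
import Cfsg.Prelude.Def_Transfer
import Cfsg.Agent.Helper2.Gagola
import Cfsg.Agent.Helper2.CharN3

namespace Cfsg.Agent.Helper2.Gagola

open Cfsg.Agent.Lead

universe u

theorem exists_subgroup {G : Type u} [Group G] [Finite G] (hG : 2 < Nat.card G)
    (χ : Cfsg.IrrCharacter G)
    (hχ : Nat.card {C : ConjClasses G // ∃ g ∈ C.carrier, (χ : G → ℂ) g ≠ 0} = 2) :
    ∃ N : Subgroup G, N.Normal ∧ (∀ g : G, g ∈ N ↔ (χ : G → ℂ) g ≠ 0) := by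
  classical
  obtain ⟨c, k, hc1, hc0, hsupp, hkpos, hrel, horth⟩ := two_classes_data hG χ hχ
  haveI : Finite (Cfsg.IrrCharacter G) := finite_irrCharacter G
  haveI : Fintype (Cfsg.IrrCharacter G) := Fintype.ofFinite _
  choose K hKn hKmem h3 h4 h5 h6 using
    (fun ψ : Cfsg.IrrCharacter G => Cfsg.Agent.Helper2.CharKer.exists_ker ψ)
  let N : Subgroup G := ⨅ ψ : {ψ : Cfsg.IrrCharacter G // ψ ≠ χ}, K ψ.1
  have hNmem : ∀ g, g ∈ N ↔ ∀ ψ : Cfsg.IrrCharacter G, ψ ≠ χ →
      (ψ : G → ℂ) g = (ψ : G → ℂ) 1 := by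
    intro g
    simp only [N, Subgroup.mem_iInf, Subtype.forall, hKmem]
  refine ⟨N, ?_, ?_⟩
  · exact Subgroup.normal_iInf_normal (fun ψ => hKn ψ.1)
  · intro g
    rw [hNmem]
    constructor
    · intro hg hχg
      have hg1 : g ≠ 1 := by
        intro h
        rw [h] at hχg
        exact Cfsg.Agent.Helper2.ClsSep.irr_one_ne_zero χ.2 hχg
      have hnc : ¬ IsConj g 1 := fun h => hg1 (isConj_one_left.mp h)
      have h1 := column_orth_of_not_isConj hnc
      rw [finsum_eq_sum_of_fintype] at h1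
      let χ₀ : Cfsg.IrrCharacter G := ⟨fun _ => 1, isIrrCharacter_one⟩
      have hχ₀ : χ₀ ≠ χ := by
        intro h
        rw [← h] at hχg
        simp [χ₀] at hχg
      have h2 : ∀ ψ : Cfsg.IrrCharacter G,
          (ψ : G → ℂ) g * (starRingEnd ℂ) ((ψ : G → ℂ) 1)
          = (((if ψ = χ then 0 else Cfsg.charDegree (ψ : G → ℂ) ^ 2 : ℕ)) : ℂ) := by
        intro ψ
        by_cases hψ : ψ = χ
        · rw [if_pos hψ, hψ, hχg]; simp
        · rw [if_neg hψ, hg ψ hψ, h5 ψ, Complex.conj_natCast]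
          push_cast; ring
      rw [Finset.sum_congr rfl (fun ψ _ => h2 ψ), ← Nat.cast_sum] at h1
      have h3' : ∑ ψ : Cfsg.IrrCharacter G,
          (if ψ = χ then 0 else Cfsg.charDegree (ψ : G → ℂ) ^ 2) = 0 := by
        exact_mod_cast h1
      have h4' := (Finset.sum_eq_zero_iff.mp h3') χ₀ (Finset.mem_univ _)
      rw [if_neg hχ₀] at h4'
      have hone : Cfsg.charDegree (χ₀ : G → ℂ) = 1 := by simp [χ₀, Cfsg.charDegree]
      rw [hone] at h4'
      simp at h4'
    · intro hχg ψ hψ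
      rcases hsupp g hχg with h | h
      · rw [h]
      · exact horth ψ hψ g h

theorem main {G : Type u} [Group G] [Finite G] (hG : 2 < Nat.card G)
    (χ : Cfsg.IrrCharacter G)
    (hχ : Nat.card {C : ConjClasses G // ∃ g ∈ C.carrier, (χ : G → ℂ) g ≠ 0} = 2) :
    ∃ N : Subgroup G, N.Normal ∧ N ≠ ⊥ ∧ (∀ K : Subgroup G, K.Normal → K ≠ ⊥ → N ≤ K) ∧
      (∃ p : ℕ, p.Prime ∧ Cfsg.IsElementaryAbelian p N) ∧
      (∀ g : G, (χ : G → ℂ) g ≠ 0 ↔ g ∈ N) ∧
      (∀ x ∈ N, ∀ y ∈ N, x ≠ 1 → y ≠ 1 → ∃ g : G, g * x * g⁻¹ = y) := by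
  classical
  haveI : Fintype G := Fintype.ofFinite G
  obtain ⟨c, k, hc1, hc0, hsupp, hkpos, hrel, horth⟩ := two_classes_data hG χ hχ
  obtain ⟨N, hNn, hNmem⟩ := exists_subgroup hG χ hχ
  have hd0 := Cfsg.Agent.Helper2.ClsSep.irr_one_ne_zero χ.2
  have hcf := isClassFunction_irr χ
  have hcN : c ∈ N := (hNmem c).mpr hc0
  have hconjc : ∀ x ∈ N, x ≠ 1 → IsConj c x := by
    intro x hx hx1
    rcases hsupp x ((hNmem x).mp hx) with h | h
    · exact absurd h hx1
    · exact h
  have hconj : ∀ x ∈ N, ∀ y ∈ N, x ≠ 1 → y ≠ 1 → ∃ g : G, g * x * g⁻¹ = y := by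
    intro x hx y hy hx1 hy1
    exact isConj_iff.mp ((hconjc x hx hx1).symm.trans (hconjc y hy hy1))
  have hNbot : N ≠ ⊥ := by
    intro h
    rw [h, Subgroup.mem_bot] at hcN
    exact hc1 hcN
  refine ⟨N, hNn, hNbot, ?_, ?_, fun g => (hNmem g).symm, hconj⟩
  · intro K hKn hKbot
    haveI := hKn
    have hcK : c ∈ K := by
      by_contra hcK
      have hvan : ∀ x ∈ K, x ≠ 1 → (χ : G → ℂ) x = 0 := by
        intro x hx hx1
        by_contra h0
        rcases hsupp x h0 with h | h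
        · exact hx1 h
        · obtain ⟨g, hg⟩ := isConj_iff.mp h.symm
          apply hcK
          rw [← hg]
          exact hKn.conj_mem x hx g
      haveI : Fintype K := Fintype.ofFinite K
      have hs := Cfsg.Agent.Helper2.CharN.sum_coset_irr K χ.2
      have hsum : ∑ n : K, (χ : G → ℂ) n = (χ : G → ℂ) 1 := by
        rw [Finset.sum_eq_single (1 : K)]
        · rfl
        · intro b _ hb
          exact hvan b b.2 (fun h => hb (Subtype.ext h))
        · intro h; exact absurd (Finset.mem_univ _) h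
      obtain ⟨x, hxK, hx1⟩ : ∃ x ∈ K, x ≠ 1 := by
        by_contra hcon
        push_neg at hcon
        apply hKbot
        rw [eq_bot_iff]
        intro x hx
        rw [Subgroup.mem_bot]
        exact hcon x hx
      have h4 := hs.1 (by rw [hsum]; exact hd0) ⟨x, hxK⟩ 1
      simp only [mul_one] at h4
      rw [hvan x hxK hx1] at h4
      exact hd0 h4.symm
    intro x hx
    by_cases hx1 : x = 1
    · rw [hx1]; exact K.one_mem
    · obtain ⟨g, hg⟩ := isConj_iff.mp (hconjc x hx hx1)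
      rw [← hg]
      exact hKn.conj_mem c hcK g
  · have hco : orderOf c ≠ 1 := by rw [Ne, orderOf_eq_one_iff]; exact hc1
    set q := (orderOf c).minFac with hq
    have hqp : q.Prime := Nat.minFac_prime hco
    have hqd : q ∣ orderOf c := Nat.minFac_dvd _
    have hopos : 0 < orderOf c := orderOf_pos c
    have hy : orderOf (c ^ (orderOf c / q)) = q := by
      rw [orderOf_pow_of_dvd (Nat.div_pos (Nat.le_of_dvd hopos hqd) hqp.pos).ne'
        (Nat.div_dvd_of_dvd hqd)]
      exact Nat.div_div_self hqd hopos.ne'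
    have hyN : c ^ (orderOf c / q) ∈ N := N.pow_mem hcN _
    have hy1 : c ^ (orderOf c / q) ≠ 1 := by
      intro h
      rw [h, orderOf_one] at hy
      exact hqp.one_lt.ne hy
    have hord : ∀ x ∈ N, x ≠ 1 → orderOf x = q := by
      intro x hx hx1
      obtain ⟨g, hg⟩ := hconj _ hyN x hx hy1 hx1
      have h1 : orderOf (g * c ^ (orderOf c / q) * g⁻¹) = orderOf (c ^ (orderOf c / q)) := by
        rw [← MulAut.conj_apply]
        exact MulEquiv.orderOf_eq _ _
      rw [hg, hy] at h1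
      exact h1
    have hpow : ∀ a ∈ N, a ^ q = 1 := by
      intro a ha
      by_cases ha1 : a = 1
      · rw [ha1, one_pow]
      · rw [← hord a ha ha1]; exact pow_orderOf_eq_one a
    refine ⟨q, hqp, ?_, hpow⟩
    haveI : Fact q.Prime := ⟨hqp⟩
    have hpg : IsPGroup q N := by
      intro a
      refine ⟨1, ?_⟩
      rw [pow_one]
      apply Subtype.ext
      exact hpow a a.2
    haveI : Nontrivial N := ⟨⟨⟨c, hcN⟩, 1, fun h => hc1 (congrArg Subtype.val h)⟩⟩
    haveI := hpg.center_nontrivial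
    obtain ⟨z, hz⟩ := exists_ne (1 : Subgroup.center N)
    have hz1 : ((z : N) : G) ≠ 1 := by
      intro h
      apply hz
      apply Subtype.ext
      apply Subtype.ext
      exact h
    refine ⟨⟨fun a b => ?_⟩⟩
    apply Subtype.ext
    show (a : G) * (b : G) = (b : G) * (a : G)
    by_cases ha : (a : G) = 1
    · rw [ha]; simp
    · obtain ⟨g, hg⟩ := hconj _ (z : N).2 a a.2 hz1 ha
      have hmemN : g⁻¹ * (b : G) * g ∈ N := by
        have := hNn.conj_mem (b : G) b.2 g⁻¹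
        simpa using this
      have hcomm := Subgroup.mem_center_iff.mp z.2 ⟨g⁻¹ * (b : G) * g, hmemN⟩
      have hcomm' : (g⁻¹ * (b : G) * g) * ((z : N) : G) = ((z : N) : G) * (g⁻¹ * (b : G) * g) :=
        congrArg Subtype.val hcomm
      rw [← hg]
      calc g * ((z : N) : G) * g⁻¹ * (b : G)
          = g * (((z : N) : G) * (g⁻¹ * (b : G) * g)) * g⁻¹ := by group
        _ = g * ((g⁻¹ * (b : G) * g) * ((z : N) : G)) * g⁻¹ := by rw [hcomm']
        _ = (b : G) * (g * ((z : N) : G) * g⁻¹) := by group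

end Cfsg.Agent.Helper2.Gagola
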