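import Mathlib
import Cfsg.Agent.Helper2.CharN2
import Cfsg.Agent.Helper2.CharN5
import Cfsg.Agent.Helper2.FSCount
import Cfsg.Agent.S0146
import Cfsg.Agent.Lead.CharLin2
import Cfsg.Agent.Lead.CharOdd

/-! Counting linear characters against characters of a fixed degree (Clifford + Gallagher). -/

namespace Cfsg.Agent.Helper2.LinCount

open Cfsg.Agent.Lead

universe u

variable {G : Type u} [Group G]

theorem lin_one [Finite G] (χ : Cfsg.IrrCharacter G) (h : Cfsg.charDegree (χ : G → ℂ) = 1) :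
    (χ : G → ℂ) 1 = 1 := by
  rw [Cfsg.Agent.Helper2.FSInd.degree_eq χ, h]
  simp

theorem lin_mul [Finite G] (χ : Cfsg.IrrCharacter G) (h : Cfsg.charDegree (χ : G → ℂ) = 1)
    (x y : G) : (χ : G → ℂ) (x * y) = (χ : G → ℂ) x * (χ : G → ℂ) y :=
  isCharacter_linear_mul (isCharacter_of_isIrrCharacter χ.2) (lin_one χ h) x y

theorem lin_norm [Finite G] (χ : Cfsg.IrrCharacter G) (h : Cfsg.charDegree (χ : G → ℂ) = 1)
    (x : G) : (χ : G → ℂ) x * (starRingEnd ℂ) ((χ : G → ℂ) x) = 1 := by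
  rw [← isCharacter_inv (isCharacter_of_isIrrCharacter χ.2) x, ← lin_mul χ h, mul_inv_cancel,
    lin_one χ h]

theorem lin_trivial_of_perfect [Finite G] (N : Subgroup G) (hN : N.Normal)
    (hmin : ∀ M : Subgroup G, M.Normal → M ≤ N → M = ⊥ ∨ M = N) (hna : ¬ IsMulCommutative ↥N)
    (χ : Cfsg.IrrCharacter G) (h : Cfsg.charDegree (χ : G → ℂ) = 1) (n : G) (hn : n ∈ N) :
    (χ : G → ℂ) n = 1 := by
  haveI := hN
  have hcomm : ⁅N, N⁆ = N := by
    have hnorm : (⁅N, N⁆ : Subgroup G).Normal := Subgroup.commutator_normal N N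
    have hle : ⁅N, N⁆ ≤ N := Subgroup.commutator_le_right N N
    rcases hmin _ hnorm hle with h0 | h0
    · exfalso
      apply hna
      refine ⟨⟨fun a b => ?_⟩⟩
      have h1 := Subgroup.commutator_mem_commutator a.2 b.2
      rw [h0, Subgroup.mem_bot, commutatorElement_eq_one_iff_mul_comm] at h1
      exact Subtype.ext h1
    · exact h0
  have hle : N ≤ commutator G := by
    rw [commutator_def]
    calc N = ⁅N, N⁆ := hcomm.symm
      _ ≤ ⁅(⊤ : Subgroup G), ⊤⁆ := Subgroup.commutator_mono le_top le_top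
  have h2 := linear_eq_of_commutator (isCharacter_of_isIrrCharacter χ.2) (lin_one χ h) 1 n
    (by simpa using hle hn)
  rw [← h2, lin_one χ h]

theorem card_agree_le [Fintype G] [Fintype (Cfsg.IrrCharacter G)] (I : Subgroup G)
    (S : Finset (Cfsg.IrrCharacter G)) (hS1 : ∀ χ ∈ S, Cfsg.charDegree (χ : G → ℂ) = 1)
    (hS : ∀ χ ∈ S, ∀ χ' ∈ S, ∀ x ∈ I, (χ : G → ℂ) x = (χ' : G → ℂ) x) :
    S.card ≤ I.index := by
  classical
  by_cases hS0 : S = ∅
  · rw [hS0]
    simp
  obtain ⟨l0, hl0⟩ := Finset.nonempty_iff_ne_empty.mpr hS0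
  have hG : (Nat.card G : ℂ) ≠ 0 := natCard_ne_zero_complex G
  have h1 : ∑ g : G, (∑ χ ∈ S, (χ : G → ℂ) g) * (starRingEnd ℂ) (∑ χ ∈ S, (χ : G → ℂ) g)
      = (Nat.card G : ℂ) * S.card := by
    simp only [map_sum, Finset.sum_mul_sum]
    rw [Finset.sum_comm]
    have h2 : ∀ χ ∈ S, ∑ g : G, ∑ χ' ∈ S, (χ : G → ℂ) g * (starRingEnd ℂ) ((χ' : G → ℂ) g)
        = (Nat.card G : ℂ) := by
      intro χ hχ
      rw [Finset.sum_comm]
      have h3 : ∀ χ' ∈ S, ∑ g : G, (χ : G → ℂ) g * (starRingEnd ℂ) ((χ' : G → ℂ) g)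
          = if χ = χ' then (Nat.card G : ℂ) else 0 := by
        intro χ' _
        have h4 := classInner_irr χ χ'
        unfold Cfsg.classInner at h4
        by_cases hc : χ = χ'
        · rw [if_pos hc] at h4 ⊢
          rw [← mul_one (Nat.card G : ℂ), ← h4, ← mul_assoc, mul_inv_cancel₀ hG, one_mul]
        · rw [if_neg hc] at h4 ⊢
          rcases mul_eq_zero.mp h4 with h5 | h5
          · exact absurd (inv_eq_zero.mp h5) hG
          · exact h5
      rw [Finset.sum_congr rfl h3, Finset.sum_ite_eq, if_pos hχ]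
    rw [Finset.sum_congr rfl h2, Finset.sum_const, nsmul_eq_mul, mul_comm]
  have h2 : ∀ g : G, (∑ χ ∈ S, (χ : G → ℂ) g) * (starRingEnd ℂ) (∑ χ ∈ S, (χ : G → ℂ) g)
      = ((Complex.normSq (∑ χ ∈ S, (χ : G → ℂ) g) : ℝ) : ℂ) := fun g => Complex.mul_conj _
  rw [Finset.sum_congr rfl (fun g _ => h2 g), ← Complex.ofReal_sum] at h1
  have h3 : ∑ g : G, Complex.normSq (∑ χ ∈ S, (χ : G → ℂ) g) = (Nat.card G : ℝ) * S.card := by
    exact_mod_cast h1
  have h4 : ∀ g ∈ Finset.univ.filter (fun g : G => g ∈ I),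
      Complex.normSq (∑ χ ∈ S, (χ : G → ℂ) g) = (S.card : ℝ) ^ 2 := by
    intro g hg
    rw [Finset.mem_filter] at hg
    have h5 : ∑ χ ∈ S, (χ : G → ℂ) g = (S.card : ℂ) * (l0 : G → ℂ) g := by
      rw [Finset.sum_congr rfl (fun χ hχ => hS χ hχ l0 hl0 g hg.2), Finset.sum_const,
        nsmul_eq_mul]
    have h6 : Complex.normSq ((l0 : G → ℂ) g) = 1 := by
      have h7 := lin_norm l0 (hS1 l0 hl0) g
      rw [Complex.mul_conj] at h7
      exact_mod_cast h7
    rw [h5, Complex.normSq_mul, h6, mul_one, Complex.normSq_natCast]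
    ring
  have h5 : ∑ g ∈ Finset.univ.filter (fun g : G => g ∈ I),
      Complex.normSq (∑ χ ∈ S, (χ : G → ℂ) g) ≤ ∑ g : G, Complex.normSq (∑ χ ∈ S, (χ : G → ℂ) g) :=
    Finset.sum_le_sum_of_subset_of_nonneg (Finset.subset_univ _)
      (fun g _ _ => Complex.normSq_nonneg _)
  rw [Finset.sum_congr rfl h4, Finset.sum_const, h3, nsmul_eq_mul] at h5
  have h6 : (Finset.univ.filter (fun g : G => g ∈ I)).card = Nat.card I := by
    rw [Nat.card_eq_fintype_card, Fintype.card_subtype]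
  rw [h6] at h5
  have h7 : Nat.card I * S.card ^ 2 ≤ Nat.card G * S.card := by exact_mod_cast h5
  have hSpos : 0 < S.card := Finset.card_pos.mpr ⟨l0, hl0⟩
  have hIpos : 0 < Nat.card I := Nat.card_pos
  have h8 := Subgroup.index_mul_card I
  rw [← h8] at h7
  have h9 : S.card * (Nat.card I * S.card) ≤ I.index * (Nat.card I * S.card) := by
    calc S.card * (Nat.card I * S.card) = Nat.card I * S.card ^ 2 := by ring
      _ ≤ I.index * Nat.card I * S.card := h7
      _ = I.index * (Nat.card I * S.card) := by ring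
  exact Nat.le_of_mul_le_mul_right h9 (Nat.mul_pos hIpos hSpos)

end Cfsg.Agent.Helper2.LinCount
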