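import Mathlib
import Cfsg.Agent.Helper2.LinCount

/-! The counting bound for linear characters over a nonabelian minimal normal subgroup. -/

namespace Cfsg.Agent.Helper2.LinCount

open Cfsg.Agent.Lead Cfsg.Agent.Helper2.CharN

universe u

theorem main {G : Type u} [Group G] [Finite G] (N : Subgroup G) (hN : N.Normal)
    (hmin : ∀ M : Subgroup G, M.Normal → M ≤ N → M = ⊥ ∨ M = N) (hna : ¬ IsMulCommutative ↥N)
    (φ : Cfsg.IrrCharacter ↥N) (I : Subgroup G)
    (hI : ∀ g : G, g ∈ I ↔ ∀ n n' : ↥N, (n' : G) = g * (n : G) * g⁻¹ →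
      (φ : ↥N → ℂ) n' = (φ : ↥N → ℂ) n) (hNI : N ≤ I)
    (hext : ∃ ψ : Cfsg.IrrCharacter ↥I,
      ∀ n : ↥N, (ψ : ↥I → ℂ) (Subgroup.inclusion hNI n) = (φ : ↥N → ℂ) n) :
    Nat.card {χ : Cfsg.IrrCharacter G // Cfsg.charDegree (χ : G → ℂ) = 1}
      ≤ I.index * Nat.card {χ : Cfsg.IrrCharacter G //
          Cfsg.charDegree (χ : G → ℂ) = Cfsg.charDegree (φ : ↥N → ℂ) * I.index} := by
  classical
  haveI : Fintype G := Fintype.ofFinite G
  haveI : Fintype N := Fintype.ofFinite _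
  haveI : Fintype I := Fintype.ofFinite _
  haveI : Finite (Cfsg.IrrCharacter G) := finite_irrCharacter G
  haveI : Fintype (Cfsg.IrrCharacter G) := Fintype.ofFinite _
  haveI : Finite (Cfsg.IrrCharacter I) := finite_irrCharacter I
  haveI : Fintype (Cfsg.IrrCharacter I) := Fintype.ofFinite _
  haveI := hN
  obtain ⟨ψ, hψ⟩ := hext
  have hT : ∀ g : G, g ∈ I ↔ ∀ n : N,
      (φ : N → ℂ) ⟨g * n * g⁻¹, hN.conj_mem (n : G) n.2 g⟩ = (φ : N → ℂ) n := by
    intro g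
    rw [hI g]
    constructor
    · intro h n
      exact h n ⟨g * n * g⁻¹, hN.conj_mem (n : G) n.2 g⟩ rfl
    · intro h n n' hn'
      have : n' = ⟨g * n * g⁻¹, hN.conj_mem (n : G) n.2 g⟩ := Subtype.ext hn'
      rw [this]
      exact h n
  obtain ⟨f, hf, hfirr, hforth, _⟩ := clifford_corr_core N (φ : N → ℂ) φ.2 I hT hNI
  haveI hN'n : (N.subgroupOf I).Normal := Subgroup.normal_subgroupOf
  haveI : Fintype (N.subgroupOf I) := Fintype.ofFinite _
  set φ' : N.subgroupOf I → ℂ :=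
    fun x => (φ : N → ℂ) ⟨((x : I) : G), Subgroup.mem_subgroupOf.mp x.2⟩ with hφ'def
  have hφ' : Cfsg.IsIrrCharacter (N.subgroupOf I) φ' :=
    isIrrCharacter_comp_mulEquiv (Subgroup.subgroupOfEquivOfLe hNI) φ.2
  have hψN : ∀ x : N.subgroupOf I, (ψ : I → ℂ) (x : I) = φ' x := by
    intro x
    have h1 := hψ ⟨((x : I) : G), Subgroup.mem_subgroupOf.mp x.2⟩
    rw [hφ'def]
    beta_reduce
    rw [← h1]
    rfl
  have hψc := isCharacter_of_isIrrCharacter ψ.2
  have hψ1 : (ψ : I → ℂ) 1 = (Cfsg.charDegree (φ : N → ℂ) : ℂ) := by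
    have h1 := hψ 1
    rw [map_one] at h1
    rw [h1]
    exact Cfsg.Agent.Helper2.FSInd.degree_eq φ
  have hdpos : 0 < Cfsg.charDegree (φ : N → ℂ) := by
    obtain ⟨K, _, _, _, h, _, _⟩ := Cfsg.Agent.Helper2.CharKer.exists_ker φ
    exact h
  have hψ1' : (ψ : I → ℂ) 1 ≠ 0 := by
    rw [hψ1]
    exact_mod_cast hdpos.ne'
  have hinv' : ∀ (g : I) (n : N.subgroupOf I),
      φ' ⟨g * n * g⁻¹, hN'n.conj_mem (n : I) n.2 g⟩ = φ' n := by
    intro g n
    exact (hT g).mp g.2 ⟨((n : I) : G), Subgroup.mem_subgroupOf.mp n.2⟩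
  have hprod : Cfsg.IsIrrCharacter (N.subgroupOf I) ((fun _ => (1:ℂ)) * φ') := by
    have h1 : ((fun _ => (1:ℂ)) * φ' : N.subgroupOf I → ℂ) = φ' := by
      funext n
      simp
    rw [h1]
    exact hφ'
  obtain ⟨a, ha, hairr, haorth, _⟩ := gallagher_core (N.subgroupOf I) (fun _ => (1:ℂ)) φ'
    isIrrCharacter_one (fun g n => rfl) hinv' hprod (ψ : I → ℂ) hψc hψ1' hψN
  have hres : ∀ x : {χ : Cfsg.IrrCharacter G // Cfsg.charDegree (χ : G → ℂ) = 1},
      Cfsg.IsIrrCharacter I (fun y : I => (x.1 : G → ℂ) y) := by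
    intro x
    exact isIrrCharacter_of_one (isCharacter_res I (isCharacter_of_isIrrCharacter x.1.2))
      (lin_one x.1 x.2)
  have hresN : ∀ (x : {χ : Cfsg.IrrCharacter G // Cfsg.charDegree (χ : G → ℂ) = 1})
      (n : N.subgroupOf I), (x.1 : G → ℂ) ((n : I) : G) = 1 :=
    fun x n => lin_trivial_of_perfect N hN hmin hna x.1 x.2 _ (Subgroup.mem_subgroupOf.mp n.2)
  have ha' : ∀ x : {χ : Cfsg.IrrCharacter G // Cfsg.charDegree (χ : G → ℂ) = 1},
      a ⟨fun y : I => (x.1 : G → ℂ) y, hres x⟩ ≠ 0 := by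
    intro x h0
    have h1 : Cfsg.classInner (Cfsg.indFun (N.subgroupOf I) (fun _ => (1:ℂ)))
        (fun y : I => (x.1 : G → ℂ) y) = ((0 : ℕ) : ℂ) := by
      rw [← h0]
      exact ha ⟨fun y : I => (x.1 : G → ℂ) y, hres x⟩
    rw [Cfsg.Agent.S0146.result (N.subgroupOf I) _ _
      (isCharacter_isClassFunction (isCharacter_of_isIrrCharacter (hres x)))] at h1
    have h2 : (fun h : N.subgroupOf I => (fun y : I => (x.1 : G → ℂ) y) (h : I))
        = fun _ => (1:ℂ) := by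
      funext n
      exact hresN x n
    rw [h2, classInner_self_of_isIrrCharacter isIrrCharacter_one] at h1
    simp at h1
  have hΞ : ∀ x : {χ : Cfsg.IrrCharacter G // Cfsg.charDegree (χ : G → ℂ) = 1},
      Cfsg.IsIrrCharacter I ((fun y : I => (x.1 : G → ℂ) y) * (ψ : I → ℂ)) :=
    fun x => hairr ⟨_, hres x⟩ (ha' x)
  have hf' : ∀ x : {χ : Cfsg.IrrCharacter G // Cfsg.charDegree (χ : G → ℂ) = 1},
      f ⟨_, hΞ x⟩ ≠ 0 := by
    intro x h0
    have h1 : Cfsg.classInner (Cfsg.indFun (N.subgroupOf I) φ')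
        ((fun y : I => (x.1 : G → ℂ) y) * (ψ : I → ℂ)) = ((0 : ℕ) : ℂ) := by
      rw [← h0]
      exact hf ⟨_, hΞ x⟩
    rw [Cfsg.Agent.S0146.result (N.subgroupOf I) _ _
      (isCharacter_isClassFunction (isCharacter_of_isIrrCharacter (hΞ x)))] at h1
    have h2 : (fun h : N.subgroupOf I =>
        ((fun y : I => (x.1 : G → ℂ) y) * (ψ : I → ℂ)) (h : I)) = φ' := by
      funext n
      show (x.1 : G → ℂ) ((n : I) : G) * (ψ : I → ℂ) (n : I) = φ' n
      rw [hresN x n, one_mul, hψN n]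
    rw [h2, classInner_self_of_isIrrCharacter hφ'] at h1
    simp at h1
  have hF : ∀ x : {χ : Cfsg.IrrCharacter G // Cfsg.charDegree (χ : G → ℂ) = 1},
      Cfsg.IsIrrCharacter G (Cfsg.indFun I ((fun y : I => (x.1 : G → ℂ) y) * (ψ : I → ℂ))) :=
    fun x => hfirr ⟨_, hΞ x⟩ (hf' x)
  have hdeg : ∀ x : {χ : Cfsg.IrrCharacter G // Cfsg.charDegree (χ : G → ℂ) = 1},
      Cfsg.charDegree (Cfsg.indFun I ((fun y : I => (x.1 : G → ℂ) y) * (ψ : I → ℂ)))
        = Cfsg.charDegree (φ : N → ℂ) * I.index := by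
    intro x
    have key : Cfsg.indFun I ((fun y : I => (x.1 : G → ℂ) y) * (ψ : I → ℂ)) 1
        = ((Cfsg.charDegree (φ : N → ℂ) * I.index : ℕ) : ℂ) := by
      rw [indFun_one, Pi.mul_apply, hψ1]
      have h1 : (x.1 : G → ℂ) ((1 : I) : G) = 1 := lin_one x.1 x.2
      rw [h1]
      push_cast
      ring
    show ⌊(Cfsg.indFun I ((fun y : I => (x.1 : G → ℂ) y) * (ψ : I → ℂ)) 1).re⌋₊ = _
    rw [key, Complex.natCast_re, Nat.floor_natCast]
  have hfib : ∀ x x' : {χ : Cfsg.IrrCharacter G // Cfsg.charDegree (χ : G → ℂ) = 1},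
      Cfsg.indFun I ((fun y : I => (x.1 : G → ℂ) y) * (ψ : I → ℂ))
        = Cfsg.indFun I ((fun y : I => (x'.1 : G → ℂ) y) * (ψ : I → ℂ)) →
      ∀ y ∈ I, (x.1 : G → ℂ) y = (x'.1 : G → ℂ) y := by
    intro x x' h1 y hy
    have h2 : (⟨_, hΞ x⟩ : Cfsg.IrrCharacter I) = ⟨_, hΞ x'⟩ := by
      by_contra hne
      have h3 : Cfsg.classInner (Cfsg.indFun I ((fun y : I => (x.1 : G → ℂ) y) * (ψ : I → ℂ)))
          (Cfsg.indFun I ((fun y : I => (x'.1 : G → ℂ) y) * (ψ : I → ℂ))) = 0 :=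
        hforth ⟨_, hΞ x⟩ ⟨_, hΞ x'⟩ (hf' x) (hf' x') hne
      rw [← h1, classInner_self_of_isIrrCharacter (hF x)] at h3
      exact one_ne_zero h3
    have h3 : (fun y : I => (x.1 : G → ℂ) y) * (ψ : I → ℂ)
        = (fun y : I => (x'.1 : G → ℂ) y) * (ψ : I → ℂ) := congrArg Subtype.val h2
    have h4 : (⟨_, hres x⟩ : Cfsg.IrrCharacter I) = ⟨_, hres x'⟩ := by
      by_contra hne
      have h5 : Cfsg.classInner ((fun y : I => (x.1 : G → ℂ) y) * (ψ : I → ℂ))
          ((fun y : I => (x'.1 : G → ℂ) y) * (ψ : I → ℂ)) = 0 :=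
        haorth ⟨_, hres x⟩ ⟨_, hres x'⟩ (ha' x) (ha' x') hne
      rw [← h3, classInner_self_of_isIrrCharacter (hΞ x)] at h5
      exact one_ne_zero h5
    have h5 : (fun y : I => (x.1 : G → ℂ) y) = (fun y : I => (x'.1 : G → ℂ) y) :=
      congrArg Subtype.val h4
    exact congrFun h5 ⟨y, hy⟩
  rw [Nat.card_eq_fintype_card, Nat.card_eq_fintype_card]
  have hcard := Finset.card_le_mul_card_image
    (s := (Finset.univ : Finset {χ : Cfsg.IrrCharacter G // Cfsg.charDegree (χ : G → ℂ) = 1}))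
    (f := fun x => (⟨⟨_, hF x⟩, hdeg x⟩ : {χ : Cfsg.IrrCharacter G //
          Cfsg.charDegree (χ : G → ℂ) = Cfsg.charDegree (φ : ↥N → ℂ) * I.index})) I.index (by
    intro b _
    have h1 := card_agree_le I ((Finset.univ.filter
      (fun x : {χ : Cfsg.IrrCharacter G // Cfsg.charDegree (χ : G → ℂ) = 1} =>
        (⟨⟨_, hF x⟩, hdeg x⟩ : {χ : Cfsg.IrrCharacter G //
          Cfsg.charDegree (χ : G → ℂ) = Cfsg.charDegree (φ : ↥N → ℂ) * I.index}) = b)).map
        ⟨Subtype.val, Subtype.val_injective⟩) (by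
          intro χ hχ
          rw [Finset.mem_map] at hχ
          obtain ⟨x, _, rfl⟩ := hχ
          exact x.2) (by
          intro χ hχ χ' hχ' y hy
          rw [Finset.mem_map] at hχ hχ'
          obtain ⟨x, hx, rfl⟩ := hχ
          obtain ⟨x', hx', rfl⟩ := hχ'
          rw [Finset.mem_filter] at hx hx'
          have h2 := hx.2.trans hx'.2.symm
          exact hfib x x' (congrArg (fun d : {χ : Cfsg.IrrCharacter G //
            Cfsg.charDegree (χ : G → ℂ) = Cfsg.charDegree (φ : ↥N → ℂ) * I.index} =>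
              (d.1 : G → ℂ)) h2) y hy)
    rwa [Finset.card_map] at h1)
  calc Fintype.card {χ : Cfsg.IrrCharacter G // Cfsg.charDegree (χ : G → ℂ) = 1}
      = (Finset.univ : Finset {χ : Cfsg.IrrCharacter G //
          Cfsg.charDegree (χ : G → ℂ) = 1}).card := Finset.card_univ.symm
    _ ≤ I.index * _ := hcard
    _ ≤ I.index * Fintype.card {χ : Cfsg.IrrCharacter G //
          Cfsg.charDegree (χ : G → ℂ) = Cfsg.charDegree (φ : ↥N → ℂ) * I.index} :=
        Nat.mul_le_mul_left _ (Finset.card_le_univ _)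

end Cfsg.Agent.Helper2.LinCount
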