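import Mathlib
import Cfsg.Agent.Helper2.CharKer
import Cfsg.Agent.Helper2.FSCount
import Cfsg.Agent.S0146
import Cfsg.Agent.S0148

/-! Characters of `p`-power codegree are induced from a Sylow `p`-subgroup. -/

namespace Cfsg.Agent.Helper2.PCod

open Cfsg.Agent.Lead

universe u

theorem multiset_eval_one {A : Type u} [Group A] [Finite A] (m : Multiset (Cfsg.IrrCharacter A)) :
    (m.map (fun ψ : Cfsg.IrrCharacter A => (ψ : A → ℂ))).sum 1
      = (((m.map (fun ψ : Cfsg.IrrCharacter A => Cfsg.charDegree (ψ : A → ℂ))).sum : ℕ) : ℂ) := by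
  induction m using Multiset.induction_on with
  | empty => simp
  | cons a m ih =>
    rw [Multiset.map_cons, Multiset.sum_cons, Pi.add_apply, ih, Multiset.map_cons,
      Multiset.sum_cons, Cfsg.Agent.Helper2.FSInd.degree_eq a]
    push_cast
    rfl

variable {G : Type u} [Group G] [Fintype G]

theorem indFun_one_val (H : Subgroup G) (θ : H → ℂ) :
    Cfsg.indFun H θ 1 = (H.index : ℂ) * θ 1 := by
  rw [indFun_apply]
  have h1 : ∀ x : G, Cfsg.extendByZero H θ (x⁻¹ * 1 * x) = θ 1 := by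
    intro x
    have hx : x⁻¹ * 1 * x = 1 := by group
    rw [hx, extendByZero_mem H θ (Subgroup.one_mem H)]
    rfl
  rw [Finset.sum_congr rfl (fun x _ => h1 x), Finset.sum_const, Finset.card_univ, nsmul_eq_mul]
  have hH : (Nat.card H : ℂ) ≠ 0 := natCard_ne_zero_complex H
  have hidx : (Fintype.card G : ℂ) = (H.index : ℂ) * (Nat.card H : ℂ) := by
    rw [← Nat.card_eq_fintype_card, ← Subgroup.index_mul_card H]
    push_cast
    ring
  rw [hidx]
  field_simp

theorem forward (p : ℕ) [hp : Fact p.Prime] (χ : Cfsg.IrrCharacter G) (k : ℕ)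
    (hk : Nat.card G = p ^ k * Cfsg.charDegree (χ : G → ℂ)) :
    ∃ (P : Sylow p G) (θ : ↥(P : Subgroup G) → ℂ), Cfsg.IsCharacter ↥(P : Subgroup G) θ ∧
      (χ : G → ℂ) = Cfsg.indFun (P : Subgroup G) θ := by
  classical
  obtain ⟨P⟩ : Nonempty (Sylow p G) := inferInstance
  haveI : Fintype (P : Subgroup G) := Fintype.ofFinite _
  obtain ⟨a, ha⟩ := IsPGroup.iff_card.mp P.isPGroup'
  have hidx : (P : Subgroup G).index * p ^ a = Nat.card G := by
    rw [← ha]
    exact Subgroup.index_mul_card _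
  have hndvd : ¬ p ∣ (P : Subgroup G).index := P.not_dvd_index
  obtain ⟨d, hd⟩ : ∃ d : ℕ, d = Cfsg.charDegree (χ : G → ℂ) := ⟨_, rfl⟩
  rw [← hd] at hk
  have hχ1 : (χ : G → ℂ) 1 = (d : ℂ) := by
    rw [hd]
    exact Cfsg.Agent.Helper2.FSInd.degree_eq χ
  have hχch := isCharacter_of_isIrrCharacter χ.2
  have hka : k ≤ a := by
    have h1 : p ^ k ∣ (P : Subgroup G).index * p ^ a := by
      rw [hidx, hk]
      exact dvd_mul_right _ _
    have h2 : p ^ k ∣ p ^ a :=
      (Nat.Coprime.pow_left k ((Nat.Prime.coprime_iff_not_dvd hp.out).mpr hndvd)).dvd_of_dvd_mul_left h1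
    exact (Nat.pow_dvd_pow_iff_le_right hp.out.one_lt).mp h2
  have hdeq : d = (P : Subgroup G).index * p ^ (a - k) := by
    have h1 : p ^ k * d = p ^ k * ((P : Subgroup G).index * p ^ (a - k)) := by
      rw [← hk, ← hidx]
      have h2 : p ^ a = p ^ k * p ^ (a - k) := by
        rw [← pow_add]
        congr 1
        omega
      rw [h2]
      ring
    exact Nat.eq_of_mul_eq_mul_left (pow_pos hp.out.pos k) h1
  obtain ⟨m, hm⟩ := exists_multiset_irr (isCharacter_res (P : Subgroup G) hχch)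
  have hsum : d = (m.map (fun ψ : Cfsg.IrrCharacter ↥(P : Subgroup G) =>
      Cfsg.charDegree (ψ : ↥(P : Subgroup G) → ℂ))).sum := by
    have h1 := congrFun hm 1
    rw [multiset_eval_one] at h1
    have h2 : (χ : G → ℂ) ((1 : (P : Subgroup G)) : G) = (d : ℂ) := hχ1
    have h3 : (d : ℂ) = (((m.map (fun ψ : Cfsg.IrrCharacter ↥(P : Subgroup G) =>
        Cfsg.charDegree (ψ : ↥(P : Subgroup G) → ℂ))).sum : ℕ) : ℂ) := by
      rw [← h2]
      exact h1
    exact_mod_cast h3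
  have hex : ∃ θ ∈ m, Cfsg.charDegree (θ : ↥(P : Subgroup G) → ℂ) ≤ p ^ (a - k) := by
    by_contra hno
    push_neg at hno
    have hdiv : ∀ θ ∈ m, p ^ (a - k + 1) ∣ Cfsg.charDegree (θ : ↥(P : Subgroup G) → ℂ) := by
      intro θ hθ
      obtain ⟨K, -, -, -, hpos, -, hdvd⟩ := Cfsg.Agent.Helper2.CharKer.exists_ker θ
      have h1 : Cfsg.charDegree (θ : ↥(P : Subgroup G) → ℂ) ∣ p ^ a := by
        rw [← ha]
        exact dvd_trans (dvd_mul_right _ _) hdvd
      obtain ⟨j, hj, hjeq⟩ := (Nat.dvd_prime_pow hp.out).mp h1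
      rw [hjeq]
      have h2 := hno θ hθ
      rw [hjeq] at h2
      have hlt : a - k < j := (Nat.pow_lt_pow_iff_right hp.out.one_lt).mp h2
      exact pow_dvd_pow p hlt
    have h1 : p ^ (a - k + 1) ∣ d := by
      rw [hsum]
      exact Multiset.dvd_sum (fun x hx => by
        obtain ⟨θ, hθ, rfl⟩ := Multiset.mem_map.mp hx
        exact hdiv θ hθ)
    rw [hdeq, pow_succ, mul_comm ((P : Subgroup G).index)] at h1
    have h2 : p ∣ (P : Subgroup G).index :=
      Nat.dvd_of_mul_dvd_mul_left (pow_pos hp.out.pos _) h1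
    exact hndvd h2
  obtain ⟨θ, hθm, hθdeg⟩ := hex
  refine ⟨P, (θ : ↥(P : Subgroup G) → ℂ), isCharacter_of_isIrrCharacter θ.2, ?_⟩
  have hind : Cfsg.IsCharacter G (Cfsg.indFun (P : Subgroup G) (θ : ↥(P : Subgroup G) → ℂ)) :=
    Cfsg.Agent.S0148.result _ _ (isCharacter_of_isIrrCharacter θ.2)
  obtain ⟨m', hm'⟩ := exists_multiset_irr hind
  have hcnt : (m'.count χ : ℂ) = (m.count θ : ℂ) := by
    rw [← classInner_multiset_irr m' χ, ← hm',
      Cfsg.Agent.S0146.result _ _ _ (isCharacter_isClassFunction hχch),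
      ← classInner_conj_symm, hm, classInner_multiset_irr m θ, Complex.conj_natCast]
  have hχm' : χ ∈ m' := by
    have h1 : m'.count χ = m.count θ := by exact_mod_cast hcnt
    exact Multiset.count_pos.mp (h1 ▸ Multiset.count_pos.mpr hθm)
  obtain ⟨m'', rfl⟩ := Multiset.exists_cons_of_mem hχm'
  have hdeg1 := congrFun hm' 1
  rw [indFun_one_val, multiset_eval_one, Cfsg.Agent.Helper2.FSInd.degree_eq θ,
    Multiset.map_cons, Multiset.sum_cons, ← hd] at hdeg1
  have hdeg2 : (P : Subgroup G).index * Cfsg.charDegree (θ : ↥(P : Subgroup G) → ℂ)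
      = d + (m''.map (fun ψ : Cfsg.IrrCharacter G => Cfsg.charDegree (ψ : G → ℂ))).sum := by
    exact_mod_cast hdeg1
  have hle : (P : Subgroup G).index * Cfsg.charDegree (θ : ↥(P : Subgroup G) → ℂ) ≤ d := by
    rw [hdeq]
    exact Nat.mul_le_mul_left _ hθdeg
  have hzero : (m''.map (fun ψ : Cfsg.IrrCharacter G => Cfsg.charDegree (ψ : G → ℂ))).sum = 0 := by
    omega
  have hm''0 : m'' = 0 := by
    by_contra hne
    obtain ⟨ψ, hψ⟩ := Multiset.exists_mem_of_ne_zero hne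
    have h1 := Multiset.sum_eq_zero_iff.mp hzero (Cfsg.charDegree (ψ : G → ℂ))
      (Multiset.mem_map_of_mem _ hψ)
    obtain ⟨K, -, -, -, hpos, -, -⟩ := Cfsg.Agent.Helper2.CharKer.exists_ker ψ
    omega
  rw [hm', hm''0]
  simp

theorem backward (p : ℕ) [hp : Fact p.Prime] (χ : Cfsg.IrrCharacter G) (P : Sylow p G)
    (θ : ↥(P : Subgroup G) → ℂ) (hθ : Cfsg.IsCharacter ↥(P : Subgroup G) θ)
    (hχ : (χ : G → ℂ) = Cfsg.indFun (P : Subgroup G) θ) :
    ∃ k : ℕ, Nat.card G = p ^ k * Cfsg.charDegree (χ : G → ℂ) := by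
  obtain ⟨a, ha⟩ := IsPGroup.iff_card.mp P.isPGroup'
  have hidx : (P : Subgroup G).index * p ^ a = Nat.card G := by
    rw [← ha]
    exact Subgroup.index_mul_card _
  obtain ⟨n, ρ, hρ⟩ := hθ
  have hθ1 : θ 1 = (n : ℂ) := by
    rw [← hρ, Representation.char_one, Module.finrank_fin_fun]
  obtain ⟨K, -, -, -, hpos, hd, hdvd⟩ := Cfsg.Agent.Helper2.CharKer.exists_ker χ
  have h1 : (Cfsg.charDegree (χ : G → ℂ) : ℂ) = ((P : Subgroup G).index : ℂ) * (n : ℂ) := by
    rw [← hd, hχ, indFun_one_val, hθ1]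
  have h2 : Cfsg.charDegree (χ : G → ℂ) = (P : Subgroup G).index * n := by exact_mod_cast h1
  obtain ⟨c, hc⟩ : Cfsg.charDegree (χ : G → ℂ) ∣ Nat.card G :=
    dvd_trans (dvd_mul_right _ _) hdvd
  have hidxpos : 0 < (P : Subgroup G).index := Nat.pos_of_ne_zero Subgroup.index_ne_zero_of_finite
  have h3 : p ^ a = n * c := by
    have h4 : (P : Subgroup G).index * p ^ a = (P : Subgroup G).index * (n * c) := by
      rw [hidx, hc, h2]
      ring
    exact Nat.eq_of_mul_eq_mul_left hidxpos h4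
  have h4 : c ∣ p ^ a := ⟨n, by rw [h3]; ring⟩
  obtain ⟨k, -, hk⟩ := (Nat.dvd_prime_pow hp.out).mp h4
  exact ⟨k, by rw [hc, hk]; ring⟩

end Cfsg.Agent.Helper2.PCod
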