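import Mathlib
import Cfsg.Agent.Helper2.PCod
import Cfsg.Agent.Helper7.FrobKer
import Cfsg.Agent.S0193
import Cfsg.Agent.Lead.CharLin2
import Cfsg.Agent.Lead.Frobenius

/-! Faithful irreducible characters of prime codegree. -/

namespace Cfsg.Agent.Helper2.PCod

open Cfsg.Agent.Lead

universe u

theorem prime_codegree {G : Type u} [Group G] [Fintype G] (χ : Cfsg.IrrCharacter G)
    (p : ℕ) (hp : p.Prime)
    (hcod : Nat.card G = p * Cfsg.charDegree (χ : G → ℂ)) :
    (IsCyclic G ∧ Nat.card G = p) ∨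
      ∃ H : Subgroup G, Cfsg.IsFrobeniusComplement H ∧ Nat.card ↥(Cfsg.frobeniusKernel H) = p := by
  classical
  haveI : Fact p.Prime := ⟨hp⟩
  obtain ⟨d, hd⟩ : ∃ d : ℕ, d = Cfsg.charDegree (χ : G → ℂ) := ⟨_, rfl⟩
  rw [← hd] at hcod
  by_cases hd1 : d = 1
  · left
    rw [hd1, mul_one] at hcod
    exact ⟨isCyclic_of_prime_card hcod, hcod⟩
  right
  haveI : Finite (Cfsg.IrrCharacter G) := finite_irrCharacter G
  haveI : Fintype (Cfsg.IrrCharacter G) := Fintype.ofFinite _
  have hsq := Cfsg.Agent.Helper2.CharKer.sum_degree_sq (G := G)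
  obtain ⟨one, hone⟩ : ∃ o : Cfsg.IrrCharacter G, (o : G → ℂ) = fun _ => (1:ℂ) :=
    ⟨⟨_, isIrrCharacter_one⟩, rfl⟩
  have hdone : Cfsg.charDegree (one : G → ℂ) = 1 := by
    rw [hone]
    simp [Cfsg.charDegree]
  have hχne : χ ≠ one := by
    intro h
    rw [h] at hd
    exact hd1 (hd.trans hdone)
  have hdpos : 0 < d := by
    obtain ⟨K, -, -, -, hpos, -, -⟩ := Cfsg.Agent.Helper2.CharKer.exists_ker χ
    rw [hd]
    exact hpos
  have hdp : d < p := by
    have h1 : Cfsg.charDegree (χ : G → ℂ) ^ 2 + Cfsg.charDegree (one : G → ℂ) ^ 2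
        ≤ ∑ ψ : Cfsg.IrrCharacter G, Cfsg.charDegree (ψ : G → ℂ) ^ 2 := by
      have h0 := Finset.sum_pair
        (f := fun ψ : Cfsg.IrrCharacter G => Cfsg.charDegree (ψ : G → ℂ) ^ 2) hχne
      rw [← h0]
      exact Finset.sum_le_sum_of_subset (Finset.subset_univ _)
    rw [hsq, hcod, ← hd, hdone] at h1
    by_contra hle
    push_neg at hle
    have h2 : p * d ≤ d * d := Nat.mul_le_mul_right d hle
    nlinarith
  have hpd : ¬ p ∣ d := fun h => absurd (Nat.le_of_dvd hdpos h) (not_le.mpr hdp)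
  obtain ⟨P, θ, hθ, hχθ⟩ := forward p χ 1 (by rw [pow_one, ← hd]; exact hcod)
  haveI : Fintype (P : Subgroup G) := Fintype.ofFinite _
  have hPcard : Nat.card (P : Subgroup G) = p := by
    obtain ⟨a, ha⟩ := IsPGroup.iff_card.mp P.isPGroup'
    have hidx : (P : Subgroup G).index * p ^ a = p * d := by
      rw [← ha, ← hcod]
      exact Subgroup.index_mul_card _
    have hndvd : ¬ p ∣ (P : Subgroup G).index := P.not_dvd_index
    have ha1 : a = 1 := by
      rcases Nat.lt_trichotomy a 1 with h | h | h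
      · have ha0 : a = 0 := by omega
        rw [ha0, pow_zero, mul_one] at hidx
        exact absurd ⟨d, hidx⟩ hndvd
      · exact h
      · exfalso
        have h2 : p ^ 2 ∣ p * d := by
          rw [← hidx]
          exact dvd_mul_of_dvd_right (pow_dvd_pow p h) _
        rw [pow_two] at h2
        exact hpd (Nat.dvd_of_mul_dvd_mul_left hp.pos h2)
    rw [ha, ha1, pow_one]
  have hidxd : (P : Subgroup G).index = d := by
    have h := Subgroup.index_mul_card (P : Subgroup G)
    rw [hPcard, hcod, mul_comm p d] at h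
    exact Nat.eq_of_mul_eq_mul_right hp.pos h
  have hθ1 : θ 1 = 1 := by
    have h1 := congrFun hχθ 1
    rw [indFun_one_val, hidxd, Cfsg.Agent.Helper2.FSInd.degree_eq χ, ← hd] at h1
    have hd0 : (d : ℂ) ≠ 0 := by exact_mod_cast hdpos.ne'
    have h2 : (d : ℂ) * 1 = (d : ℂ) * θ 1 := by
      rw [mul_one]
      exact h1
    exact (mul_left_cancel₀ hd0 h2).symm
  have hθirr : Cfsg.IsIrrCharacter (P : Subgroup G) θ := isIrrCharacter_of_one hθ hθ1
  haveI hPn : (P : Subgroup G).Normal := by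
    have h1 : Nat.card (Sylow p G) ≡ 1 [MOD p] := card_sylow_modEq_one p G
    have h2 : Nat.card (Sylow p G) ∣ (P : Subgroup G).index := P.card_dvd_index
    rw [hidxd] at h2
    have h3 : Nat.card (Sylow p G) ≤ d := Nat.le_of_dvd hdpos h2
    have h4 : Nat.card (Sylow p G) = 1 := by
      have h5 : Nat.card (Sylow p G) % p = 1 % p := h1
      rw [Nat.mod_eq_of_lt (lt_of_le_of_lt h3 hdp), Nat.mod_eq_of_lt hp.one_lt] at h5
      exact h5
    haveI : Subsingleton (Sylow p G) := (Nat.card_eq_one_iff_unique.mp h4).1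
    exact P.normal_of_subsingleton
  have hS := Cfsg.Agent.S0193.result (P : Subgroup G) θ hθirr
  have hnorm : Cfsg.classInner (Cfsg.indFun (P : Subgroup G) θ) (Cfsg.indFun (P : Subgroup G) θ)
      = 1 := by
    rw [← hχθ]
    exact classInner_self_of_isIrrCharacter χ.2
  rw [hnorm, mul_one] at hS
  have hTcard : Nat.card {g : G // ∀ h : (P : Subgroup G),
      θ ⟨g * h * g⁻¹, hPn.conj_mem h h.2 g⟩ = θ h} = p := by
    have h0 : Nat.card {g : G // ∀ h : (P : Subgroup G),
        θ ⟨g * h * g⁻¹, hPn.conj_mem h h.2 g⟩ = θ h} = Nat.card (P : Subgroup G) := by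
      exact_mod_cast hS.symm
    exact h0.trans hPcard
  have hstab : ∀ g : G, (∀ h : (P : Subgroup G),
      θ ⟨g * h * g⁻¹, hPn.conj_mem h h.2 g⟩ = θ h) → g ∈ (P : Subgroup G) := by
    have hPT : ∀ g : G, g ∈ (P : Subgroup G) → (∀ h : (P : Subgroup G),
        θ ⟨g * h * g⁻¹, hPn.conj_mem h h.2 g⟩ = θ h) := by
      intro g hg h
      have h1 := isCharacter_isClassFunction hθ h ⟨g, hg⟩
      rw [← h1]
      rfl
    let f : ↥(P : Subgroup G) → {g : G // ∀ h : (P : Subgroup G),
        θ ⟨g * h * g⁻¹, hPn.conj_mem h h.2 g⟩ = θ h} := fun x => ⟨x, hPT x x.2⟩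
    have hf : Function.Injective f := by
      intro x y hxy
      exact Subtype.ext (congrArg (fun t : {g : G // ∀ h : (P : Subgroup G),
        θ ⟨g * h * g⁻¹, hPn.conj_mem h h.2 g⟩ = θ h} => (t : G)) hxy)
    have hbij : Function.Bijective f :=
      (Nat.bijective_iff_injective_and_card f).mpr ⟨hf, by rw [hPcard, hTcard]⟩
    intro g hg
    obtain ⟨x, hx⟩ := hbij.2 ⟨g, hg⟩
    have hxg : (x : G) = g := congrArg Subtype.val hx
    rw [← hxg]
    exact x.2
  have hcopP : Nat.Coprime (Nat.card (P : Subgroup G)) (P : Subgroup G).index := by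
    rw [hPcard, hidxd]
    exact (Nat.Prime.coprime_iff_not_dvd hp).mpr hpd
  obtain ⟨H, hcompl⟩ := Subgroup.exists_right_complement'_of_coprime hcopP
  have hHcard : Nat.card H = d := by
    rw [← hidxd]
    exact (hcompl.symm.index_eq_card).symm
  have hPH : (P : Subgroup G) ⊓ H = ⊥ := hcompl.isCompl.inf_eq_bot
  have hfpf : ∀ h ∈ H, h ≠ 1 → ∀ n ∈ (P : Subgroup G), n * h = h * n → n = 1 := by
    intro h hh h1 n hn hcomm
    by_contra hn1
    apply h1
    have hgen : ∀ x ∈ (P : Subgroup G), x ∈ Subgroup.zpowers n := by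
      have hle : Subgroup.zpowers n ≤ (P : Subgroup G) := by
        rw [Subgroup.zpowers_le]
        exact hn
      have hord : orderOf n = p := by
        have h2 : orderOf n ∣ p := by
          rw [← hPcard]
          exact Subgroup.orderOf_dvd_natCard _ hn
        rcases (Nat.dvd_prime hp).mp h2 with h | h
        · exact absurd (orderOf_eq_one_iff.mp h) hn1
        · exact h
      have heq : Subgroup.zpowers n = (P : Subgroup G) :=
        Subgroup.eq_of_le_of_card_ge hle (by rw [Nat.card_zpowers, hord, hPcard])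
      intro x hx
      rw [heq]
      exact hx
    have hcent : ∀ x ∈ (P : Subgroup G), h * x * h⁻¹ = x := by
      intro x hx
      obtain ⟨i, rfl⟩ := Subgroup.mem_zpowers_iff.mp (hgen x hx)
      have h2 : h * n * h⁻¹ = n := by
        rw [← hcomm]
        group
      rw [← conj_zpow, h2]
    have hhP : h ∈ (P : Subgroup G) := hstab h (fun x => by
      congr 1
      exact Subtype.ext (hcent x x.2))
    have h3 : h ∈ (P : Subgroup G) ⊓ H := ⟨hhP, hh⟩
    rw [hPH] at h3
    exact Subgroup.mem_bot.mp h3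
  have hdecomp : ∀ g : G, ∃ n ∈ (P : Subgroup G), ∃ h ∈ H, g = n * h := by
    intro g
    obtain ⟨⟨n, h⟩, hnh⟩ := (Subgroup.isComplement'_def.mp hcompl).2 g
    exact ⟨n, n.2, h, h.2, hnh.symm⟩
  have hFrob : Cfsg.IsFrobeniusComplement H := by
    refine ⟨?_, ?_, ?_⟩
    · intro hbot
      rw [hbot, Subgroup.card_bot] at hHcard
      exact hd1 hHcard.symm
    · intro htop
      rw [htop, Subgroup.card_top, hcod] at hHcard
      have h2 : p * d = 1 * d := by
        rw [one_mul]
        exact hHcard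
      exact hp.one_lt.ne' (Nat.eq_of_mul_eq_mul_right hdpos h2)
    · intro g hg
      rw [eq_bot_iff]
      intro x hx
      rw [Subgroup.mem_inf, mem_conj_smul_iff'] at hx
      obtain ⟨hxH, hxg⟩ := hx
      obtain ⟨n, hn, h, hh, rfl⟩ := hdecomp g
      have hn1 : n ≠ 1 := by
        rintro rfl
        apply hg
        rw [one_mul]
        exact hh
      have hy' : n⁻¹ * x * n ∈ H := by
        have h2 : n⁻¹ * x * n = h * ((n * h)⁻¹ * x * (n * h)) * h⁻¹ := by group
        rw [h2]
        exact H.mul_mem (H.mul_mem hh hxg) (H.inv_mem hh)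
      have hc1 : x⁻¹ * (n⁻¹ * x * n) ∈ H := H.mul_mem (H.inv_mem hxH) hy'
      have hc2 : x⁻¹ * (n⁻¹ * x * n) ∈ (P : Subgroup G) := by
        have h2 : x⁻¹ * (n⁻¹ * x * n) = (x⁻¹ * n⁻¹ * x⁻¹⁻¹) * n := by group
        rw [h2]
        exact Subgroup.mul_mem _ (hPn.conj_mem _ (Subgroup.inv_mem _ hn) _) hn
      have hc : x⁻¹ * (n⁻¹ * x * n) = 1 := by
        have h2 : x⁻¹ * (n⁻¹ * x * n) ∈ (P : Subgroup G) ⊓ H := ⟨hc2, hc1⟩
        rw [hPH] at h2
        exact Subgroup.mem_bot.mp h2
      have hcomm : n * x = x * n := by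
        have h2 : n⁻¹ * x * n = x := by
          calc n⁻¹ * x * n = x * (x⁻¹ * (n⁻¹ * x * n)) := by group
            _ = x := by rw [hc, mul_one]
        calc n * x = n * (n⁻¹ * x * n) := by rw [h2]
          _ = x * n := by group
      rw [Subgroup.mem_bot]
      by_contra hx1
      exact hn1 (hfpf x hxH hx1 n hn hcomm)
  refine ⟨H, hFrob, ?_⟩
  obtain ⟨K, hKset, -, -, -, hcard, -, -⟩ := Cfsg.Agent.Helper7.frob_kernel_data H hFrob
  have h1 : Nat.card ↥(Cfsg.frobeniusKernel H) = Nat.card K := by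
    rw [← hKset]
    rfl
  rw [h1]
  rw [hHcard, hcod] at hcard
  exact Nat.eq_of_mul_eq_mul_right hdpos hcard

end Cfsg.Agent.Helper2.PCod
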