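import Mathlib
import Cfsg.Agent.Lead.CharCore6
import Cfsg.Agent.Lead.CharLin
import Cfsg.Agent.Lead.CharInt
import Cfsg.Agent.Lead.CharOdd

set_option autoImplicit false

namespace Cfsg.Agent.Helper2.PCong

open Cfsg Cfsg.Agent.Lead

universe u

/-- congruence modulo `p` in the ring of algebraic integers -/
def PC (p : ℕ) (a b : ℂ) : Prop := ∃ γ : ℂ, IsIntegral ℤ γ ∧ a - b = (p : ℂ) * γ

theorem PC.refl (p : ℕ) (a : ℂ) : PC p a a := ⟨0, isIntegral_zero, by simp⟩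

theorem PC.symm {p : ℕ} {a b : ℂ} (h : PC p a b) : PC p b a := by
  obtain ⟨γ, hγ, h⟩ := h
  exact ⟨-γ, hγ.neg, by rw [mul_neg, ← h]; ring⟩

theorem PC.trans {p : ℕ} {a b c : ℂ} (h₁ : PC p a b) (h₂ : PC p b c) : PC p a c := by
  obtain ⟨γ₁, hγ₁, h₁⟩ := h₁
  obtain ⟨γ₂, hγ₂, h₂⟩ := h₂
  exact ⟨γ₁ + γ₂, hγ₁.add hγ₂, by rw [mul_add, ← h₁, ← h₂]; ring⟩

theorem PC.add {p : ℕ} {a b c d : ℂ} (h₁ : PC p a b) (h₂ : PC p c d) :
    PC p (a + c) (b + d) := by
  obtain ⟨γ₁, hγ₁, h₁⟩ := h₁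
  obtain ⟨γ₂, hγ₂, h₂⟩ := h₂
  exact ⟨γ₁ + γ₂, hγ₁.add hγ₂, by rw [mul_add, ← h₁, ← h₂]; ring⟩

theorem PC.mul_left {p : ℕ} {a b : ℂ} (c : ℂ) (hc : IsIntegral ℤ c) (h : PC p a b) :
    PC p (c * a) (c * b) := by
  obtain ⟨γ, hγ, h⟩ := h
  exact ⟨c * γ, hc.mul hγ, by rw [← mul_sub, h]; ring⟩

theorem PC.of_eq {p : ℕ} {a b : ℂ} (h : a = b) : PC p a b := h ▸ PC.refl p a

theorem PC.multiset_sum {p : ℕ} {ι : Type*} (m : Multiset ι) (f g : ι → ℂ)
    (h : ∀ i ∈ m, PC p (f i) (g i)) : PC p (m.map f).sum (m.map g).sum := by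
  induction m using Multiset.induction_on with
  | empty => simpa using PC.refl p 0
  | cons i m ih =>
    rw [Multiset.map_cons, Multiset.sum_cons, Multiset.map_cons, Multiset.sum_cons]
    exact PC.add (h i (Multiset.mem_cons_self i m))
      (ih (fun j hj => h j (Multiset.mem_cons_of_mem hj)))

theorem frob2 {p : ℕ} (hp : p.Prime) (n : ℕ) {a b : ℂ} (ha : IsIntegral ℤ a)
    (hb : IsIntegral ℤ b) : PC p ((a + b) ^ (p ^ n)) (a ^ (p ^ n) + b ^ (p ^ n)) := by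
  obtain ⟨r, hr⟩ := exists_add_pow_prime_pow_eq hp
    (⟨a, ha⟩ : integralClosure ℤ ℂ) (⟨b, hb⟩ : integralClosure ℤ ℂ) n
  have h1 := congrArg (fun z : integralClosure ℤ ℂ => (z : ℂ)) hr
  simp only [Subalgebra.coe_add, Subalgebra.coe_pow, Subalgebra.coe_mul] at h1
  have h2 : (((p : ℕ) : integralClosure ℤ ℂ) : ℂ) = (p : ℂ) := by
    push_cast
    rfl
  rw [h2] at h1
  exact ⟨a * b * (r : ℂ), (ha.mul hb).mul r.2, by rw [h1]; ring⟩

theorem frob_multiset {p : ℕ} (hp : p.Prime) (n : ℕ) (M : Multiset ℂ)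
    (hM : ∀ z ∈ M, IsIntegral ℤ z) :
    PC p (M.sum ^ (p ^ n)) ((M.map (fun z => z ^ (p ^ n))).sum) := by
  induction M using Multiset.induction_on with
  | empty =>
    simp only [Multiset.sum_zero, Multiset.map_zero]
    rw [zero_pow (pow_pos hp.pos n).ne']
    exact PC.refl p 0
  | cons z M ih =>
    rw [Multiset.sum_cons, Multiset.map_cons, Multiset.sum_cons]
    have hz : IsIntegral ℤ z := hM z (Multiset.mem_cons_self z M)
    have hMs : IsIntegral ℤ M.sum :=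
      IsIntegral.multiset_sum (fun y hy => hM y (Multiset.mem_cons_of_mem hy))
    exact (frob2 hp n hz hMs).trans
      (PC.add (PC.refl p _) (ih (fun y hy => hM y (Multiset.mem_cons_of_mem hy))))

theorem frob_finset {p : ℕ} (hp : p.Prime) (n : ℕ) {ι : Type*} (s : Finset ι) (f : ι → ℂ)
    (hf : ∀ i ∈ s, IsIntegral ℤ (f i)) :
    PC p ((∑ i ∈ s, f i) ^ (p ^ n)) (∑ i ∈ s, f i ^ (p ^ n)) := by
  have h1 := frob_multiset hp n (s.val.map f) (by
    intro z hz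
    obtain ⟨i, hi, rfl⟩ := Multiset.mem_map.mp hz
    exact hf i hi)
  rw [Multiset.map_map] at h1
  exact h1

theorem PC.finset_sum {p : ℕ} {ι : Type*} (s : Finset ι) (f g : ι → ℂ)
    (h : ∀ i ∈ s, PC p (f i) (g i)) : PC p (∑ i ∈ s, f i) (∑ i ∈ s, g i) :=
  PC.multiset_sum s.val f g h

theorem char_frob {H : Type u} [Group H] [Finite H] {p : ℕ} (hp : p.Prime) (n : ℕ)
    (m : Multiset (Cfsg.IrrCharacter H)) (g : H) :
    PC p (((m.map (fun ψ : Cfsg.IrrCharacter H => (ψ : H → ℂ))).sum g) ^ (p ^ n))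
      ((m.map (fun ψ : Cfsg.IrrCharacter H => (ψ : H → ℂ) g ^ (p ^ n))).sum) := by
  rw [multiset_irr_sum_apply]
  have h1 := frob_multiset hp n (m.map (fun ψ : Cfsg.IrrCharacter H => (ψ : H → ℂ) g)) (by
    intro z hz
    obtain ⟨ψ, -, rfl⟩ := Multiset.mem_map.mp hz
    exact isCharacter_isIntegral (isCharacter_of_isIrrCharacter ψ.2) g)
  rw [Multiset.map_map] at h1
  exact h1

/-- congruences for irreducible characters pass to all characters -/
theorem char_congr {G : Type u} [Group G] [Finite G] {p : ℕ} (hp : p.Prime) (n : ℕ) (a b : G)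
    (h : ∀ χ : Cfsg.IrrCharacter G, PC p ((χ : G → ℂ) a ^ (p ^ n)) ((χ : G → ℂ) b ^ (p ^ n)))
    {Φ : G → ℂ} (hΦ : Cfsg.IsCharacter G Φ) : PC p (Φ a ^ (p ^ n)) (Φ b ^ (p ^ n)) := by
  obtain ⟨m, rfl⟩ := exists_multiset_irr hΦ
  exact ((char_frob hp n m a).trans (PC.multiset_sum m _ _ (fun χ _ => h χ))).trans
    (char_frob hp n m b).symm

/-- `χ(g)^q ≡ χ(g')^q` when `g = u g'` with `u` a commuting element with `u^q = 1` -/
theorem char_pow_congr {G : Type u} [Group G] [Finite G] {p : ℕ} (hp : p.Prime) (n : ℕ)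
    {χ : G → ℂ} (hχ : Cfsg.IsCharacter G χ) (g g' : G) (hcomm : Commute (g * g'⁻¹) g')
    (hu : (g * g'⁻¹) ^ (p ^ n) = 1) : PC p (χ g ^ (p ^ n)) (χ g' ^ (p ^ n)) := by
  classical
  obtain ⟨u, hudef⟩ : ∃ u : G, u = g * g'⁻¹ := ⟨_, rfl⟩
  rw [← hudef] at hcomm hu
  have hg : g = u * g' := by rw [hudef]; group
  obtain ⟨Z, hZdef⟩ : ∃ Z : Subgroup G, Z = Subgroup.centralizer ({g', u} : Set G) := ⟨_, rfl⟩
  have hg'Z : g' ∈ Z := by
    rw [hZdef, Subgroup.mem_centralizer_iff]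
    intro h hh
    rcases hh with rfl | rfl
    · rfl
    · exact hcomm.eq
  have huZ : u ∈ Z := by
    rw [hZdef, Subgroup.mem_centralizer_iff]
    intro h hh
    rcases hh with rfl | rfl
    · exact hcomm.eq.symm
    · rfl
  have hZmem : ∀ z : G, z ∈ Z → ∀ h ∈ ({g', u} : Set G), h * z = z * h := by
    intro z hz
    rw [hZdef] at hz
    exact Subgroup.mem_centralizer_iff.mp hz
  have hg'c : (⟨g', hg'Z⟩ : Z) ∈ Subgroup.center Z := by
    rw [Subgroup.mem_center_iff]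
    intro w
    apply Subtype.ext
    show (w : G) * g' = g' * (w : G)
    exact (hZmem (w : G) w.2 g' (by simp)).symm
  have huc : (⟨u, huZ⟩ : Z) ∈ Subgroup.center Z := by
    rw [Subgroup.mem_center_iff]
    intro w
    apply Subtype.ext
    show (w : G) * u = u * (w : G)
    exact (hZmem (w : G) w.2 u (by simp)).symm
  have hBcomm : ∀ a b : Subgroup.center Z, a * b = b * a := by
    intro a b
    apply Subtype.ext
    exact (Subgroup.mem_center_iff.mp a.2 (b : Z)).symm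
  have hψ₀ : Cfsg.IsCharacter (Subgroup.center Z) (fun b : Subgroup.center Z => χ ((b : Z) : G)) :=
    isCharacter_res (Subgroup.center Z) (isCharacter_res Z hχ)
  obtain ⟨m, hm⟩ := exists_multiset_irr hψ₀
  have hval : ∀ b : Subgroup.center Z, χ ((b : Z) : G)
      = (m.map (fun ψ : Cfsg.IrrCharacter (Subgroup.center Z) =>
          (ψ : Subgroup.center Z → ℂ) b)).sum := by
    intro b
    have h1 := congrFun hm b
    rw [multiset_irr_sum_apply] at h1
    exact h1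
  obtain ⟨bg', hbg'⟩ : ∃ b : Subgroup.center Z, b = ⟨⟨g', hg'Z⟩, hg'c⟩ := ⟨_, rfl⟩
  obtain ⟨bu, hbu⟩ : ∃ b : Subgroup.center Z, b = ⟨⟨u, huZ⟩, huc⟩ := ⟨_, rfl⟩
  have h1 : χ g = (m.map (fun ψ : Cfsg.IrrCharacter (Subgroup.center Z) =>
      (ψ : Subgroup.center Z → ℂ) (bu * bg'))).sum := by
    rw [← hval, hbu, hbg', hg]
    rfl
  have h2 : χ g' = (m.map (fun ψ : Cfsg.IrrCharacter (Subgroup.center Z) =>
      (ψ : Subgroup.center Z → ℂ) bg')).sum := by
    rw [← hval, hbg']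
  rw [h1, h2]
  have hint : ∀ (b : Subgroup.center Z), ∀ z ∈ m.map
      (fun ψ : Cfsg.IrrCharacter (Subgroup.center Z) => (ψ : Subgroup.center Z → ℂ) b),
      IsIntegral ℤ z := by
    intro b z hz
    obtain ⟨ψ, -, rfl⟩ := Multiset.mem_map.mp hz
    exact isCharacter_isIntegral (isCharacter_of_isIrrCharacter ψ.2) b
  have hF1 := frob_multiset hp n _ (hint (bu * bg'))
  have hF2 := frob_multiset hp n _ (hint bg')
  rw [Multiset.map_map] at hF1 hF2
  refine hF1.trans (PC.trans (PC.of_eq ?_) hF2.symm)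
  apply congrArg Multiset.sum
  apply Multiset.map_congr rfl
  intro ψ _
  simp only [Function.comp_apply]
  have hψ1 : (ψ : Subgroup.center Z → ℂ) 1 = 1 := irrCharacter_one_of_comm hBcomm ψ
  have hψch := isCharacter_of_isIrrCharacter ψ.2
  have hmul := isCharacter_linear_mul hψch hψ1
  rw [hmul bu bg', mul_pow]
  have hpow : ∀ (b : Subgroup.center Z) (k : ℕ),
      (ψ : Subgroup.center Z → ℂ) (b ^ k) = (ψ : Subgroup.center Z → ℂ) b ^ k := by
    intro b k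
    induction k with
    | zero => rw [pow_zero, pow_zero, hψ1]
    | succ k ih => rw [pow_succ, pow_succ, hmul, ih]
  have hbu1 : bu ^ (p ^ n) = 1 := by
    rw [hbu]
    apply Subtype.ext
    apply Subtype.ext
    show u ^ (p ^ n) = 1
    exact hu
  rw [← hpow bu, hbu1, hψ1, one_mul]

end Cfsg.Agent.Helper2.PCong
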