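import Mathlib
import Cfsg.Agent.Helper2.PCong
import Cfsg.Agent.Helper2.CharN4
import Cfsg.Agent.Lead.IndFun
import Cfsg.Agent.Lead.IndFun2
import Cfsg.Agent.Lead.CharCore4
import Cfsg.Agent.S0148
import Cfsg.Prelude.Def_Blocks

set_option autoImplicit false

namespace Cfsg.Agent.Helper2.PCong

open Cfsg Cfsg.Agent.Lead

universe u

theorem eq_of_preg {K : Type u} [Group K] {p : ℕ} (hp : p.Prime) (w z : K)
    (hcomm : Commute w z) (hw : ¬ p ∣ orderOf w) (hz : ¬ p ∣ orderOf z)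
    (hu : ∃ j : ℕ, orderOf (w⁻¹ * z) = p ^ j) : w = z := by
  obtain ⟨j, hj⟩ := hu
  have h1 : (w⁻¹ * z) ^ (orderOf w * orderOf z) = 1 := by
    rw [(hcomm.inv_left).mul_pow, inv_pow, pow_mul, pow_orderOf_eq_one, one_pow, inv_one, one_mul,
      mul_comm, pow_mul, pow_orderOf_eq_one, one_pow]
  have h2 : p ^ j ∣ orderOf w * orderOf z := by
    rw [← hj]
    exact orderOf_dvd_of_pow_eq_one h1
  have hj0 : j = 0 := by
    by_contra hne
    have h3 : p ∣ orderOf w * orderOf z := dvd_trans (dvd_pow_self p hne) h2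
    rcases (Nat.Prime.dvd_mul hp).mp h3 with h | h
    · exact hw h
    · exact hz h
  rw [hj0, pow_zero, orderOf_eq_one_iff] at hj
  exact inv_mul_eq_one.mp hj

theorem sum_mul_indFun {G : Type u} [Group G] [Fintype G] (H : Subgroup G) {ι : Type*}
    [Fintype ι] (c : ι → ℂ) (F : ι → H → ℂ) (g : G) :
    ∑ i, c i * Cfsg.indFun H (F i) g = Cfsg.indFun H (fun h => ∑ i, c i * F i h) g := by
  have h1 := Cfsg.Agent.Helper2.CharN.indFun_sum_smul H Finset.univ c F
  have h2 := congrFun h1 g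
  rw [Finset.sum_apply] at h2
  simp only [Pi.smul_apply, smul_eq_mul] at h2
  rw [← h2]
  congr 1
  funext h
  rw [Finset.sum_apply]
  simp only [Pi.smul_apply, smul_eq_mul]

theorem exists_sep {G : Type u} [Group G] [Fintype G] (p : ℕ) [hp : Fact p.Prime] (x' : G)
    (hx' : ¬ p ∣ orderOf x') :
    ∃ (ι : Type u) (_ : Fintype ι) (c : ι → ℂ) (Φ : ι → G → ℂ) (m : ℕ),
      (∀ i, IsIntegral ℤ (c i)) ∧ (∀ i, Cfsg.IsCharacter G (Φ i)) ∧ ¬ p ∣ m ∧
      (∑ i, c i * Φ i x' = (m : ℂ)) ∧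
      ∀ y' : G, ¬ p ∣ orderOf y' → ¬ IsConj x' y' → ∑ i, c i * Φ i y' = 0 := by
  classical
  obtain ⟨Z, hZdef⟩ : ∃ Z : Subgroup G, Z = Subgroup.centralizer ({x'} : Set G) := ⟨_, rfl⟩
  haveI : Fintype Z := Fintype.ofFinite _
  have hZmem : ∀ z : G, z ∈ Z ↔ x' * z = z * x' := by
    intro z
    rw [hZdef, Subgroup.mem_centralizer_iff]
    constructor
    · intro h
      exact h x' (Set.mem_singleton _)
    · intro h y hy
      rw [Set.mem_singleton_iff.mp hy]
      exact h
  have hx'Z : x' ∈ Z := (hZmem x').mpr rfl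
  obtain ⟨zx, hzx⟩ : ∃ zx : Z, zx = ⟨x', hx'Z⟩ := ⟨_, rfl⟩
  have hzx_coe : (zx : G) = x' := by rw [hzx]
  have hzx_central : ∀ w : Z, w * zx = zx * w := by
    intro w
    apply Subtype.ext
    show (w : G) * (zx : G) = (zx : G) * (w : G)
    rw [hzx_coe]
    exact ((hZmem (w : G)).mp w.2).symm
  have hzx_ord : orderOf zx = orderOf x' := by
    rw [← Subgroup.orderOf_coe, hzx_coe]
  obtain ⟨P₀⟩ : Nonempty (Sylow p Z) := inferInstance
  obtain ⟨E, hEdef⟩ : ∃ E : Subgroup Z,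
      E = Subgroup.normalizer ((P₀ : Subgroup Z) : Set Z) := ⟨_, rfl⟩
  haveI : Fintype E := Fintype.ofFinite _
  have hPE : (P₀ : Subgroup Z) ≤ E := by
    rw [hEdef]
    exact Subgroup.le_normalizer
  have hzxE : zx ∈ E := by
    rw [hEdef, Subgroup.mem_normalizer_iff]
    intro h
    have h1 : zx * h * zx⁻¹ = h := by
      rw [← hzx_central h]
      group
    rw [h1]
  have hP'n : ((P₀ : Subgroup Z).subgroupOf E).Normal := by
    subst hEdef
    exact Subgroup.normal_in_normalizer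
  haveI := hP'n
  haveI : Finite (Cfsg.IrrCharacter (E ⧸ (P₀ : Subgroup Z).subgroupOf E)) := finite_irrCharacter _
  haveI : Fintype (Cfsg.IrrCharacter (E ⧸ (P₀ : Subgroup Z).subgroupOf E)) := Fintype.ofFinite _
  obtain ⟨ex, hex⟩ : ∃ ex : E, ex = ⟨zx, hzxE⟩ := ⟨_, rfl⟩
  obtain ⟨ax, hax_def⟩ : ∃ ax : E ⧸ (P₀ : Subgroup Z).subgroupOf E,
      ax = QuotientGroup.mk ex := ⟨_, rfl⟩
  have hax : ∀ b : E ⧸ (P₀ : Subgroup Z).subgroupOf E, b * ax = ax * b := by
    intro b
    obtain ⟨e, rfl⟩ := QuotientGroup.mk_surjective b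
    rw [hax_def, ← QuotientGroup.mk_mul, ← QuotientGroup.mk_mul]
    congr 1
    apply Subtype.ext
    show (e : Z) * (ex : Z) = (ex : Z) * (e : Z)
    rw [hex]
    exact hzx_central (e : Z)
  -- the class function T on E
  obtain ⟨T, hTdef⟩ : ∃ T : E → ℂ, T = fun e : E =>
      if (QuotientGroup.mk e : E ⧸ (P₀ : Subgroup Z).subgroupOf E) = ax
      then (Nat.card (E ⧸ (P₀ : Subgroup Z).subgroupOf E) : ℂ) else 0 := ⟨_, rfl⟩
  have hT : ∀ e : E, ∑ lam : Cfsg.IrrCharacter (E ⧸ (P₀ : Subgroup Z).subgroupOf E),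
      (starRingEnd ℂ) (lam.1 ax) * lam.1 (QuotientGroup.mk e) = T e := by
    intro e
    have h1 := column_orth_aux ax (QuotientGroup.mk e : E ⧸ (P₀ : Subgroup Z).subgroupOf E)
    rw [finsum_eq_sum_of_fintype] at h1
    have h2 : ∑ lam : Cfsg.IrrCharacter (E ⧸ (P₀ : Subgroup Z).subgroupOf E),
        (starRingEnd ℂ) (lam.1 ax) * lam.1 (QuotientGroup.mk e)
        = ∑ χ : Cfsg.IrrCharacter (E ⧸ (P₀ : Subgroup Z).subgroupOf E),
          χ.1 (QuotientGroup.mk e) * (starRingEnd ℂ) (χ.1 ax) :=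
      Finset.sum_congr rfl (fun lam _ => mul_comm _ _)
    rw [h2, h1, hTdef]
    have hconj : IsConj ax (QuotientGroup.mk e : E ⧸ (P₀ : Subgroup Z).subgroupOf E)
        ↔ (QuotientGroup.mk e : E ⧸ (P₀ : Subgroup Z).subgroupOf E) = ax := by
      rw [isConj_iff]
      constructor
      · rintro ⟨b, hb⟩
        rw [← hb, hax b]
        group
      · intro h
        exact ⟨1, by rw [h]; group⟩
    have hcent : Subgroup.centralizer ({ax} : Set (E ⧸ (P₀ : Subgroup Z).subgroupOf E)) = ⊤ := by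
      ext b
      simp only [Subgroup.mem_top, iff_true]
      rw [Subgroup.mem_centralizer_iff]
      intro h hh
      rw [Set.mem_singleton_iff.mp hh]
      exact (hax b).symm
    show (if IsConj ax (QuotientGroup.mk e : E ⧸ (P₀ : Subgroup Z).subgroupOf E) then _ else _)
      = if (QuotientGroup.mk e : E ⧸ (P₀ : Subgroup Z).subgroupOf E) = ax then _ else _
    by_cases hc : (QuotientGroup.mk e : E ⧸ (P₀ : Subgroup Z).subgroupOf E) = ax
    · rw [if_pos (hconj.mpr hc), if_pos hc, hcent, Subgroup.card_top]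
    · rw [if_neg (fun h => hc (hconj.mp h)), if_neg hc]
  have hsumE : ∀ z : Z, ∑ lam : Cfsg.IrrCharacter (E ⧸ (P₀ : Subgroup Z).subgroupOf E),
      (starRingEnd ℂ) (lam.1 ax)
        * Cfsg.indFun E (fun e : E => lam.1 (QuotientGroup.mk e)) z
      = Cfsg.indFun E T z := by
    intro z
    rw [sum_mul_indFun E]
    congr 1
    funext e
    exact hT e
  have hsumZ : ∀ g : G, ∑ lam : Cfsg.IrrCharacter (E ⧸ (P₀ : Subgroup Z).subgroupOf E),
      (starRingEnd ℂ) (lam.1 ax)
        * Cfsg.indFun Z (Cfsg.indFun E (fun e : E => lam.1 (QuotientGroup.mk e))) g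
      = Cfsg.indFun Z (Cfsg.indFun E T) g := by
    intro g
    rw [sum_mul_indFun Z]
    congr 1
    funext z
    exact hsumE z
  -- value of θ_Z at zx
  have hE0 : (Nat.card E : ℂ) ≠ 0 := by
    have : Nat.card E ≠ 0 := Nat.card_pos.ne'
    exact_mod_cast this
  have hZ0 : (Nat.card Z : ℂ) ≠ 0 := by
    have : Nat.card Z ≠ 0 := Nat.card_pos.ne'
    exact_mod_cast this
  have hθ1 : Cfsg.indFun E T zx = ((P₀ : Subgroup Z).index : ℂ) := by
    rw [indFun_apply]
    have h1 : ∀ t : Z, Cfsg.extendByZero E T (t⁻¹ * zx * t)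
        = (Nat.card (E ⧸ (P₀ : Subgroup Z).subgroupOf E) : ℂ) := by
      intro t
      have h2 : t⁻¹ * zx * t = zx := by
        rw [mul_assoc, ← hzx_central t]
        group
      rw [h2, extendByZero_mem E T hzxE, hTdef]
      show (if (QuotientGroup.mk (⟨zx, hzxE⟩ : E) : E ⧸ (P₀ : Subgroup Z).subgroupOf E) = ax
        then _ else _) = _
      rw [← hex, hax_def, if_pos rfl]
    rw [Finset.sum_congr rfl (fun t _ => h1 t), Finset.sum_const, Finset.card_univ,
      nsmul_eq_mul, ← Nat.card_eq_fintype_card]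
    have hc1 := Subgroup.card_eq_card_quotient_mul_card_subgroup ((P₀ : Subgroup Z).subgroupOf E)
    have hc2 : Nat.card ((P₀ : Subgroup Z).subgroupOf E) = Nat.card (P₀ : Subgroup Z) :=
      Nat.card_congr (Subgroup.subgroupOfEquivOfLe hPE).toEquiv
    have hc3 := Subgroup.card_mul_index (P₀ : Subgroup Z)
    rw [hc2] at hc1
    rw [hc1, ← hc3]
    have hP0 : (Nat.card (P₀ : Subgroup Z) : ℂ) ≠ 0 := by
      have : Nat.card (P₀ : Subgroup Z) ≠ 0 := Nat.card_pos.ne'
      exact_mod_cast this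
    have hA0 : (Nat.card (E ⧸ (P₀ : Subgroup Z).subgroupOf E) : ℂ) ≠ 0 := by
      have : Nat.card (E ⧸ (P₀ : Subgroup Z).subgroupOf E) ≠ 0 := Nat.card_pos.ne'
      exact_mod_cast this
    push_cast
    field_simp
  have hθ0 : ∀ z : Z, ¬ p ∣ orderOf z → z ≠ zx → Cfsg.indFun E T z = 0 := by
    intro z hzp hzne
    rw [indFun_apply]
    have h1 : ∀ t : Z, Cfsg.extendByZero E T (t⁻¹ * z * t) = 0 := by
      intro t
      by_cases hmem : t⁻¹ * z * t ∈ E
      · rw [extendByZero_mem E T hmem, hTdef]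
        show (if (QuotientGroup.mk (⟨t⁻¹ * z * t, hmem⟩ : E)
          : E ⧸ (P₀ : Subgroup Z).subgroupOf E) = ax then _ else _) = _
        rw [if_neg]
        intro heq
        rw [hax_def, QuotientGroup.eq, Subgroup.mem_subgroupOf] at heq
        have hmemP : (t⁻¹ * z * t)⁻¹ * zx ∈ (P₀ : Subgroup Z) := by
          have h3 : (((⟨t⁻¹ * z * t, hmem⟩ : E)⁻¹ * ex : E) : Z) = (t⁻¹ * z * t)⁻¹ * zx := by
            rw [hex]
            rfl
          rw [← h3]
          exact heq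
        obtain ⟨j, hj⟩ := (IsPGroup.iff_orderOf.mp P₀.isPGroup') ⟨_, hmemP⟩
        rw [Subgroup.orderOf_mk] at hj
        have hord : orderOf (t⁻¹ * z * t) = orderOf z := by
          have h4 := (MulAut.conj t⁻¹).orderOf_eq z
          rw [MulAut.conj_apply, inv_inv] at h4
          exact h4
        have h5 := eq_of_preg hp.out (t⁻¹ * z * t) zx (hzx_central _) (by rw [hord]; exact hzp)
          (by rw [hzx_ord]; exact hx') ⟨j, hj⟩
        apply hzne
        calc z = t * (t⁻¹ * z * t) * t⁻¹ := by group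
          _ = t * zx * t⁻¹ := by rw [h5]
          _ = zx := by rw [hzx_central t]; group
      · exact extendByZero_not_mem E T hmem
    rw [Finset.sum_congr rfl (fun t _ => h1 t), Finset.sum_const_zero, mul_zero]
  refine ⟨Cfsg.IrrCharacter (E ⧸ (P₀ : Subgroup Z).subgroupOf E), inferInstance,
    fun lam => (starRingEnd ℂ) (lam.1 ax),
    fun lam => Cfsg.indFun Z (Cfsg.indFun E (fun e : E => lam.1 (QuotientGroup.mk e))),
    (P₀ : Subgroup Z).index, ?_, ?_, ?_, ?_, ?_⟩
  · intro lam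
    have h1 := isCharacter_isIntegral (isCharacter_of_isIrrCharacter lam.2) ax
    exact h1.map (Complex.conjAe.toAlgHom.restrictScalars ℤ)
  · intro lam
    exact Cfsg.Agent.S0148.result Z _ (Cfsg.Agent.S0148.result E _
      (isCharacter_comp (QuotientGroup.mk' ((P₀ : Subgroup Z).subgroupOf E))
        (isCharacter_of_isIrrCharacter lam.2)))
  · exact P₀.not_dvd_index
  · show ∑ lam : Cfsg.IrrCharacter (E ⧸ (P₀ : Subgroup Z).subgroupOf E),
      (starRingEnd ℂ) (lam.1 ax)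
        * Cfsg.indFun Z (Cfsg.indFun E (fun e : E => lam.1 (QuotientGroup.mk e))) x' = _
    rw [hsumZ x', indFun_apply]
    have h1 : ∀ s : G, Cfsg.extendByZero Z (Cfsg.indFun E T) (s⁻¹ * x' * s)
        = if s ∈ Z then ((P₀ : Subgroup Z).index : ℂ) else 0 := by
      intro s
      by_cases hs : s ∈ Z
      · have h2 : s⁻¹ * x' * s = x' := by
          rw [mul_assoc, (hZmem s).mp hs]
          group
        rw [if_pos hs, h2, extendByZero_mem Z _ hx'Z, ← hzx, hθ1]
      · rw [if_neg hs]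
        by_cases hmem : s⁻¹ * x' * s ∈ Z
        · rw [extendByZero_mem Z _ hmem]
          apply hθ0
          · rw [Subgroup.orderOf_mk]
            have h4 := (MulAut.conj s⁻¹).orderOf_eq x'
            rw [MulAut.conj_apply, inv_inv] at h4
            rw [h4]
            exact hx'
          · intro heq
            apply hs
            rw [hZmem]
            have h5 : s⁻¹ * x' * s = x' := by
              have := congrArg (fun w : Z => (w : G)) heq
              simpa [hzx_coe] using this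
            calc x' * s = s * (s⁻¹ * x' * s) := by group
              _ = s * x' := by rw [h5]
        · exact extendByZero_not_mem Z _ hmem
    rw [Finset.sum_congr rfl (fun s _ => h1 s), Finset.sum_ite, Finset.sum_const_zero, add_zero,
      Finset.sum_const, nsmul_eq_mul]
    have hcard : (Finset.univ.filter (fun s : G => s ∈ Z)).card = Nat.card Z := by
      rw [Nat.card_eq_fintype_card, Fintype.card_subtype]
    rw [hcard]
    field_simp
  · intro y' hy' hnc
    show ∑ lam : Cfsg.IrrCharacter (E ⧸ (P₀ : Subgroup Z).subgroupOf E),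
      (starRingEnd ℂ) (lam.1 ax)
        * Cfsg.indFun Z (Cfsg.indFun E (fun e : E => lam.1 (QuotientGroup.mk e))) y' = _
    rw [hsumZ y', indFun_apply]
    have h1 : ∀ s : G, Cfsg.extendByZero Z (Cfsg.indFun E T) (s⁻¹ * y' * s) = 0 := by
      intro s
      by_cases hmem : s⁻¹ * y' * s ∈ Z
      · rw [extendByZero_mem Z _ hmem]
        apply hθ0
        · rw [Subgroup.orderOf_mk]
          have h4 := (MulAut.conj s⁻¹).orderOf_eq y'
          rw [MulAut.conj_apply, inv_inv] at h4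
          rw [h4]
          exact hy'
        · intro heq
          apply hnc
          have h5 : s⁻¹ * y' * s = x' := by
            have := congrArg (fun w : Z => (w : G)) heq
            simpa [hzx_coe] using this
          rw [isConj_iff]
          refine ⟨s, ?_⟩
          rw [← h5]
          group
      · exact extendByZero_not_mem Z _ hmem
    rw [Finset.sum_congr rfl (fun s _ => h1 s), Finset.sum_const_zero, mul_zero]

theorem main {G : Type u} [Group G] [Fintype G] (p : ℕ) [hpf : Fact p.Prime] (x y x' y' : G)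
    (hx : (∃ k : ℕ, orderOf (x * x'⁻¹) = p ^ k) ∧ Commute (x * x'⁻¹) x' ∧ ¬ p ∣ orderOf x')
    (hy : (∃ k : ℕ, orderOf (y * y'⁻¹) = p ^ k) ∧ Commute (y * y'⁻¹) y' ∧ ¬ p ∣ orderOf y') :
    IsConj x' y' ↔ ∀ χ : Cfsg.IrrCharacter G, ∃ γ : Cfsg.AlgInt,
      (χ : G → ℂ) x ^ (p ^ (Nat.card G).factorization p)
        - (χ : G → ℂ) y ^ (p ^ (Nat.card G).factorization p) = (p : ℂ) * (γ : ℂ) := by
  have hp := hpf.out
  obtain ⟨a, ha⟩ : ∃ a : ℕ, a = (Nat.card G).factorization p := ⟨_, rfl⟩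
  rw [← ha]
  have hpow : ∀ g g' : G, (∃ k : ℕ, orderOf (g * g'⁻¹) = p ^ k) →
      (g * g'⁻¹) ^ (p ^ a) = 1 := by
    rintro g g' ⟨k, hk⟩
    have h1 : p ^ k ∣ Nat.card G := hk ▸ orderOf_dvd_natCard _
    have h2 : k ≤ a := by
      rw [ha]
      exact (Nat.Prime.pow_dvd_iff_le_factorization hp Nat.card_pos.ne').mp h1
    apply orderOf_dvd_iff_pow_eq_one.mp
    rw [hk]
    exact pow_dvd_pow p h2
  have hFx : ∀ χ : Cfsg.IrrCharacter G,
      PC p ((χ : G → ℂ) x ^ (p ^ a)) ((χ : G → ℂ) x' ^ (p ^ a)) :=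
    fun χ => char_pow_congr hp a (isCharacter_of_isIrrCharacter χ.2) x x' hx.2.1
      (hpow x x' hx.1)
  have hFy : ∀ χ : Cfsg.IrrCharacter G,
      PC p ((χ : G → ℂ) y ^ (p ^ a)) ((χ : G → ℂ) y' ^ (p ^ a)) :=
    fun χ => char_pow_congr hp a (isCharacter_of_isIrrCharacter χ.2) y y' hy.2.1
      (hpow y y' hy.1)
  constructor
  · intro hconj χ
    have hcl : (χ : G → ℂ) x' = (χ : G → ℂ) y' := by
      obtain ⟨c, hc⟩ := isConj_iff.mp hconj
      rw [← hc]
      exact (isCharacter_isClassFunction (isCharacter_of_isIrrCharacter χ.2) x' c).symm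
    have h1 : PC p ((χ : G → ℂ) x ^ (p ^ a)) ((χ : G → ℂ) y ^ (p ^ a)) := by
      have h2 := (hFx χ).trans (PC.of_eq (by rw [hcl]))
      exact h2.trans (hFy χ).symm
    obtain ⟨γ, hγ, h⟩ := h1
    exact ⟨⟨γ, hγ⟩, h⟩
  · intro h
    by_contra hnc
    have hirr : ∀ χ : Cfsg.IrrCharacter G,
        PC p ((χ : G → ℂ) x' ^ (p ^ a)) ((χ : G → ℂ) y' ^ (p ^ a)) := by
      intro χ
      obtain ⟨γ, hγ⟩ := h χ
      have h1 : PC p ((χ : G → ℂ) x ^ (p ^ a)) ((χ : G → ℂ) y ^ (p ^ a)) := ⟨γ, γ.2, hγ⟩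
      exact ((hFx χ).symm.trans h1).trans (hFy χ)
    obtain ⟨ι, hι, c, Φ, m, hc, hΦ, hm, hval, hzero⟩ := exists_sep p x' hx.2.2
    have h0 := hzero y' hy.2.2 hnc
    have hA : PC p ((∑ i, c i * Φ i x') ^ (p ^ a)) (∑ i, (c i * Φ i x') ^ (p ^ a)) :=
      frob_finset hp a Finset.univ _
        (fun i _ => (hc i).mul (isCharacter_isIntegral (hΦ i) x'))
    have hB : PC p ((∑ i, c i * Φ i y') ^ (p ^ a)) (∑ i, (c i * Φ i y') ^ (p ^ a)) :=
      frob_finset hp a Finset.univ _
        (fun i _ => (hc i).mul (isCharacter_isIntegral (hΦ i) y'))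
    have hC : PC p (∑ i, (c i * Φ i x') ^ (p ^ a)) (∑ i, (c i * Φ i y') ^ (p ^ a)) := by
      apply PC.finset_sum
      intro i _
      rw [mul_pow, mul_pow]
      exact PC.mul_left _ ((hc i).pow _) (char_congr hp a x' y' hirr (hΦ i))
    have hD := (hA.trans hC).trans hB.symm
    rw [hval, h0, zero_pow (pow_pos hp.pos a).ne'] at hD
    obtain ⟨γ, hγ, hD⟩ := hD
    rw [sub_zero] at hD
    have hint : IsIntegral ℤ (((m ^ (p ^ a) : ℕ) : ℂ) / ((p : ℕ) : ℂ)) := by
      have hp0 : (p : ℂ) ≠ 0 := by exact_mod_cast hp.ne_zero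
      have h3 : ((m ^ (p ^ a) : ℕ) : ℂ) / ((p : ℕ) : ℂ) = γ := by
        push_cast
        rw [hD]
        field_simp
      rw [h3]
      exact hγ
    have hdvd := nat_dvd_of_isIntegral_div hp.ne_zero hint
    exact hm (hp.dvd_of_dvd_pow hdvd)

end Cfsg.Agent.Helper2.PCong
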