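import Mathlib
import Cfsg.Agent.Helper2.PermFS

/-! The permutation character has a unique real orthogonal constituent iff the core has odd
index. -/

namespace Cfsg.Agent.Helper2.PermFS

open Cfsg.Agent.Lead Cfsg.Agent.Helper2.CharN Cfsg.Agent.Helper2.FSInd

universe u

theorem main {G : Type u} [Group G] [Fintype G] (H : Subgroup G) :
    Nat.card {χ : Cfsg.IrrCharacter G //
      Cfsg.classInner (Cfsg.indFun H (fun _ : H => (1 : ℂ))) (χ : G → ℂ) ≠ 0 ∧
      (∀ g : G, (starRingEnd ℂ) ((χ : G → ℂ) g) = (χ : G → ℂ) g) ∧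
      (Nat.card G : ℂ)⁻¹ * ∑ g : G, (χ : G → ℂ) (g * g) = 1} = 1 ↔ Odd H.normalCore.index := by
  classical
  haveI : Fintype H := Fintype.ofFinite H
  haveI : Finite (Cfsg.IrrCharacter G) := finite_irrCharacter G
  haveI : Fintype (Cfsg.IrrCharacter G) := Fintype.ofFinite _
  have hG : (Nat.card G : ℂ) ≠ 0 := natCard_ne_zero_complex G
  have hH : (Nat.card H : ℂ) ≠ 0 := natCard_ne_zero_complex H
  have hπc : Cfsg.IsCharacter G (Cfsg.indFun H (fun _ : H => (1 : ℂ))) :=
    Cfsg.Agent.S0148.result H _ isCharacter_one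
  have htriv : Cfsg.IsIrrCharacter G (fun _ => (1:ℂ)) := isIrrCharacter_one
  have hm1 : Cfsg.classInner (Cfsg.indFun H (fun _ : H => (1 : ℂ))) (fun _ : G => (1:ℂ)) = 1 := by
    rw [Cfsg.Agent.S0146.result H _ _ (isCharacter_isClassFunction isCharacter_one)]
    exact classInner_self_of_isIrrCharacter isIrrCharacter_one
  have hν1 : (Nat.card G : ℂ)⁻¹ * ∑ g : G, (fun _ : G => (1:ℂ)) (g * g) = 1 := by
    rw [Finset.sum_const, Finset.card_univ, nsmul_eq_mul, mul_one, Nat.card_eq_fintype_card]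
    rw [Nat.card_eq_fintype_card] at hG
    exact inv_mul_cancel₀ hG
  have hmemtriv : Cfsg.classInner (Cfsg.indFun H (fun _ : H => (1 : ℂ)))
        ((⟨fun _ => (1:ℂ), htriv⟩ : Cfsg.IrrCharacter G) : G → ℂ) ≠ 0 ∧
      (∀ g : G, (starRingEnd ℂ) (((⟨fun _ => (1:ℂ), htriv⟩ : Cfsg.IrrCharacter G) : G → ℂ) g)
        = ((⟨fun _ => (1:ℂ), htriv⟩ : Cfsg.IrrCharacter G) : G → ℂ) g) ∧
      (Nat.card G : ℂ)⁻¹ * ∑ g : G,
        ((⟨fun _ => (1:ℂ), htriv⟩ : Cfsg.IrrCharacter G) : G → ℂ) (g * g) = 1 := by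
    refine ⟨?_, ?_, hν1⟩
    · show Cfsg.classInner (Cfsg.indFun H (fun _ : H => (1 : ℂ))) (fun _ : G => (1:ℂ)) ≠ 0
      rw [hm1]
      exact one_ne_zero
    · intro g
      show (starRingEnd ℂ) (1:ℂ) = 1
      exact map_one _
  constructor
  · intro hcard
    by_contra hodd
    rw [Nat.not_odd_iff_even] at hodd
    have huniq : ∀ χ : Cfsg.IrrCharacter G,
        Cfsg.classInner (Cfsg.indFun H (fun _ : H => (1 : ℂ))) (χ : G → ℂ) ≠ 0 →
        (Nat.card G : ℂ)⁻¹ * ∑ g : G, (χ : G → ℂ) (g * g) = 1 →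
        χ = ⟨fun _ => (1:ℂ), htriv⟩ := by
      intro χ hne hν
      have hreal : ∀ g : G, (starRingEnd ℂ) ((χ : G → ℂ) g) = (χ : G → ℂ) g := by
        intro g
        rw [Complex.conj_eq_iff_im]
        by_contra him
        have h0 := (indicator_cases χ).2.mpr ⟨g, him⟩
        rw [hν] at h0
        exact one_ne_zero h0
      rw [Nat.card_eq_one_iff_unique] at hcard
      have := hcard.1.elim (⟨χ, hne, hreal, hν⟩ : {χ : Cfsg.IrrCharacter G //
        Cfsg.classInner (Cfsg.indFun H (fun _ : H => (1 : ℂ))) (χ : G → ℂ) ≠ 0 ∧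
        (∀ g : G, (starRingEnd ℂ) ((χ : G → ℂ) g) = (χ : G → ℂ) g) ∧
        (Nat.card G : ℂ)⁻¹ * ∑ g : G, (χ : G → ℂ) (g * g) = 1}) ⟨⟨_, htriv⟩, hmemtriv⟩
      exact congrArg Subtype.val this
    -- an element outside `H` whose square lies in `H`
    haveI : Fact (Nat.Prime 2) := ⟨Nat.prime_two⟩
    obtain ⟨q, hq⟩ := exists_prime_orderOf_dvd_card' 2 (G := G ⧸ H.normalCore) (by
      rw [← Subgroup.index_eq_card]
      exact hodd.two_dvd)
    obtain ⟨g0, rfl⟩ := QuotientGroup.mk_surjective q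
    have hg0 : g0 ∉ H.normalCore := by
      intro h
      have h1 : (QuotientGroup.mk g0 : G ⧸ H.normalCore) = 1 :=
        (QuotientGroup.eq_one_iff g0).mpr h
      rw [h1, orderOf_one] at hq
      omega
    have hg0sq : g0 * g0 ∈ H.normalCore := by
      rw [← QuotientGroup.eq_one_iff, QuotientGroup.mk_mul, ← pow_two, ← hq]
      exact pow_orderOf_eq_one _
    obtain ⟨b, hb⟩ : ∃ b : G, b * g0 * b⁻¹ ∉ H := by
      by_contra hcon
      push_neg at hcon
      exact hg0 hcon
    have hbsq : (b * g0 * b⁻¹) * (b * g0 * b⁻¹) ∈ H := by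
      have h1 := (inferInstance : H.normalCore.Normal).conj_mem _ hg0sq b
      have h2 : (b * g0 * b⁻¹) * (b * g0 * b⁻¹) = b * (g0 * g0) * b⁻¹ := by group
      rw [h2]
      exact Subgroup.normalCore_le H h1
    have hc : Nat.card H + 1 ≤ (Finset.univ.filter (fun g : G => g * g ∈ H)).card := by
      have h1 : insert (b * g0 * b⁻¹) (Finset.univ.filter (fun g : G => g ∈ H))
          ⊆ Finset.univ.filter (fun g : G => g * g ∈ H) := by
        intro g hg
        rw [Finset.mem_insert] at hg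
        rw [Finset.mem_filter]
        rcases hg with rfl | hg
        · exact ⟨Finset.mem_univ _, hbsq⟩
        · rw [Finset.mem_filter] at hg
          exact ⟨Finset.mem_univ _, H.mul_mem hg.2 hg.2⟩
      have h2 := Finset.card_le_card h1
      rw [Finset.card_insert_of_notMem (by
        rw [Finset.mem_filter]
        exact fun h => hb h.2)] at h2
      have h3 : (Finset.univ.filter (fun g : G => g ∈ H)).card = Nat.card H := by
        rw [Nat.card_eq_fintype_card, Fintype.card_subtype]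
      rw [h3] at h2
      exact h2
    -- decomposition of the permutation character
    have hexm : ∀ χ : Cfsg.IrrCharacter G, ∃ k : ℕ,
        Cfsg.classInner (Cfsg.indFun H (fun _ : H => (1 : ℂ))) (χ : G → ℂ) = (k : ℂ) :=
      fun χ => classInner_isCharacter_nat hπc (isCharacter_of_isIrrCharacter χ.2)
    choose m hm using hexm
    have hdec : Cfsg.indFun H (fun _ : H => (1 : ℂ))
        = ∑ χ : Cfsg.IrrCharacter G, (m χ : ℂ) • (χ : G → ℂ) := by
      have h1 := classFunction_eq_finsum (Cfsg.indFun H (fun _ : H => (1 : ℂ)))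
        (indFun_isClassFunction H _)
      rw [finsum_eq_sum_of_fintype] at h1
      refine h1.trans ?_
      exact Finset.sum_congr rfl (fun χ _ => by rw [hm])
    have hsum : (Nat.card G : ℂ)⁻¹ * ∑ g : G, Cfsg.indFun H (fun _ : H => (1 : ℂ)) (g * g)
        = ∑ χ : Cfsg.IrrCharacter G,
            (m χ : ℂ) * ((Nat.card G : ℂ)⁻¹ * ∑ g : G, (χ : G → ℂ) (g * g)) := by
      have h1 : ∀ g : G, Cfsg.indFun H (fun _ : H => (1 : ℂ)) (g * g)
          = ∑ χ : Cfsg.IrrCharacter G, (m χ : ℂ) * (χ : G → ℂ) (g * g) := by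
        intro g
        conv_lhs => rw [hdec]
        rw [Finset.sum_apply]
        rfl
      rw [Finset.sum_congr rfl (fun g _ => h1 g), Finset.sum_comm, Finset.mul_sum]
      refine Finset.sum_congr rfl (fun χ _ => ?_)
      rw [← Finset.mul_sum]
      ring
    rw [sum_ind_sq] at hsum
    have hre := congrArg Complex.re hsum
    rw [Complex.re_sum] at hre
    have hmtriv : m ⟨fun _ => (1:ℂ), htriv⟩ = 1 := by
      have h1 := hm ⟨fun _ => (1:ℂ), htriv⟩
      have h2 : ((m ⟨fun _ => (1:ℂ), htriv⟩ : ℕ) : ℂ) = 1 := by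
        rw [← h1]
        exact hm1
      exact_mod_cast h2
    have hterm : ∀ χ ∈ Finset.univ.erase (⟨fun _ => (1:ℂ), htriv⟩ : Cfsg.IrrCharacter G),
        ((m χ : ℂ) * ((Nat.card G : ℂ)⁻¹ * ∑ g : G, (χ : G → ℂ) (g * g))).re ≤ 0 := by
      intro χ hχ
      have hχne := Finset.ne_of_mem_erase hχ
      by_cases hm0 : m χ = 0
      · rw [hm0]
        simp
      · have hne : Cfsg.classInner (Cfsg.indFun H (fun _ : H => (1 : ℂ))) (χ : G → ℂ) ≠ 0 := by
          rw [hm χ]
          exact_mod_cast hm0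
        rcases (indicator_cases χ).1 with h | h | h
        · rw [h, mul_zero]
          simp
        · exact absurd (huniq χ hne h) hχne
        · rw [h]
          have : ((m χ : ℂ) * (-1 : ℂ)).re = - (m χ : ℝ) := by simp
          rw [this]
          have h0 : (0:ℝ) ≤ (m χ : ℝ) := Nat.cast_nonneg _
          linarith
    have hsplit := Finset.add_sum_erase Finset.univ
      (fun χ : Cfsg.IrrCharacter G =>
        ((m χ : ℂ) * ((Nat.card G : ℂ)⁻¹ * ∑ g : G, (χ : G → ℂ) (g * g))).re)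
      (Finset.mem_univ (⟨fun _ => (1:ℂ), htriv⟩ : Cfsg.IrrCharacter G))
    have hfirst : ((m ⟨fun _ => (1:ℂ), htriv⟩ : ℂ) * ((Nat.card G : ℂ)⁻¹ * ∑ g : G,
        ((⟨fun _ => (1:ℂ), htriv⟩ : Cfsg.IrrCharacter G) : G → ℂ) (g * g))).re = 1 := by
      rw [hmtriv]
      have h1 : (Nat.card G : ℂ)⁻¹ * ∑ g : G,
          ((⟨fun _ => (1:ℂ), htriv⟩ : Cfsg.IrrCharacter G) : G → ℂ) (g * g) = 1 := hν1
      rw [h1]
      simp
    have hle : ((Nat.card G : ℂ)⁻¹ * ((Nat.card H : ℂ)⁻¹ * ((Nat.card G : ℂ)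
          * ((Finset.univ.filter (fun g : G => g * g ∈ H)).card : ℂ)))).re ≤ 1 := by
      rw [hre, ← hsplit]
      beta_reduce
      rw [hfirst]
      have := Finset.sum_nonpos hterm
      linarith
    have hval : (Nat.card G : ℂ)⁻¹ * ((Nat.card H : ℂ)⁻¹ * ((Nat.card G : ℂ)
          * ((Finset.univ.filter (fun g : G => g * g ∈ H)).card : ℂ)))
        = (((Finset.univ.filter (fun g : G => g * g ∈ H)).card : ℝ) / (Nat.card H : ℝ) : ℝ) := by
      push_cast
      field_simp
    rw [hval, Complex.ofReal_re] at hle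
    have hHpos : (0:ℝ) < (Nat.card H : ℝ) := by exact_mod_cast Nat.card_pos
    rw [div_le_one hHpos] at hle
    have hle' : (Finset.univ.filter (fun g : G => g * g ∈ H)).card ≤ Nat.card H := by
      exact_mod_cast hle
    omega
  · intro hodd
    have key : ∀ a : {χ : Cfsg.IrrCharacter G //
        Cfsg.classInner (Cfsg.indFun H (fun _ : H => (1 : ℂ))) (χ : G → ℂ) ≠ 0 ∧
        (∀ g : G, (starRingEnd ℂ) ((χ : G → ℂ) g) = (χ : G → ℂ) g) ∧
        (Nat.card G : ℂ)⁻¹ * ∑ g : G, (χ : G → ℂ) (g * g) = 1},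
        a.1 = ⟨fun _ => (1:ℂ), htriv⟩ := by
      rintro ⟨χ, hne, hreal, hν⟩
      have hconst := const_on_cosets H.normalCore (Cfsg.indFun H (fun _ : H => (1 : ℂ)))
        (fun n hn x => ind_core_mul H n x hn) χ.2 hne
      have hsq := sum_sq_eq H.normalCore hodd (χ : G → ℂ) hconst
      rw [hsq] at hν
      have h1 : Cfsg.classInner (χ : G → ℂ) (fun _ => (1:ℂ)) = 1 := by
        unfold Cfsg.classInner
        simpa using hν
      have h2 := classInner_irr χ ⟨_, htriv⟩
      by_contra hne'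
      rw [if_neg hne'] at h2
      have h3 : Cfsg.classInner (χ : G → ℂ) (fun _ => (1:ℂ)) = 0 := h2
      rw [h1] at h3
      exact one_ne_zero h3
    rw [Nat.card_eq_one_iff_unique]
    exact ⟨⟨fun a b => Subtype.ext ((key a).trans (key b).symm)⟩, ⟨⟨⟨_, htriv⟩, hmemtriv⟩⟩⟩

end Cfsg.Agent.Helper2.PermFS
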