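import Mathlib

/-! Subsets invariant under a permutation of prime order. -/

set_option autoImplicit false

namespace Cfsg.Agent.Helper2.SubsetFix

variable {α : Type*} [Fintype α] [DecidableEq α]

theorem image_eq_of_inv (σ : Equiv.Perm α) (s : Finset α) (h : ∀ x ∈ s, σ x ∈ s) :
    s.image σ = s := by
  apply Finset.eq_of_subset_of_card_le
  · intro y hy
    rw [Finset.mem_image] at hy
    obtain ⟨x, hx, rfl⟩ := hy
    exact h x hx
  · rw [Finset.card_image_of_injective _ σ.injective]

theorem inv_of_image_eq (σ : Equiv.Perm α) (s : Finset α) (h : s.image σ = s) :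
    ∀ x ∈ s, σ x ∈ s := by
  intro x hx
  rw [← h]
  exact Finset.mem_image_of_mem _ hx

theorem extend_step (σ : Equiv.Perm α) {r : ℕ} (hr : r.Prime) (hσ : orderOf σ = r)
    (s : Finset α) (hs : ∀ x ∈ s, σ x ∈ s) (hcard : s.card + r ≤ Fintype.card α) :
    ∃ t : Finset α, (∀ x ∈ t, σ x ∈ t) ∧ t.card = s.card + r := by
  by_cases hex : ∃ x, x ∉ s ∧ σ x ≠ x
  · obtain ⟨x, hxs, hx⟩ := hex
    have hpow : σ ^ r = 1 := by rw [← hσ]; exact pow_orderOf_eq_one σ
    have hsp : ∀ (i : ℕ) (y : α), y ∈ s → (σ ^ i) y ∈ s := by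
      intro i
      induction i with
      | zero => intro y hy; simpa using hy
      | succ i ih =>
        intro y hy
        rw [pow_succ', Equiv.Perm.mul_apply]
        exact hs _ (ih y hy)
    have hnot : ∀ i : ℕ, (σ ^ i) x ∉ s := by
      intro i hi
      have h1 := hsp (r - i % r) _ hi
      rw [← Equiv.Perm.mul_apply, ← pow_add] at h1
      have h2 : σ ^ (r - i % r + i) = 1 := by
        rw [← pow_mod_orderOf, hσ]
        have h3 : r - i % r + i = r * (1 + i / r) := by
          have hlt := Nat.mod_lt i hr.pos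
          have h4 := Nat.mod_add_div i r
          rw [mul_add, mul_one]
          omega
        rw [h3, Nat.mul_mod_right, pow_zero]
      rw [h2] at h1
      exact hxs h1
    have key : ∀ i j, i < j → j < r → (σ ^ i) x = (σ ^ j) x → False := by
      intro i j hij hj h
      have hd : (σ ^ (j - i)) x = x := by
        have h5 : σ ^ j = σ ^ i * σ ^ (j - i) := by
          rw [← pow_add]
          congr 1
          omega
        rw [h5, Equiv.Perm.mul_apply] at h
        exact ((σ ^ i).injective h).symm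
      have hcop : Nat.Coprime (j - i) r := by
        rw [Nat.coprime_comm, Nat.Prime.coprime_iff_not_dvd hr]
        intro hdvd
        have := Nat.le_of_dvd (by omega) hdvd
        omega
      obtain ⟨m, -, hm⟩ := Nat.exists_mul_mod_eq_one_of_coprime hcop hr.one_lt
      have h4 : (σ ^ ((j - i) * m)) x = x := by
        rw [pow_mul]
        exact Equiv.Perm.pow_apply_eq_self_of_apply_eq_self hd m
      rw [← pow_mod_orderOf, hσ, hm, pow_one] at h4
      exact hx h4
    have hinj : ∀ i < r, ∀ j < r, (σ ^ i) x = (σ ^ j) x → i = j := by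
      intro i hi j hj h
      rcases Nat.lt_trichotomy i j with h1 | h1 | h1
      · exact (key i j h1 hj h).elim
      · exact h1
      · exact (key j i h1 hi h.symm).elim
    obtain ⟨O, hO⟩ : ∃ O : Finset α, O = (Finset.range r).image (fun i => (σ ^ i) x) :=
      ⟨_, rfl⟩
    have hOmem : ∀ y, y ∈ O ↔ ∃ i < r, (σ ^ i) x = y := by
      intro y
      rw [hO, Finset.mem_image]
      constructor
      · rintro ⟨i, hi, h⟩
        exact ⟨i, Finset.mem_range.mp hi, h⟩
      · rintro ⟨i, hi, h⟩
        exact ⟨i, Finset.mem_range.mpr hi, h⟩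
    have hOcard : O.card = r := by
      rw [hO, Finset.card_image_of_injOn, Finset.card_range]
      intro i hi j hj h
      exact hinj i (Finset.mem_range.mp hi) j (Finset.mem_range.mp hj) h
    have hOinv : ∀ y ∈ O, σ y ∈ O := by
      intro y hy
      obtain ⟨i, hi, rfl⟩ := (hOmem y).mp hy
      rw [hOmem]
      by_cases hir : i + 1 < r
      · exact ⟨i + 1, hir, by rw [pow_succ', Equiv.Perm.mul_apply]⟩
      · refine ⟨0, hr.pos, ?_⟩
        have h6 : i + 1 = r := by omega
        rw [pow_zero, Equiv.Perm.one_apply, ← Equiv.Perm.mul_apply, ← pow_succ', h6, hpow,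
          Equiv.Perm.one_apply]
    have hdisj : Disjoint s O := by
      rw [Finset.disjoint_left]
      intro y hys hyO
      obtain ⟨i, -, rfl⟩ := (hOmem y).mp hyO
      exact hnot i hys
    refine ⟨s ∪ O, ?_, ?_⟩
    · intro y hy
      rw [Finset.mem_union] at hy ⊢
      rcases hy with h | h
      · exact Or.inl (hs y h)
      · exact Or.inr (hOinv y h)
    · rw [Finset.card_union_of_disjoint hdisj, hOcard]
  · push_neg at hex
    have hc : r ≤ (sᶜ).card := by
      rw [Finset.card_compl]
      omega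
    obtain ⟨t, hts, htc⟩ := Finset.exists_subset_card_eq hc
    have hdisj : Disjoint s t := by
      rw [Finset.disjoint_left]
      intro y hys hyt
      exact Finset.mem_compl.mp (hts hyt) hys
    refine ⟨s ∪ t, ?_, ?_⟩
    · intro y hy
      rw [Finset.mem_union] at hy ⊢
      rcases hy with h | h
      · exact Or.inl (hs y h)
      · have hy' : y ∉ s := Finset.mem_compl.mp (hts h)
        rw [hex y hy']
        exact Or.inr h
    · rw [Finset.card_union_of_disjoint hdisj, htc]

theorem exists_inv (σ : Equiv.Perm α) {r : ℕ} (hr : r.Prime) (hσ : orderOf σ = r) (k : ℕ)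
    (hk : k ≤ Fintype.card α) (hmod : k % r ≤ Fintype.card α % r) :
    ∃ s : Finset α, s.card = k ∧ s.image σ = s := by
  haveI := Fact.mk hr
  have hfix : (σ.supportᶜ).card ≡ Fintype.card α [MOD r] := by
    apply Equiv.Perm.card_compl_support_modEq (n := 1)
    rw [pow_one, ← hσ]
    exact pow_orderOf_eq_one σ
  have hf : k % r ≤ (σ.supportᶜ).card := by
    have h1 : (σ.supportᶜ).card % r = Fintype.card α % r := hfix
    have h2 := Nat.mod_le (σ.supportᶜ).card r
    omega
  obtain ⟨s0, hs0, hs0c⟩ := Finset.exists_subset_card_eq hf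
  have hs0inv : ∀ x ∈ s0, σ x ∈ s0 := by
    intro x hx
    have h1 : x ∉ σ.support := Finset.mem_compl.mp (hs0 hx)
    rw [Equiv.Perm.mem_support, not_not] at h1
    rw [h1]
    exact hx
  have key : ∀ i : ℕ, k % r + r * i ≤ k →
      ∃ s : Finset α, (∀ x ∈ s, σ x ∈ s) ∧ s.card = k % r + r * i := by
    intro i
    induction i with
    | zero =>
      intro _
      exact ⟨s0, hs0inv, by rw [hs0c, mul_zero, add_zero]⟩
    | succ i ih =>
      intro hi
      rw [mul_add, mul_one] at hi
      obtain ⟨s, hs, hsc⟩ := ih (by omega)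
      obtain ⟨t, ht, htc⟩ := extend_step σ hr hσ s hs (by rw [hsc]; omega)
      exact ⟨t, ht, by rw [htc, hsc, mul_add, mul_one, add_assoc]⟩
  obtain ⟨s, hs, hsc⟩ := key (k / r) (by rw [Nat.mod_add_div])
  exact ⟨s, by rw [hsc, Nat.mod_add_div], image_eq_of_inv σ s hs⟩

theorem mod_le_of_all {n k r : ℕ} (hr : r.Prime) (hrn : r ≤ n)
    (h : ∀ σ : Equiv.Perm (Fin n), orderOf σ = r →
      ∃ s : Finset (Fin n), s.card = k ∧ s.image σ = s) :
    k % r ≤ n % r := by
  haveI := Fact.mk hr
  obtain ⟨σ, hσ⟩ := (Equiv.Perm.exists_with_cycleType_iff (α := Fin n)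
    (m := Multiset.replicate (n / r) r)).mpr
    ⟨by rw [Multiset.sum_replicate, Fintype.card_fin, smul_eq_mul]; exact Nat.div_mul_le_self n r,
     fun a ha => by rw [Multiset.eq_of_mem_replicate ha]; exact hr.two_le⟩
  have hdiv : 0 < n / r := Nat.div_pos hrn hr.pos
  have hord : orderOf σ = r := by
    have h1 : orderOf σ ∣ r := by
      rw [← Equiv.Perm.lcm_cycleType, hσ, Multiset.lcm_dvd]
      intro b hb
      rw [Multiset.eq_of_mem_replicate hb]
    have h2 : orderOf σ ≠ 1 := by
      rw [Ne, orderOf_eq_one_iff, ← Equiv.Perm.cycleType_eq_zero, hσ]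
      intro h0
      have h3 := congrArg Multiset.card h0
      rw [Multiset.card_replicate, Multiset.card_zero] at h3
      omega
    rcases (Nat.dvd_prime hr).mp h1 with h3 | h3
    · exact absurd h3 h2
    · exact h3
  have hpow : σ ^ r = 1 := by rw [← hord]; exact pow_orderOf_eq_one σ
  have hsupp : σ.support.card = r * (n / r) := by
    rw [← Equiv.Perm.sum_cycleType, hσ, Multiset.sum_replicate, smul_eq_mul, mul_comm]
  have hfixcard : (σ.supportᶜ).card = n % r := by
    rw [Finset.card_compl, Fintype.card_fin, hsupp]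
    have := Nat.mod_add_div n r
    omega
  obtain ⟨s, hsc, hsi⟩ := h σ hord
  have hmem : ∀ x, x ∈ s ↔ σ x ∈ s := by
    intro x
    constructor
    · exact inv_of_image_eq σ s hsi x
    · intro hx
      rw [← hsi, Finset.mem_image] at hx
      obtain ⟨y, hy, hyx⟩ := hx
      rwa [σ.injective hyx] at hy
  have hmem' : ∀ x, σ x ∈ s ↔ x ∈ s := fun x => (hmem x).symm
  obtain ⟨τ, hτdef⟩ : ∃ τ : Equiv.Perm {x // x ∈ s},
      τ = σ.subtypePerm (p := fun x => x ∈ s) hmem' := ⟨_, rfl⟩
  have hτval : ∀ x : {x // x ∈ s}, ((τ x : {x // x ∈ s}) : Fin n) = σ (x : Fin n) := by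
    intro x
    rw [hτdef]
    rfl
  have hpowval : ∀ (i : ℕ) (x : {x // x ∈ s}),
      (((τ ^ i) x : {x // x ∈ s}) : Fin n) = (σ ^ i) (x : Fin n) := by
    intro i
    induction i with
    | zero => intro x; simp
    | succ i ih =>
      intro x
      rw [pow_succ', pow_succ', Equiv.Perm.mul_apply, Equiv.Perm.mul_apply, hτval, ih]
  have hτ : τ ^ r ^ 1 = 1 := by
    rw [pow_one]
    apply Equiv.ext
    intro x
    apply Subtype.ext
    rw [hpowval, hpow]
    rfl
  have hcong := Equiv.Perm.card_compl_support_modEq (σ := τ) (n := 1) hτ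
  have hle : (τ.supportᶜ).card ≤ (σ.supportᶜ).card := by
    refine Finset.card_le_card_of_injOn (fun x : {x // x ∈ s} => (x : Fin n)) ?_ ?_
    · intro x hx
      have hx' : x ∈ τ.supportᶜ := hx
      have h1 : x ∉ τ.support := Finset.mem_compl.mp hx'
      rw [Equiv.Perm.mem_support, not_not] at h1
      have h2 : σ (x : Fin n) = (x : Fin n) := by rw [← hτval, h1]
      have h3 : (x : Fin n) ∈ σ.supportᶜ := by
        rw [Finset.mem_compl, Equiv.Perm.mem_support, not_not]
        exact h2
      exact h3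
    · intro x _ y _ hxy
      exact Subtype.ext hxy
  have hk : (τ.supportᶜ).card % r = k % r := by
    have h1 := hcong
    rw [Fintype.card_coe, hsc] at h1
    exact h1
  have hlt : n % r < r := Nat.mod_lt n hr.pos
  have hlt2 : (τ.supportᶜ).card < r := by omega
  rw [Nat.mod_eq_of_lt hlt2] at hk
  omega

theorem le_of_dvd_choose {n k r : ℕ} (hr : r.Prime) (hrd : r ∣ n.choose k)
    (hmod : k % r ≤ n % r) : r ≤ k := by
  by_contra hlt
  push_neg at hlt
  haveI := Fact.mk hr
  have h1 := Choose.choose_modEq_choose_mod_mul_choose_div_nat (n := n) (k := k) (p := r)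
  rw [Nat.mod_eq_of_lt hlt, Nat.div_eq_of_lt hlt, Nat.choose_zero_right, mul_one] at h1
  have h2 : r ∣ (n % r).choose k :=
    Nat.modEq_zero_iff_dvd.mp (h1.symm.trans (Nat.modEq_zero_iff_dvd.mpr hrd))
  have hkle : k ≤ n % r := by rwa [Nat.mod_eq_of_lt hlt] at hmod
  have h3 : (n % r).choose k ∣ (n % r).factorial :=
    ⟨k.factorial * (n % r - k).factorial, by
      rw [← Nat.choose_mul_factorial_mul_factorial hkle]; ring⟩
  have h5 := (Nat.Prime.dvd_factorial hr).mp (h2.trans h3)
  have := Nat.mod_lt n hr.pos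
  omega

end Cfsg.Agent.Helper2.SubsetFix
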